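import Mathlib

/-! S2987, piece A1: the even-weight module of an alternating group of odd degree has no central extension. -/

set_option autoImplicit false
set_option linter.unusedSectionVars false

namespace H25.BZ

open Equiv

/-- even permutations fixing a point are products of three-cycles fixing the point -/
theorem mem_closure_three {n : ℕ} (i : Fin n) {σ : Perm (Fin n)} (hσ : σ ∈ alternatingGroup (Fin n)) (hi : σ i = i) :
    σ ∈ Subgroup.closure {τ : Perm (Fin n) | τ.IsThreeCycle ∧ τ i = i} := by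
  classical
  let P : Fin n → Prop := fun j => j ≠ i
  have hP : ∀ j, P (σ j) ↔ P j := by
    intro j
    constructor
    · intro h1 h2
      apply h1
      rw [h2, hi]
    · intro h1 h2
      apply h1
      apply σ.injective
      rw [h2, hi]
  let σ' : Perm {j // P j} := σ.subtypePerm hP
  have hσ' : Perm.ofSubtype σ' = σ := by
    apply Perm.ofSubtype_subtypePerm
    intro j hj hji
    apply hj
    rw [hji, hi]
  have hs : σ' ∈ alternatingGroup {j // P j} := by
    rw [Perm.mem_alternatingGroup] at hσ ⊢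
    rw [← hσ', Perm.sign_ofSubtype] at hσ
    exact hσ
  rw [← Perm.closure_three_cycles_eq_alternating] at hs
  rw [← hσ']
  have h1 : Perm.ofSubtype σ' ∈ (Subgroup.closure {τ : Perm {j // P j} | τ.IsThreeCycle}).map Perm.ofSubtype :=
    Subgroup.mem_map_of_mem _ hs
  rw [MonoidHom.map_closure] at h1
  refine Subgroup.closure_mono ?_ h1
  rintro _ ⟨τ, hτ, rfl⟩
  refine ⟨?_, ?_⟩
  · change τ.IsThreeCycle at hτ
    unfold Perm.IsThreeCycle at hτ ⊢
    rw [Perm.cycleType_ofSubtype, hτ]
  · exact Perm.ofSubtype_apply_of_not_mem τ (by simp [P])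

variable {W E : Type*} [CommGroup W] [Group E]

theorem core (hW2 : ∀ w : W, w * w = 1) {n : ℕ} (hn : Odd n) (α : E →* MulAut W)
    (ρ : E →* Perm (Fin n)) (hρ : ρ.range = alternatingGroup (Fin n)) (htr : ∀ i j : Fin n, ∃ e : E, ρ e i = j)
    (ψ : W →* Multiplicative (Fin n → ZMod 2))
    (hev : ∀ w, ∑ i, Multiplicative.toAdd (ψ w) i = 0)
    (hsurj : ∀ v : Fin n → ZMod 2, ∑ i, v i = 0 → ∃ w, Multiplicative.toAdd (ψ w) = v)
    (heq : ∀ e w i, Multiplicative.toAdd (ψ (α e w)) i = Multiplicative.toAdd (ψ w) ((ρ e)⁻¹ i))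
    (hker : ∀ e, ρ e = 1 → ∀ w, α e w = w) (hZ : ∀ z, ψ z = 1 → ∀ e, α e z = z)
    (hgen : ∀ S : Subgroup W, (∀ e w, α e w * w⁻¹ ∈ S) → S = ⊤) : ∀ z, ψ z = 1 → z = 1 := by
  classical
  obtain ⟨m, hm⟩ := hn
  have hpos : 0 < n := by omega
  let i0 : Fin n := ⟨0, hpos⟩
  have hinv : ∀ w : W, w⁻¹ = w := fun w => inv_eq_of_mul_eq_one_left (hW2 w)
  -- the vectors
  let v : Fin n → (Fin n → ZMod 2) := fun i j => if j = i then 0 else 1
  have hvsum : ∀ (c : Fin n → ZMod 2) j, ∑ i, c i * v i j = (∑ i, c i) - c j := by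
    intro c j
    have h1 : ∀ i, c i * v i j = c i - if j = i then c i else 0 := by
      intro i
      by_cases hij : j = i
      · simp [v, hij]
      · simp [v, hij]
    rw [Finset.sum_congr rfl (fun i _ => h1 i), Finset.sum_sub_distrib, Finset.sum_ite_eq, if_pos (Finset.mem_univ _)]
  have hn1 : ((n : ℕ) : ZMod 2) = 1 := by
    rw [hm]; push_cast
    have : (2 : ZMod 2) = 0 := by decide
    rw [this, zero_mul, zero_add]
  have hvev : ∀ i, ∑ j, v i j = 0 := by
    intro i
    have h1 : ∀ j, v i j = 1 - if j = i then 1 else 0 := by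
      intro j; by_cases h : j = i <;> simp [v, h]
    rw [Finset.sum_congr rfl (fun j _ => h1 j), Finset.sum_sub_distrib, Finset.sum_ite_eq', if_pos (Finset.mem_univ _)]
    simp [hn1]
  obtain ⟨w0, hw0⟩ := hsurj (v i0) (hvev i0)
  -- the stabilizer fixes `w0`
  have hZ2 : ∀ e, ρ e i0 = i0 → ψ (α e w0 * w0⁻¹) = 1 := by
    intro e he
    have h1 : ψ (α e w0) = ψ w0 := by
      apply Multiplicative.toAdd.injective
      funext j
      rw [heq, hw0]
      have h2 : (ρ e)⁻¹ j = i0 ↔ j = i0 := by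
        rw [Perm.inv_eq_iff_eq, he]
      by_cases hj : j = i0
      · simp only [v]; rw [if_pos (h2.mpr hj), if_pos hj]
      · simp only [v]; rw [if_neg (fun h => hj (h2.mp h)), if_neg hj]
    rw [map_mul, map_inv, h1, mul_inv_cancel]
  have hstab : ∀ e, ρ e i0 = i0 → α e w0 = w0 := by
    -- hom property
    have hmul : ∀ a b, α a w0 = w0 → α b w0 = w0 → α (a * b) w0 = w0 := by
      intro a b ha hb
      rw [map_mul, MulAut.mul_apply, hb, ha]
    have h3 : ∀ σ ∈ Subgroup.closure {τ : Perm (Fin n) | τ.IsThreeCycle ∧ τ i0 = i0}, ∀ e, ρ e = σ → α e w0 = w0 := by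
      intro σ hσ
      induction hσ using Subgroup.closure_induction with
      | mem τ hτ =>
        intro e he
        obtain ⟨δ, hδ⟩ : ∃ δ, δ = α e w0 * w0⁻¹ := ⟨_, rfl⟩
        have hδ1 : ψ δ = 1 := by rw [hδ]; exact hZ2 e (by rw [he]; exact hτ.2)
        have hαδ : α e w0 = δ * w0 := by rw [hδ, inv_mul_cancel_right]
        have hfix : α e δ = δ := hZ δ hδ1 e
        have h4 : α (e ^ 3) w0 = δ * (δ * (δ * w0)) := by
          rw [map_pow, pow_succ, pow_succ, pow_one, MulAut.mul_apply, MulAut.mul_apply, hαδ, map_mul, hfix, hαδ,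
            map_mul, map_mul, hfix, hαδ]
        have h5 : ρ (e ^ 3) = 1 := by
          rw [map_pow, he]
          have := pow_orderOf_eq_one τ
          rwa [hτ.1.orderOf] at this
        rw [hker _ h5, ← mul_assoc, hW2, one_mul] at h4
        rw [hαδ]
        exact h4.symm
      | one =>
        intro e he
        exact hker e he w0
      | mul a b ha hb iha ihb =>
        intro e he
        have hha : a ∈ alternatingGroup (Fin n) := by
          have : Subgroup.closure {τ : Perm (Fin n) | τ.IsThreeCycle ∧ τ i0 = i0} ≤ alternatingGroup (Fin n) := by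
            rw [Subgroup.closure_le]
            intro τ hτ
            exact hτ.1.mem_alternatingGroup
          exact this ha
        rw [← hρ] at hha
        obtain ⟨ea, hea⟩ := hha
        have h6 := iha ea hea
        have h7 := ihb (ea⁻¹ * e) (by rw [map_mul, map_inv, hea, he, inv_mul_cancel_left])
        have h8 := hmul _ _ h6 h7
        rwa [mul_inv_cancel_left] at h8
      | inv a ha iha =>
        intro e he
        have h6 := iha e⁻¹ (by rw [map_inv, he, inv_inv])
        have h7 : α e (α e⁻¹ w0) = w0 := by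
          rw [← MulAut.mul_apply, ← map_mul, mul_inv_cancel, map_one, MulAut.one_apply]
        rwa [h6] at h7
    intro e he
    refine h3 (ρ e) (mem_closure_three i0 ?_ he) e rfl
    rw [← hρ]
    exact ⟨e, rfl⟩
  -- the orbit
  choose t ht using (fun i => htr i0 i)
  let ww : Fin n → W := fun i => α (t i) w0
  have hact : ∀ e i, α e (ww i) = ww (ρ e i) := by
    intro e i
    have h1 : α ((t (ρ e i))⁻¹ * (e * t i)) w0 = w0 := by
      apply hstab
      rw [map_mul, map_mul, map_inv, Perm.mul_apply, Perm.mul_apply, ht, Perm.inv_eq_iff_eq, ht]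
    have h2 : α (e * t i) w0 = α (t (ρ e i)) (α ((t (ρ e i))⁻¹ * (e * t i)) w0) := by
      rw [← MulAut.mul_apply, ← map_mul, mul_inv_cancel_left]
    change α e (α (t i) w0) = α (t (ρ e i)) w0
    rw [← MulAut.mul_apply, ← map_mul, h2, h1]
  have hψw : ∀ i, Multiplicative.toAdd (ψ (ww i)) = v i := by
    intro i
    funext j
    change Multiplicative.toAdd (ψ (α (t i) w0)) j = _
    rw [heq, hw0]
    have h2 : (ρ (t i))⁻¹ j = i0 ↔ j = i := by
      rw [Perm.inv_eq_iff_eq, ht]
    by_cases hj : j = i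
    · simp only [v]; rw [if_pos (h2.mpr hj), if_pos hj]
    · simp only [v]; rw [if_neg (fun h => hj (h2.mp h)), if_neg hj]
  let w : W := ∏ i, ww i
  have hwfix : ∀ e, α e w = w := by
    intro e
    rw [map_prod]
    rw [Finset.prod_congr rfl (fun i _ => hact e i)]
    exact Equiv.prod_comp (ρ e) ww
  let w' : Fin n → W := fun i => ww i * w
  have hact' : ∀ e i, α e (w' i) = w' (ρ e i) := by
    intro e i
    change α e (ww i * w) = ww (ρ e i) * w
    rw [map_mul, hact, hwfix]
  have hψwt : ψ w = 1 := by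
    apply Multiplicative.toAdd.injective
    change Multiplicative.toAdd (ψ (∏ i, ww i)) = 0
    rw [map_prod, toAdd_prod]
    funext j
    rw [Finset.sum_apply]
    have h1 : ∀ i, Multiplicative.toAdd (ψ (ww i)) j = 1 * v i j := by
      intro i; rw [hψw, one_mul]
    rw [Finset.sum_congr rfl (fun i _ => h1 i), hvsum (fun _ => 1) j]
    simp [hn1]
  have hψw' : ∀ i, Multiplicative.toAdd (ψ (w' i)) = v i := by
    intro i
    change Multiplicative.toAdd (ψ (ww i * w)) = v i
    rw [map_mul, hψwt, mul_one, hψw]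
  have hpow2 : ∀ x : W, x ^ 2 = 1 := fun x => by rw [pow_two]; exact hW2 x
  have hprod : ∏ i, w' i = 1 := by
    change ∏ i, ww i * w = 1
    rw [Finset.prod_mul_distrib, Finset.prod_const, Finset.card_univ, Fintype.card_fin]
    change w * w ^ n = 1
    rw [← pow_succ', hm, show 2 * m + 1 + 1 = 2 * (m + 1) by ring, pow_mul, hpow2, one_pow]
  -- the map
  let θ : (Fin n → ZMod 2) → W := fun c => ∏ i, (w' i) ^ (c i).val
  have hval : ∀ (x : W) (a b : ZMod 2), x ^ (a + b).val = x ^ a.val * x ^ b.val := by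
    intro x a b
    rw [ZMod.val_add, ← pow_add]
    have h1 : (a.val + b.val) = 2 * ((a.val + b.val) / 2) + (a.val + b.val) % 2 := (Nat.div_add_mod _ 2).symm
    conv_rhs => rw [h1]
    rw [pow_add, pow_mul, hpow2, one_pow, one_mul]
  have hθadd : ∀ c d, θ (c + d) = θ c * θ d := by
    intro c d
    change ∏ i, (w' i) ^ (c i + d i).val = (∏ i, (w' i) ^ (c i).val) * ∏ i, (w' i) ^ (d i).val
    rw [← Finset.prod_mul_distrib]
    exact Finset.prod_congr rfl (fun i _ => hval _ _ _)
  have hψθ : ∀ c j, Multiplicative.toAdd (ψ (θ c)) j = (∑ i, c i) - c j := by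
    intro c j
    change Multiplicative.toAdd (ψ (∏ i, (w' i) ^ (c i).val)) j = _
    rw [map_prod, toAdd_prod, Finset.sum_apply, ← hvsum]
    refine Finset.sum_congr rfl (fun i _ => ?_)
    rw [map_pow, toAdd_pow, hψw', Pi.smul_apply, nsmul_eq_mul, ZMod.natCast_zmod_val]
  have hθact : ∀ e c, ∃ d, α e (θ c) = θ d := by
    intro e c
    refine ⟨fun i => c ((ρ e)⁻¹ i), ?_⟩
    change α e (∏ i, (w' i) ^ (c i).val) = ∏ i, (w' i) ^ (c ((ρ e)⁻¹ i)).val
    rw [map_prod, ← Equiv.prod_comp (ρ e) (fun i => (w' i) ^ (c ((ρ e)⁻¹ i)).val)]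
    refine Finset.prod_congr rfl (fun i _ => ?_)
    have h1 : (ρ e)⁻¹ (ρ e i) = i := by rw [Perm.inv_eq_iff_eq]
    rw [map_pow, hact', h1]
  have hθone : ∀ c, ψ (θ c) = 1 → θ c = 1 := by
    intro c hc
    have h1 : ∀ j, c j = ∑ i, c i := by
      intro j
      have h2 := hψθ c j
      rw [hc] at h2
      change (0 : ZMod 2) = _ at h2
      exact (sub_eq_zero.mp h2.symm).symm
    set s := ∑ i, c i with hs
    have h3 : θ c = ∏ i, (w' i) ^ s.val := Finset.prod_congr rfl (fun i _ => by rw [h1 i])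
    rw [h3, Finset.prod_pow, hprod, one_pow]
  let S : Subgroup W :=
    { carrier := Set.range θ
      one_mem' := ⟨0, by
        change ∏ i, (w' i) ^ ((0 : ZMod 2)).val = 1
        simp⟩
      mul_mem' := by
        rintro _ _ ⟨c, rfl⟩ ⟨d, rfl⟩
        exact ⟨c + d, hθadd c d⟩
      inv_mem' := by
        rintro _ ⟨c, rfl⟩
        exact ⟨c, (hinv _).symm⟩ }
  have hS : S = ⊤ := by
    apply hgen
    intro e x
    set c := Multiplicative.toAdd (ψ x) with hc
    have h1 : ψ (x * θ c) = 1 := by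
      apply Multiplicative.toAdd.injective
      rw [map_mul]
      change Multiplicative.toAdd (ψ x) + Multiplicative.toAdd (ψ (θ c)) = 0
      funext j
      rw [Pi.add_apply, hψθ, hev x, ← hc, zero_sub, ← sub_eq_add_neg, sub_self]
      rfl
    set z := x * θ c with hz
    have hx : x = z * θ c := by rw [hz, mul_assoc, hW2, mul_one]
    have h2 : α e x * x⁻¹ = α e (θ c) * (θ c)⁻¹ := by
      rw [hx, map_mul, hZ z h1 e, hinv, hinv]
      calc z * α e (θ c) * (z * θ c) = (z * z) * (α e (θ c) * θ c) := by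
            rw [mul_mul_mul_comm]
        _ = α e (θ c) * θ c := by rw [hW2, one_mul]
    rw [h2]
    obtain ⟨d, hd⟩ := hθact e c
    rw [hd]
    exact S.mul_mem ⟨d, rfl⟩ (S.inv_mem ⟨c, rfl⟩)
  intro z hz
  have h1 : z ∈ S := by rw [hS]; exact Subgroup.mem_top z
  obtain ⟨c, rfl⟩ := h1
  exact hθone c hz

end H25.BZ
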