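import Mathlib

/-! S2987, piece A2, core: an additive bijection of the even-weight vectors normalizing the alternating group is
a permutation. -/

set_option autoImplicit false
set_option linter.all false

namespace H25.BZ

def dd {n : ℕ} (i j : Fin n) : Fin n → ZMod 2 := Pi.single i 1 + Pi.single j 1

theorem z2 (c : ZMod 2) : c = 0 ∨ c = 1 := by
  revert c; decide

theorem z2s (c : ZMod 2) : c + c = 0 := by
  revert c; decide

theorem dd_even {n : ℕ} (i j : Fin n) : ∑ k, dd i j k = 0 := by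
  simp only [dd, Pi.add_apply, Finset.sum_add_distrib]
  rw [Finset.sum_pi_single', Finset.sum_pi_single']
  simp only [Finset.mem_univ, if_true]
  exact z2s 1

theorem dd_self {n : ℕ} (i : Fin n) : dd i i = 0 := by
  funext l
  exact z2s _

theorem dd_comm {n : ℕ} (i j : Fin n) : dd i j = dd j i := add_comm _ _

theorem dd_tri {n : ℕ} (i j k : Fin n) : dd i j + dd j k = dd i k := by
  funext l
  have h := z2s ((Pi.single j (1 : ZMod 2) : Fin n → ZMod 2) l)
  simp only [dd, Pi.add_apply]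
  linear_combination h

theorem dd_l {n : ℕ} {i j : Fin n} (h : i ≠ j) : dd i j i = 1 := by
  simp [dd, Pi.single_apply, h]

theorem dd_r {n : ℕ} {i j : Fin n} (h : i ≠ j) : dd i j j = 1 := by
  simp [dd, Pi.single_apply, h.symm]

theorem dd_o {n : ℕ} {i j l : Fin n} (h : l ≠ i) (h' : l ≠ j) : dd i j l = 0 := by
  simp [dd, Pi.single_apply, h, h']

theorem dd_mem {n : ℕ} {i j l : Fin n} (h : dd i j l = 1) : l = i ∨ l = j := by
  by_contra hc
  push Not at hc
  rw [dd_o hc.1 hc.2] at h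
  exact zero_ne_one h

theorem dd_comp {n : ℕ} (τ : Equiv.Perm (Fin n)) (a b l : Fin n) : dd a b (τ l) = dd (τ⁻¹ a) (τ⁻¹ b) l := by
  simp only [dd, Pi.add_apply, Pi.single_apply, Equiv.Perm.eq_inv_iff_eq]

/-- weight two -/
def W2 {n : ℕ} (v : Fin n → ZMod 2) : Prop := ∃ a b, a ≠ b ∧ v = dd a b

theorem W2.at {n : ℕ} {v : Fin n → ZMod 2} (h : W2 v) {p : Fin n} (hp : v p = 1) : ∃ q, q ≠ p ∧ v = dd p q := by
  obtain ⟨a, b, hab, rfl⟩ := h
  rcases dd_mem hp with rfl | rfl
  · exact ⟨b, hab.symm, rfl⟩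
  · exact ⟨a, hab, dd_comm _ _⟩

theorem W2.three {n : ℕ} {v : Fin n → ZMod 2} (h : W2 v) {p q r : Fin n} (hp : v p = 1) (hq : v q = 1) (hr : v r = 1) :
    p = q ∨ p = r ∨ q = r := by
  obtain ⟨a, b, hab, rfl⟩ := h
  rcases dd_mem hp with rfl | rfl <;> rcases dd_mem hq with rfl | rfl <;> rcases dd_mem hr with rfl | rfl <;> simp

theorem W2.meet {n : ℕ} {v w : Fin n → ZMod 2} (hv : W2 v) (hw : W2 w) (hvw : W2 (v + w)) : ∃ a, v a = 1 ∧ w a = 1 := by
  obtain ⟨p, q, hpq, rfl⟩ := hv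
  by_contra hc
  push Not at hc
  have h1 : w p = 0 := (z2 _).resolve_right (hc p (dd_l hpq))
  have h2 : w q = 0 := (z2 _).resolve_right (hc q (dd_r hpq))
  obtain ⟨r, s, hrs, rfl⟩ := hw
  have h3 : dd p q r = 0 := (z2 _).resolve_right (fun h => hc r h (dd_l hrs))
  have hrp : p ≠ r := by rintro rfl; rw [dd_l hrs] at h1; exact one_ne_zero h1
  have hrq : q ≠ r := by rintro rfl; rw [dd_l hrs] at h2; exact one_ne_zero h2
  rcases hvw.three (p := p) (q := q) (r := r) (by rw [Pi.add_apply, h1, dd_l hpq, add_zero])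
    (by rw [Pi.add_apply, h2, dd_r hpq, add_zero]) (by rw [Pi.add_apply, h3, dd_l hrs, zero_add]) with h | h | h
  · exact hpq h
  · exact hrp h
  · exact hrq h

theorem exists_third {n : ℕ} (hn : 3 ≤ n) (i j : Fin n) : ∃ k, k ≠ i ∧ k ≠ j := by
  classical
  obtain ⟨k, hk⟩ : ∃ k : Fin n, k ∉ ({i, j} : Finset (Fin n)) := by
    by_contra hcon
    push Not at hcon
    have h1 : (Finset.univ : Finset (Fin n)) ⊆ {i, j} := fun x _ => hcon x
    have h2 := Finset.card_le_card h1
    rw [Finset.card_univ, Fintype.card_fin] at h2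
    have h3 : ({i, j} : Finset (Fin n)).card ≤ 2 := Finset.card_le_two
    omega
  rw [Finset.mem_insert, Finset.mem_singleton] at hk
  push Not at hk
  exact ⟨k, hk⟩

theorem four_case {M : Type*} [AddCommGroup M] (h2 : ∀ m : M, m + m = 0) {α β γ g1 g2 : M} (hγ : α + β = γ)
    (h1 : g1 = α ∨ g1 = β ∨ g1 = γ) (h1' : g2 = α ∨ g2 = β ∨ g2 = γ) (hne : g1 ≠ g2) :
    α = g1 ∨ α = g2 ∨ α = g1 + g2 := by
  subst hγ
  rcases h1 with rfl | rfl | rfl
  · exact Or.inl rfl
  · rcases h1' with rfl | rfl | rfl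
    · exact Or.inr (Or.inl rfl)
    · exact absurd rfl hne
    · right; right
      rw [add_comm α g1, ← add_assoc, h2, zero_add]
  · rcases h1' with rfl | rfl | rfl
    · exact Or.inr (Or.inl rfl)
    · right; right
      rw [add_assoc, h2, add_zero]
    · exact absurd rfl hne

theorem weight_two {n : ℕ} (hn : 5 ≤ n) (x : (Fin n → ZMod 2) → (Fin n → ZMod 2))
    (hev : ∀ v, ∑ i, v i = 0 → ∑ i, x v i = 0)
    (hadd : ∀ v w, ∑ i, v i = 0 → ∑ i, w i = 0 → x (v + w) = x v + x w)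
    (hinj : ∀ v, ∑ i, v i = 0 → x v = 0 → v = 0)
    (hsur : ∀ w, ∑ i, w i = 0 → ∃ v, ∑ i, v i = 0 ∧ x v = w)
    (hnz : ∀ σ ∈ alternatingGroup (Fin n), ∃ σ' ∈ alternatingGroup (Fin n), ∀ v, ∑ i, v i = 0 →
      ∀ i, x (fun i => v (σ⁻¹ i)) i = x v (σ'⁻¹ i)) {i j : Fin n} (hij : i ≠ j) : W2 (x (dd i j)) := by
  classical
  obtain ⟨k, hki, hkj⟩ := exists_third (by omega) i j
  set σ : Equiv.Perm (Fin n) := Equiv.swap i j * Equiv.swap j k with hσ
  have hσA : σ ∈ alternatingGroup (Fin n) := by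
    rw [Equiv.Perm.mem_alternatingGroup, hσ, map_mul, Equiv.Perm.sign_swap hij, Equiv.Perm.sign_swap hkj.symm]
    rfl
  obtain ⟨σ', -, hx⟩ := hnz σ hσA
  have s1 : σ i = j := by
    rw [hσ, Equiv.Perm.mul_apply, Equiv.swap_apply_of_ne_of_ne hij hki.symm, Equiv.swap_apply_left]
  have s2 : σ j = k := by
    rw [hσ, Equiv.Perm.mul_apply, Equiv.swap_apply_left, Equiv.swap_apply_of_ne_of_ne hki hkj]
  have s3 : σ k = i := by
    rw [hσ, Equiv.Perm.mul_apply, Equiv.swap_apply_right, Equiv.swap_apply_right]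
  have s4 : ∀ l, l ≠ i → l ≠ j → l ≠ k → σ l = l := by
    intro l h1 h2 h3
    rw [hσ, Equiv.Perm.mul_apply, Equiv.swap_apply_of_ne_of_ne h2 h3, Equiv.swap_apply_of_ne_of_ne h1 h2]
  have t1 : σ⁻¹ j = i := Equiv.Perm.inv_eq_iff_eq.mpr s1.symm
  have t2 : σ⁻¹ k = j := Equiv.Perm.inv_eq_iff_eq.mpr s2.symm
  have t3 : σ⁻¹ i = k := Equiv.Perm.inv_eq_iff_eq.mpr s3.symm
  have t4 : ∀ l, l ≠ i → l ≠ j → l ≠ k → σ⁻¹ l = l := by
    intro l h1 h2 h3
    exact Equiv.Perm.inv_eq_iff_eq.mpr (s4 l h1 h2 h3).symm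
  have hc3 : ∀ l, σ⁻¹ (σ⁻¹ (σ⁻¹ l)) = l := by
    intro l
    by_cases h1 : l = i
    · rw [h1, t3, t2, t1]
    by_cases h2 : l = j
    · rw [h2, t1, t3, t2]
    by_cases h3 : l = k
    · rw [h3, t2, t1, t3]
    · rw [t4 l h1 h2 h3, t4 l h1 h2 h3, t4 l h1 h2 h3]
  have hPe : ∀ (τ : Equiv.Perm (Fin n)) (v : Fin n → ZMod 2), ∑ i, v i = 0 → ∑ i, v (τ i) = 0 := by
    intro τ v hv
    rw [Equiv.sum_comp τ v]
    exact hv
  -- D v
  have hD : ∀ v : Fin n → ZMod 2, (fun l => v (σ⁻¹ l)) + v = 0 ∨ (fun l => v (σ⁻¹ l)) + v = dd i j ∨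
      (fun l => v (σ⁻¹ l)) + v = dd j k ∨ (fun l => v (σ⁻¹ l)) + v = dd i k := by
    intro v
    have e1 : ((fun l => v (σ⁻¹ l)) + v) i = v k + v i := by rw [Pi.add_apply, t3]
    have e2 : ((fun l => v (σ⁻¹ l)) + v) j = v i + v j := by rw [Pi.add_apply, t1]
    have e3 : ((fun l => v (σ⁻¹ l)) + v) k = v j + v k := by rw [Pi.add_apply, t2]
    have e4 : ∀ l, l ≠ i → l ≠ j → l ≠ k → ((fun l => v (σ⁻¹ l)) + v) l = 0 := by
      intro l h1 h2 h3
      rw [Pi.add_apply]
      change v (σ⁻¹ l) + v l = 0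
      rw [t4 l h1 h2 h3]; exact z2s _
    have key : ∀ w : Fin n → ZMod 2, ((fun l => v (σ⁻¹ l)) + v) i = w i → ((fun l => v (σ⁻¹ l)) + v) j = w j →
        ((fun l => v (σ⁻¹ l)) + v) k = w k → (∀ l, l ≠ i → l ≠ j → l ≠ k → w l = 0) →
        (fun l => v (σ⁻¹ l)) + v = w := by
      intro w a1 a2 a3 a4
      funext l
      by_cases h1 : l = i
      · rw [h1]; exact a1
      by_cases h2 : l = j
      · rw [h2]; exact a2
      by_cases h3 : l = k
      · rw [h3]; exact a3
      rw [e4 l h1 h2 h3, a4 l h1 h2 h3]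
    rcases z2 (v k + v i) with hs | hs <;> rcases z2 (v i + v j) with ht | ht
    · left
      apply key
      · rw [e1, hs]; rfl
      · rw [e2, ht]; rfl
      · rw [e3]
        change v j + v k = 0
        have h5 := z2s (v i)
        linear_combination hs + ht - h5
      · intro l _ _ _; rfl
    · right; right; left
      apply key
      · rw [e1, hs, dd_o hij hki.symm]
      · rw [e2, ht, dd_l hkj.symm]
      · rw [e3, dd_r hkj.symm]
        have h5 := z2s (v i)
        linear_combination hs + ht - h5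
      · intro l _ h2 h3; exact dd_o h2 h3
    · right; right; right
      apply key
      · rw [e1, hs, dd_l hki.symm]
      · rw [e2, ht, dd_o hij.symm hkj.symm]
      · rw [e3, dd_r hki.symm]
        have h5 := z2s (v i)
        linear_combination hs + ht - h5
      · intro l h1 _ h3; exact dd_o h1 h3
    · right; left
      apply key
      · rw [e1, hs, dd_l hij]
      · rw [e2, ht, dd_r hij]
      · rw [e3, dd_o hki hkj]
        have h5 := z2s (v i)
        have h6 := z2s (1 : ZMod 2)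
        linear_combination hs + ht - h5 + h6
      · intro l h1 h2 _; exact dd_o h1 h2
  set α := x (dd i j) with hα
  set β := x (dd j k) with hβ
  set γ := x (dd i k) with hγ
  have hsum : α + β = γ := by
    rw [hα, hβ, hγ, ← hadd _ _ (dd_even _ _) (dd_even _ _), dd_tri]
  have hx0 : x 0 = 0 := by
    have := hadd 0 0 (by simp) (by simp)
    rw [add_zero] at this
    exact left_eq_add.mp this
  have hD' : ∀ w : Fin n → ZMod 2, ∑ i, w i = 0 → (fun l => w (σ'⁻¹ l)) + w ≠ 0 →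
      ((fun l => w (σ'⁻¹ l)) + w = α ∨ (fun l => w (σ'⁻¹ l)) + w = β ∨ (fun l => w (σ'⁻¹ l)) + w = γ) := by
    intro w hw hne
    obtain ⟨v, hv, rfl⟩ := hsur w hw
    have h1 : (fun l => x v (σ'⁻¹ l)) = x (fun l => v (σ⁻¹ l)) := by
      funext l
      exact (hx v hv l).symm
    rw [h1, ← hadd _ _ (hPe _ v hv) hv] at hne ⊢
    rcases hD v with h | h | h | h
    · rw [h, hx0] at hne; exact absurd rfl hne
    · rw [h]; exact Or.inl rfl
    · rw [h]; exact Or.inr (Or.inl rfl)
    · rw [h]; exact Or.inr (Or.inr rfl)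
  set τ := σ'⁻¹ with hτ
  have hτ3 : ∀ l, τ (τ (τ l)) = l := by
    intro l
    by_contra hne
    obtain ⟨m, hm1, hm2⟩ := exists_third (by omega) l (τ (τ (τ l)))
    obtain ⟨v, hv, hxv⟩ := hsur (dd l m) (dd_even _ _)
    have h1 : x v (τ (τ (τ l))) = x v l := by
      rw [← hx v hv, ← hx _ (hPe _ _ hv), ← hx _ (hPe _ _ (hPe _ _ hv))]
      have h2 : (fun i => v (σ⁻¹ (σ⁻¹ (σ⁻¹ i)))) = v := by
        funext l
        rw [hc3]
      change x (fun i => v (σ⁻¹ (σ⁻¹ (σ⁻¹ i)))) l = x v l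
      rw [h2]
    rw [hxv, dd_l hm1.symm, dd_o hne hm2.symm] at h1
    exact zero_ne_one h1
  obtain ⟨a, ha⟩ : ∃ a, τ a ≠ a := by
    by_contra hc
    push Not at hc
    have h1 : x ((fun l => dd i j (σ⁻¹ l)) + dd i j) = 0 := by
      rw [hadd _ _ (hPe _ _ (dd_even _ _)) (dd_even _ _)]
      funext l
      rw [Pi.add_apply, hx _ (dd_even _ _), hc l]
      exact z2s _
    have h2 := hinj _ (by
      simp only [Pi.add_apply, Finset.sum_add_distrib]
      rw [hPe _ _ (dd_even _ _), dd_even, add_zero]) h1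
    have h3 := congrFun h2 i
    rw [Pi.add_apply, t3, dd_l hij, dd_o hki hkj] at h3
    exact one_ne_zero ((zero_add (1 : ZMod 2)).symm.trans h3)
  set b := τ a with hb
  set c := τ b with hc
  have hca : τ c = a := hτ3 a
  have hcb : c ≠ b := by
    intro h
    apply ha
    apply τ.injective
    rw [← hc, h]
  have hca' : c ≠ a := by
    intro h
    rw [h] at hca
    exact ha hca
  have u1 : τ⁻¹ b = a := Equiv.Perm.inv_eq_iff_eq.mpr hb
  have u2 : τ⁻¹ c = b := Equiv.Perm.inv_eq_iff_eq.mpr hc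
  have u3 : τ⁻¹ a = c := Equiv.Perm.inv_eq_iff_eq.mpr hca.symm
  have g1 : (fun l => dd a b (τ l)) + dd a b = dd c b := by
    have : (fun l => dd a b (τ l)) = dd c a := by
      funext l
      rw [dd_comp, u1, u3]
    rw [this, dd_tri]
  have g2 : (fun l => dd b c (τ l)) + dd b c = dd a c := by
    have : (fun l => dd b c (τ l)) = dd a b := by
      funext l
      rw [dd_comp, u1, u2]
    rw [this, dd_tri]
  have n1 : dd c b ≠ 0 := fun h => by
    have := congrFun h c
    rw [dd_l hcb] at this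
    exact one_ne_zero this
  have n2 : dd a c ≠ 0 := fun h => by
    have := congrFun h a
    rw [dd_l hca'.symm] at this
    exact one_ne_zero this
  have n3 : dd c b ≠ dd a c := fun h => by
    have := congrFun h a
    rw [dd_l hca'.symm, dd_o hca'.symm (Ne.symm ha)] at this
    exact zero_ne_one this
  have m1 := hD' (dd a b) (dd_even _ _) (by rw [g1]; exact n1)
  have m2 := hD' (dd b c) (dd_even _ _) (by rw [g2]; exact n2)
  rw [g1] at m1
  rw [g2] at m2
  rcases four_case (fun m => by funext l; exact z2s _) hsum m1 m2 n3 with h | h | h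
  · exact ⟨c, b, hcb, h⟩
  · exact ⟨a, c, hca'.symm, h⟩
  · refine ⟨b, a, ha, ?_⟩
    rw [h, dd_comm c b, dd_comm a c, dd_tri]

theorem norm_perm {n : ℕ} (hn : 5 ≤ n) (x : (Fin n → ZMod 2) → (Fin n → ZMod 2))
    (hev : ∀ v, ∑ i, v i = 0 → ∑ i, x v i = 0)
    (hadd : ∀ v w, ∑ i, v i = 0 → ∑ i, w i = 0 → x (v + w) = x v + x w)
    (hinj : ∀ v, ∑ i, v i = 0 → x v = 0 → v = 0)
    (hsur : ∀ w, ∑ i, w i = 0 → ∃ v, ∑ i, v i = 0 ∧ x v = w)
    (hnz : ∀ σ ∈ alternatingGroup (Fin n), ∃ σ' ∈ alternatingGroup (Fin n), ∀ v, ∑ i, v i = 0 →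
      ∀ i, x (fun i => v (σ⁻¹ i)) i = x v (σ'⁻¹ i)) :
    ∃ π : Equiv.Perm (Fin n), ∀ v, ∑ i, v i = 0 → ∀ i, x v i = v (π⁻¹ i) := by
  classical
  have hW : ∀ {i j : Fin n}, i ≠ j → W2 (x (dd i j)) := fun h => weight_two hn x hev hadd hinj hsur hnz h
  have hx0 : x 0 = 0 := by
    have := hadd 0 0 (by simp) (by simp)
    rw [add_zero] at this
    exact left_eq_add.mp this
  have hxi : ∀ v w, ∑ i, v i = 0 → ∑ i, w i = 0 → x v = x w → v = w := by
    intro v w hv hw h
    have h1 : x (v + w) = 0 := by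
      rw [hadd v w hv hw, h]
      funext l; exact z2s _
    have h2 := hinj _ (by simp only [Pi.add_apply, Finset.sum_add_distrib]; rw [hv, hw, add_zero]) h1
    funext l
    have h3 := congrFun h2 l
    rw [Pi.add_apply, Pi.zero_apply] at h3
    have h4 := z2s (w l)
    linear_combination h3 - h4
  let o : Fin n := ⟨0, by omega⟩
  let i1 : Fin n := ⟨1, by omega⟩
  let i2 : Fin n := ⟨2, by omega⟩
  have h01 : o ≠ i1 := by simp [o, i1]
  have h02 : o ≠ i2 := by simp [o, i2]
  have h12 : i1 ≠ i2 := by simp [i1, i2]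
  have hs : ∀ i j, x (dd o i) + x (dd o j) = x (dd i j) := by
    intro i j
    rw [← hadd _ _ (dd_even _ _) (dd_even _ _), dd_comm o i, dd_tri]
  obtain ⟨a, ha1, ha2⟩ := W2.meet (hW h01) (hW h02) (by rw [hs]; exact hW h12)
  obtain ⟨b, hba, hb⟩ := (hW h01).at ha1
  obtain ⟨c, hca, hc⟩ := (hW h02).at ha2
  have hall : ∀ j, j ≠ o → x (dd o j) a = 1 := by
    intro j hj
    by_cases hj1 : j = i1
    · rw [hj1]; exact ha1
    by_cases hj2 : j = i2
    · rw [hj2]; exact ha2
    by_contra hcon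
    have hja : x (dd o j) a = 0 := (z2 _).resolve_right hcon
    obtain ⟨p, hp1, hp2⟩ := W2.meet (hW h01) (hW hj.symm) (by rw [hs]; exact hW (Ne.symm hj1))
    obtain ⟨q, hq1, hq2⟩ := W2.meet (hW h02) (hW hj.symm) (by rw [hs]; exact hW (Ne.symm hj2))
    rw [hb] at hp1
    rw [hc] at hq1
    rcases dd_mem hp1 with rfl | rfl
    · exact hcon hp2
    rcases dd_mem hq1 with rfl | rfl
    · exact hcon hq2
    obtain ⟨r, hr, hr'⟩ := (hW hj.symm).at hp2
    have hpq : p ≠ q := by
      rintro rfl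
      have := hxi _ _ (dd_even _ _) (dd_even _ _) (hb.trans hc.symm)
      have h5 := congrFun this i1
      rw [dd_r h01, dd_o h01.symm h12] at h5
      exact one_ne_zero h5
    have h6 : q = r := by
      rw [hr'] at hq2
      rcases dd_mem hq2 with h | h
      · exact absurd h.symm hpq
      · exact h
    have h7 : x (dd o j) = x (dd i1 i2) := by
      rw [← hs i1 i2, hb, hc, hr', ← h6, dd_comm a p, dd_tri]
    have h8 := hxi _ _ (dd_even _ _) (dd_even _ _) h7
    have h9 := congrFun h8 o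
    rw [dd_l hj.symm, dd_o h01 h02] at h9
    exact one_ne_zero h9
  have hq : ∀ j, ∃ q, x (dd o j) = dd a q := by
    intro j
    by_cases hj : j = o
    · refine ⟨a, ?_⟩
      rw [hj, dd_self, dd_self, hx0]
    · obtain ⟨q, -, hq⟩ := (hW (Ne.symm hj)).at (hall j hj)
      exact ⟨q, hq⟩
  choose q hq using hq
  have hqi : Function.Injective q := by
    intro i j hij
    have h1 : x (dd o i) = x (dd o j) := by rw [hq, hq, hij]
    have h2 := hxi _ _ (dd_even _ _) (dd_even _ _) h1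
    by_contra hne
    have h3 : dd i j = 0 := by
      rw [← dd_tri i o j, dd_comm i o, h2]
      funext l; exact z2s _
    have h4 := congrFun h3 i
    rw [dd_l hne] at h4
    exact one_ne_zero h4
  let π : Equiv.Perm (Fin n) := Equiv.ofBijective q (Finite.injective_iff_bijective.mp hqi)
  have hπ : ∀ j, π j = q j := fun j => rfl
  refine ⟨π, ?_⟩
  intro v hv i
  have hsm : ∀ (c : ZMod 2) j, x (c • dd o j) = c • dd a (q j) := by
    intro c j
    rcases z2 c with rfl | rfl
    · rw [zero_smul, zero_smul, hx0]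
    · rw [one_smul, one_smul, hq]
  have hse : ∀ (s : Finset (Fin n)), ∑ l, (∑ j ∈ s, v j • dd o j) l = 0 := by
    intro s
    simp only [Finset.sum_apply, Pi.smul_apply]
    rw [Finset.sum_comm]
    apply Finset.sum_eq_zero
    intro j _
    rw [← Finset.smul_sum, dd_even, smul_zero]
  have hsum : ∀ (s : Finset (Fin n)), x (∑ j ∈ s, v j • dd o j) = ∑ j ∈ s, v j • dd a (q j) := by
    intro s
    induction s using Finset.induction_on with
    | empty => rw [Finset.sum_empty, Finset.sum_empty, hx0]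
    | insert j s hj ih =>
      rw [Finset.sum_insert hj, Finset.sum_insert hj, hadd _ _ _ (hse s), ih, hsm]
      simp only [Pi.smul_apply]
      rw [← Finset.smul_sum, dd_even, smul_zero]
  have hvs : v = ∑ j, v j • dd o j := by
    funext l
    rw [Finset.sum_apply]
    simp only [Pi.smul_apply, dd, Pi.add_apply, smul_eq_mul, mul_add, Finset.sum_add_distrib]
    rw [← Finset.sum_mul, hv, zero_mul, zero_add]
    simp [Pi.single_apply]
  have h1 := congrFun (hsum Finset.univ) i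
  rw [← hvs] at h1
  rw [h1, Finset.sum_apply]
  simp only [Pi.smul_apply, dd, Pi.add_apply, smul_eq_mul, mul_add, Finset.sum_add_distrib]
  rw [← Finset.sum_mul, hv, zero_mul, zero_add]
  have h2 : ∀ j, (Pi.single (q j) (1 : ZMod 2) : Fin n → ZMod 2) i = if j = π⁻¹ i then 1 else 0 := by
    intro j
    rw [Pi.single_apply]
    exact if_congr (by rw [Equiv.Perm.eq_inv_iff_eq, hπ, eq_comm]) rfl rfl
  simp only [h2, mul_ite, mul_one, mul_zero, Finset.sum_ite_eq', Finset.mem_univ, if_true]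

end H25.BZ
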