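import Cfsg.Agent.Lib.H25.RealCls

/-! Class-size graph: counting arguments. -/

set_option autoImplicit false

open Subgroup

namespace H25.ClsGraph

open H25.RealCls

variable {G : Type*} [Group G]

/-- Burnside's condition `N(P) ≤ C(P)` -/
def NC {p : ℕ} (P : Sylow p G) : Prop := normalizer (P : Set G) ≤ centralizer (P : Set G)

theorem sylow_le_cent_iff {p : ℕ} (P : Sylow p G) (x : G) :
    (P : Subgroup G) ≤ centralizer ({x} : Set G) ↔ x ∈ centralizer (P : Set G) := by
  constructor
  · intro h z hz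
    exact mem_centralizer_singleton_iff.mp (h hz)
  · intro h z hz
    exact mem_centralizer_singleton_iff.mpr (h z hz)

theorem exists_sylow_le [Finite G] {p : ℕ} [Fact p.Prime] (H : Subgroup G) (h : ¬ p ∣ H.index) :
    ∃ P : Sylow p G, (P : Subgroup G) ≤ H := by
  obtain ⟨Q⟩ : Nonempty (Sylow p H) := inferInstance
  let Q' : Subgroup G := (Q : Subgroup H).map H.subtype
  have hQ' : IsPGroup p Q' := Q.2.map _
  obtain ⟨P, hP⟩ := hQ'.exists_le_sylow
  refine ⟨P, ?_⟩
  have hcard : Nat.card P = p ^ (Nat.card G).factorization p := Sylow.card_eq_multiplicity P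
  have hcardQ : Nat.card Q = p ^ (Nat.card H).factorization p := Sylow.card_eq_multiplicity Q
  have hmul : Nat.card H * H.index = Nat.card G := Subgroup.card_mul_index _
  have hfac : (Nat.card G).factorization p = (Nat.card H).factorization p := by
    rw [← hmul, Nat.factorization_mul Nat.card_pos.ne' Subgroup.index_ne_zero_of_finite,
      Finsupp.add_apply, Nat.factorization_eq_zero_of_not_dvd h, add_zero]
  have hQ'card : Nat.card Q' = Nat.card Q :=
    Nat.card_congr (Subgroup.equivMapOfInjective (Q : Subgroup H)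
      H.subtype (Subgroup.subtype_injective _)).toEquiv.symm
  have heq : Q' = (P : Subgroup G) := by
    apply Subgroup.eq_of_le_of_card_ge hP
    rw [hQ'card, hcardQ, ← hfac]
    exact hcard.le
  rw [← heq]
  rintro _ ⟨y, _, rfl⟩
  exact y.2

theorem not_dvd_cl_iff [Finite G] {p : ℕ} [Fact p.Prime] (x : G) :
    ¬ p ∣ cl x ↔ ∃ P : Sylow p G, x ∈ centralizer (P : Set G) := by
  unfold cl
  rw [H72.ClassSize.not_dvd_index_iff]
  constructor
  · rintro ⟨P, hP⟩; exact ⟨P, (sylow_le_cent_iff P x).mp hP⟩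
  · rintro ⟨P, hP⟩; exact ⟨P, (sylow_le_cent_iff P x).mpr hP⟩

theorem mem_smul_iff {p : ℕ} (P : Sylow p G) (g w : G) :
    w ∈ ((g • P : Sylow p G) : Set G) ↔ g⁻¹ * w * g ∈ (P : Set G) := by
  rw [Sylow.coe_smul, Set.mem_smul_set]
  constructor
  · rintro ⟨z, hz, rfl⟩
    rw [MulAut.smul_def, MulAut.conj_apply]
    have : g⁻¹ * (g * z * g⁻¹) * g = z := by group
    rwa [this]
  · intro h
    refine ⟨_, h, ?_⟩
    rw [MulAut.smul_def, MulAut.conj_apply]
    group

theorem mem_cent_smul {p : ℕ} (P : Sylow p G) (g x : G) :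
    x ∈ centralizer ((g • P : Sylow p G) : Set G) ↔ g⁻¹ * x * g ∈ centralizer (P : Set G) := by
  constructor
  · intro h z hz
    have h1 := h (g * z * g⁻¹) (by
      rw [mem_smul_iff]
      have : g⁻¹ * (g * z * g⁻¹) * g = z := by group
      rwa [this])
    calc z * (g⁻¹ * x * g) = g⁻¹ * (g * z * g⁻¹ * x) * g := by group
      _ = g⁻¹ * (x * (g * z * g⁻¹)) * g := by rw [h1]
      _ = _ := by group
  · intro h w hw
    have hw' : g⁻¹ * w * g ∈ (P : Set G) := (mem_smul_iff P g w).mp hw
    have h1 := h (g⁻¹ * w * g) hw'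
    calc w * x = g * (g⁻¹ * w * g * (g⁻¹ * x * g)) * g⁻¹ := by group
      _ = g * (g⁻¹ * x * g * (g⁻¹ * w * g)) * g⁻¹ := by rw [h1]
      _ = _ := by group

/-- if every element centralizes a Sylow `p`-subgroup then Sylow `p`-subgroups are central -/
theorem central_of_forall [Finite G] {p : ℕ} [Fact p.Prime]
    (h : ∀ x : G, ¬ p ∣ cl x) (P : Sylow p G) : (P : Subgroup G) ≤ center G := by
  have h1 : centralizer (P : Set G) = ⊤ := by
    apply H72.ClassSize.eq_top_of_forall_conj_mem
    intro x
    obtain ⟨P', hP'⟩ := (not_dvd_cl_iff x).mp (h x)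
    obtain ⟨g, rfl⟩ := MulAction.exists_smul_eq G P P'
    refine ⟨g⁻¹, ?_⟩
    rw [mem_cent_smul] at hP'
    simpa using hP'
  intro z hz
  rw [mem_center_iff]
  intro g
  have : g ∈ centralizer (P : Set G) := by rw [h1]; trivial
  exact (this z hz).symm

theorem not_dvd_of_central [Finite G] {p : ℕ} [Fact p.Prime]
    (P : Sylow p G) (h : (P : Subgroup G) ≤ center G) (x : G) : ¬ p ∣ cl x := by
  rw [not_dvd_cl_iff]
  refine ⟨P, ?_⟩
  intro z hz
  exact ((mem_center_iff.mp (h hz)) x).symm

/-- the number of elements centralizing a Sylow subgroup is at most `|G|/2` unless `N(P) = C(P)` -/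
theorem two_mul_card_le [Finite G] {p : ℕ} [Fact p.Prime] (P : Sylow p G) (hP : ¬ NC P) :
    2 * Nat.card {x : G // ¬ p ∣ cl x} ≤ Nat.card G := by
  classical
  have hfin := Fintype.ofFinite G
  -- surjection from Sylow × C(P)
  have hle : Nat.card {x : G // ¬ p ∣ cl x} ≤
      Nat.card (Sylow p G × centralizer (P : Set G)) := by
    have hex : ∀ x : {x : G // ¬ p ∣ cl x}, ∃ P' : Sylow p G, x.1 ∈ centralizer (P' : Set G) :=
      fun x => (not_dvd_cl_iff x.1).mp x.2
    choose φ hφ using hex
    have hg : ∀ P' : Sylow p G, ∃ g : G, g • P = P' := fun P' => MulAction.exists_smul_eq G P P'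
    choose γ hγ using hg
    let f : {x : G // ¬ p ∣ cl x} → Sylow p G × centralizer (P : Set G) := fun x =>
      (φ x, ⟨(γ (φ x))⁻¹ * x.1 * γ (φ x), by
        have := hφ x
        rw [← hγ (φ x), mem_cent_smul] at this
        exact this⟩)
    apply Nat.card_le_card_of_injective f
    intro x y hxy
    have h1 : φ x = φ y := congrArg Prod.fst hxy
    have h2 : (γ (φ x))⁻¹ * x.1 * γ (φ x) = (γ (φ y))⁻¹ * y.1 * γ (φ y) :=
      congrArg Subtype.val (congrArg Prod.snd hxy)
    rw [h1] at h2
    exact Subtype.ext (mul_left_cancel (mul_right_cancel h2))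
  rw [Nat.card_prod] at hle
  have hlt : 2 * Nat.card (centralizer (P : Set G)) ≤ Nat.card (normalizer (P : Set G)) := by
    have hle' : centralizer (P : Set G) ≤ normalizer (P : Set G) :=
      centralizer_le_normalizer _
    have hdvd : Nat.card (centralizer (P : Set G)) ∣ Nat.card (normalizer (P : Set G)) :=
      card_dvd_of_le hle'
    obtain ⟨k, hk⟩ := hdvd
    have hk0 : k ≠ 0 := by
      rintro rfl
      rw [mul_zero] at hk
      exact Nat.card_pos.ne' hk
    have hk1 : k ≠ 1 := by
      rintro rfl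
      rw [mul_one] at hk
      exact hP (Subgroup.eq_of_le_of_card_ge hle' hk.le).ge
    rw [hk, mul_comm 2]
    exact Nat.mul_le_mul_left _ (by omega)
  have hidx : Nat.card (Sylow p G) * Nat.card (normalizer (P : Set G)) = Nat.card G := by
    rw [Sylow.card_eq_index_normalizer P, mul_comm]
    exact Subgroup.card_mul_index _
  calc 2 * Nat.card {x : G // ¬ p ∣ cl x}
      ≤ 2 * (Nat.card (Sylow p G) * Nat.card (centralizer (P : Set G))) := Nat.mul_le_mul_left _ hle
    _ = Nat.card (Sylow p G) * (2 * Nat.card (centralizer (P : Set G))) := by ring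
    _ ≤ Nat.card (Sylow p G) * Nat.card (normalizer (P : Set G)) := Nat.mul_le_mul_left _ hlt
    _ = Nat.card G := hidx

/-- nonadjacent primes: one of the Sylow subgroups satisfies Burnside's condition -/
theorem nc_or_nc [Finite G] {p q : ℕ} [Fact p.Prime] [Fact q.Prime]
    (h : ∀ x : G, ¬ (p ∣ cl x ∧ q ∣ cl x)) (P : Sylow p G) (Q : Sylow q G) : NC P ∨ NC Q := by
  classical
  by_contra hcon
  rw [not_or] at hcon
  have h1 := two_mul_card_le P hcon.1
  have h2 := two_mul_card_le Q hcon.2
  have hfin := Fintype.ofFinite G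
  have hone : cl (1 : G) = 1 := by
    unfold cl
    rw [H72.ClassSize.index_eq_one_iff]
    exact one_mem _
  have hp1 : ¬ p ∣ cl (1 : G) := by
    rw [hone]; exact fun h => (Fact.out : p.Prime).one_lt.ne' (Nat.dvd_one.mp h)
  have hq1 : ¬ q ∣ cl (1 : G) := by
    rw [hone]; exact fun h => (Fact.out : q.Prime).one_lt.ne' (Nat.dvd_one.mp h)
  rw [Nat.card_eq_fintype_card] at h1 h2
  rw [Nat.card_eq_fintype_card] at h1 h2
  rw [Fintype.card_subtype] at h1 h2
  set A : Finset G := Finset.univ.filter (fun x => ¬ p ∣ cl x)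
  set B : Finset G := Finset.univ.filter (fun x => ¬ q ∣ cl x)
  have hU : A ∪ B = Finset.univ := by
    ext x
    simp only [A, B, Finset.mem_union, Finset.mem_filter, Finset.mem_univ, true_and, iff_true]
    by_contra hx
    rw [not_or, not_not, not_not] at hx
    exact h x hx
  have hI : 1 ≤ (A ∩ B).card := by
    rw [Nat.one_le_iff_ne_zero]
    apply Finset.card_ne_zero_of_mem (a := (1 : G))
    simp only [A, B, Finset.mem_inter, Finset.mem_filter, Finset.mem_univ, true_and]
    exact ⟨hp1, hq1⟩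
  have h3 := Finset.card_union_add_card_inter A B
  rw [hU, Finset.card_univ] at h3
  omega

/-- coset counting -/
theorem nc_of_coset [Finite G] {r : ℕ} [Fact r.Prime] (N : Subgroup G) (x : G)
    (h : ∀ n : N, ∃ R : Sylow r N, ∀ ρ : N, ρ ∈ R → Commute (ρ : G) (x * n)) (R : Sylow r N) :
    NC R := by
  classical
  choose φ hφ using h
  have hg : ∀ R' : Sylow r N, ∃ g : N, g • R = R' := fun P' => MulAction.exists_smul_eq N R P'
  choose γ hγ using hg
  -- choose a base element for each value of φ
  let base : Sylow r N → N := fun R' => if hh : ∃ n : N, φ n = R' then hh.choose else 1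
  have hbase : ∀ n : N, φ (base (φ n)) = φ n := by
    intro n
    have hh : ∃ m : N, φ m = φ n := ⟨n, rfl⟩
    simp only [base, dif_pos hh]
    exact hh.choose_spec
  have hmem : ∀ n : N, (base (φ n))⁻¹ * n ∈ centralizer ((φ n : Sylow r N) : Set N) := by
    intro n ρ hρ
    have h1 : Commute (ρ : G) (x * n) := hφ n ρ hρ
    have h2 : Commute (ρ : G) (x * base (φ n)) := by
      have := hφ (base (φ n)) ρ
      rw [hbase n] at this
      exact this hρ
    have h3 : Commute (ρ : G) ((x * base (φ n))⁻¹ * (x * n)) := h2.inv_right.mul_right h1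
    have h4 : ((x * (base (φ n) : G))⁻¹ * (x * n)) = (((base (φ n))⁻¹ * n : N) : G) := by
      push_cast
      group
    rw [h4] at h3
    exact Subtype.ext (by simpa using h3.eq)
  have hle : Nat.card N ≤ Nat.card (Sylow r N × centralizer (R : Set N)) := by
    let f : N → Sylow r N × centralizer (R : Set N) := fun n =>
      (φ n, ⟨(γ (φ n))⁻¹ * ((base (φ n))⁻¹ * n) * γ (φ n), by
        rw [← mem_cent_smul, hγ]
        exact hmem n⟩)
    apply Nat.card_le_card_of_injective f
    intro a b hab
    have h1 : φ a = φ b := congrArg Prod.fst hab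
    have h2 : (γ (φ a))⁻¹ * ((base (φ a))⁻¹ * a) * γ (φ a) =
      (γ (φ b))⁻¹ * ((base (φ b))⁻¹ * b) * γ (φ b) :=
      congrArg Subtype.val (congrArg Prod.snd hab)
    rw [h1] at h2
    exact mul_left_cancel (mul_left_cancel (mul_right_cancel h2))
  rw [Nat.card_prod] at hle
  have hidx : Nat.card (Sylow r N) * Nat.card (normalizer (R : Set N)) = Nat.card N := by
    rw [Sylow.card_eq_index_normalizer R, mul_comm]
    exact Subgroup.card_mul_index _
  rw [← hidx] at hle
  have hle2 : Nat.card (normalizer (R : Set N)) ≤ Nat.card (centralizer (R : Set N)) :=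
    Nat.le_of_mul_le_mul_left hle Nat.card_pos
  exact (Subgroup.eq_of_le_of_card_ge (centralizer_le_normalizer _) hle2).ge

/-- if a class size in the quotient is divisible by `p`, then `N(R) = C(R)` in `N` -/
theorem cc [Finite G] {p r : ℕ} [Fact p.Prime] [Fact r.Prime]
    (h : ∀ x : G, ¬ (p ∣ cl x ∧ r ∣ cl x)) (N : Subgroup G) [N.Normal]
    (R : Sylow r N) (hR : ¬ NC R) (y : G ⧸ N) : ¬ p ∣ cl y := by
  intro hy
  obtain ⟨x, rfl⟩ := QuotientGroup.mk_surjective y
  apply hR
  apply nc_of_coset N x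
  intro n
  have h1 : p ∣ cl (x * (n : G)) := by
    refine dvd_trans hy ?_
    have : (QuotientGroup.mk x : G ⧸ N) = QuotientGroup.mk (x * (n : G)) := by
      rw [QuotientGroup.mk_mul_of_mem _ n.2]
    rw [this]
    exact H72.ClassSize.index_quotient_dvd N _
  have h2 : ¬ r ∣ cl (x * (n : G)) := fun h2 => h _ ⟨h1, h2⟩
  have h3 : ¬ r ∣ ((centralizer ({x * (n : G)} : Set G)).subgroupOf N).index := by
    intro h3
    exact h2 (h3.trans (H72.ClassSize.relIndex_normal_dvd_index N _))
  obtain ⟨R', hR'⟩ := exists_sylow_le _ h3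
  refine ⟨R', ?_⟩
  intro ρ hρ
  exact mem_centralizer_singleton_iff.mp (mem_subgroupOf.mp (hR' hρ))

end H25.ClsGraph
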