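import Cfsg.Agent.Lib.H25.ClsGraph1

/-! Class-size graph: transfer, perfect subgroups. -/

set_option autoImplicit false

open Subgroup
open scoped commutatorElement Pointwise

namespace H25.ClsGraph

open H25.RealCls

variable {G : Type*} [Group G]

/-- Burnside: normal `p`-complement -/
theorem exists_compl [Finite G] {p : ℕ} [Fact p.Prime] (P : Sylow p G) (hP : NC P) :
    ∃ K : Subgroup G, K.Normal ∧ ¬ p ∣ Nat.card K ∧ (∀ g : G, ∃ k ∈ K, ∃ x ∈ (P : Subgroup G), g = k * x)
      ∧ (∀ a b : G, ⁅a, b⁆ ∈ K) ∧ ∀ x : G, (orderOf x).Coprime p → x ∈ K := by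
  have hP' : normalizer (P : Set G) ≤ centralizer (P : Set G) := hP
  refine ⟨(MonoidHom.transferSylow P hP').ker, inferInstance,
    MonoidHom.not_dvd_card_ker_transferSylow P hP', ?_, ?_, ?_⟩
  · intro g
    have hc := MonoidHom.ker_transferSylow_isComplement' P hP'
    have : g ∈ (((MonoidHom.transferSylow P hP').ker : Set G) * (P : Set G)) := by
      have := hc.mul_eq
      rw [show ((P : Subgroup G) : Set G) = (P : Set G) from rfl] at this
      rw [this]; trivial
    obtain ⟨k, hk, x, hx, hkx⟩ := Set.mem_mul.mp this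
    exact ⟨k, hk, x, hx, hkx.symm⟩
  · intro a b
    have hcomm : ∀ u v : P, u * v = v * u := by
      intro u v
      apply Subtype.ext
      exact hP' (le_normalizer (H := (P : Subgroup G)) v.2) u u.2
    rw [MonoidHom.mem_ker, map_commutatorElement]
    rw [commutatorElement_def, hcomm _ (MonoidHom.transferSylow P hP' b)]
    group
  · intro x hx
    rw [MonoidHom.mem_ker, ← orderOf_eq_one_iff]
    have h1 : orderOf (MonoidHom.transferSylow P hP' x) ∣ orderOf x := orderOf_map_dvd _ _
    obtain ⟨k, hk⟩ := (IsPGroup.iff_orderOf.mp P.2) (MonoidHom.transferSylow P hP' x)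
    rw [hk] at h1 ⊢
    exact Nat.Coprime.eq_one_of_dvd ((Nat.Coprime.pow_left k (Nat.coprime_comm.mp hx))) h1

/-- a perfect subgroup lies in the normal `p`-complement -/
theorem le_of_perfect {N K : Subgroup G} (hN : ⁅N, N⁆ = N) (hK : ∀ a b : G, ⁅a, b⁆ ∈ K) : N ≤ K := by
  rw [← hN, commutator_le]
  intro a _ b _
  exact hK a b

theorem not_nc_of_dvd [Finite G] {r : ℕ} [Fact r.Prime] {N : Subgroup G} (hN : ⁅N, N⁆ = N)
    (hr : r ∣ Nat.card N) (R : Sylow r G) : ¬ NC R := by
  intro hR
  obtain ⟨K, hKn, hK, _, hKc, _⟩ := exists_compl R hR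
  exact hK (hr.trans (card_dvd_of_le (le_of_perfect hN hKc)))

theorem not_nc_of_dvd' [Finite G] {r : ℕ} [Fact r.Prime] {N : Subgroup G} (hN : ⁅N, N⁆ = N)
    (hr : r ∣ Nat.card N) (R : Sylow r N) : ¬ NC R := by
  intro hR
  obtain ⟨K, hKn, hK, _, hKc, _⟩ := exists_compl R hR
  have h1 : commutator N ≤ K := by
    rw [commutator_def, commutator_le]
    intro a _ b _
    exact hKc a b
  have h2 : commutator N = ⊤ := by
    rw [commutator_def]
    apply map_injective (subtype_injective N)
    rw [map_commutator, ← MonoidHom.range_eq_map, range_subtype, hN]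
  rw [h2, top_le_iff] at h1
  apply hK
  rw [h1, card_top]
  exact hr

/-- existence of the perfect residual -/
theorem exists_perfect [Finite G] (hG : ¬ Group.IsSolvable G) :
    ∃ N : Subgroup G, N.Normal ∧ ⁅N, N⁆ = N ∧ N ≠ ⊥ := by
  classical
  obtain ⟨n, hn⟩ : ∃ n : ℕ, ∀ m : ℕ, Nat.card (derivedSeries G n) ≤ Nat.card (derivedSeries G m) := by
    refine ⟨Function.argmin (fun m => Nat.card (derivedSeries G m)), ?_⟩
    intro m
    exact Function.argmin_le (fun m => Nat.card (derivedSeries G m)) m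
  refine ⟨derivedSeries G n, inferInstance, ?_, ?_⟩
  · apply Subgroup.eq_of_le_of_card_ge
    · exact commutator_le_left _ _
    · have := hn (n + 1)
      rwa [derivedSeries_succ] at this
  · intro h
    exact hG ⟨⟨n, h⟩⟩

/-- a maximal `G`-normal proper subgroup of `N` -/
theorem exists_max [Finite G] {N : Subgroup G} (hN : N ≠ ⊥) :
    ∃ M : Subgroup G, M.Normal ∧ M < N ∧ ∀ M' : Subgroup G, M'.Normal → M ≤ M' → M' < N → M' = M := by
  classical
  obtain ⟨M, hM, hmax⟩ := (Set.toFinite {M : Subgroup G | M.Normal ∧ M < N}).exists_maximal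
    ⟨⊥, inferInstance, bot_lt_iff_ne_bot.mpr hN⟩
  refine ⟨M, hM.1, hM.2, ?_⟩
  intro M' h1 h2 h3
  exact le_antisymm (hmax ⟨h1, h3⟩ h2) h2

end H25.ClsGraph
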