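import Cfsg.Agent.Lib.H25.ClsGraph2

/-! Class-size graph: the two main cases. -/

set_option autoImplicit false

open Subgroup
open scoped commutatorElement Pointwise

namespace H25.ClsGraph

open H25.RealCls

variable {G : Type*} [Group G]

theorem relIndex_eq_index_of_sup [Finite G] (C N : Subgroup G) [N.Normal] (h : C ⊔ N = ⊤) :
    C.relIndex N = C.index := by
  have h1 : C.relIndex N * N.index = (C ⊓ N).index := by
    rw [← inf_relIndex_right C N, relIndex_mul_index inf_le_right]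
  have h2 : N.relIndex C * C.index = (C ⊓ N).index := by
    rw [← inf_relIndex_left C N, relIndex_mul_index inf_le_left]
  have h3 : N.relIndex C = N.index := by
    rw [← relIndex_sup_right, h, relIndex_top_right]
  rw [h3] at h2
  have h4 : N.index ≠ 0 := index_ne_zero_of_finite
  apply Nat.eq_of_mul_eq_mul_left (Nat.pos_of_ne_zero h4)
  rw [h2, ← h1, mul_comm]

theorem card_relIndex [Finite G] (C N : Subgroup G) :
    Nat.card (N ⊓ C : Subgroup G) * C.relIndex N = Nat.card N := by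
  have h1 : C.relIndex N = (N ⊓ C).relIndex N := by
    rw [inf_comm, inf_relIndex_right]
  rw [h1, ← relIndex_bot_left, ← relIndex_bot_left N]
  exact relIndex_mul_relIndex _ _ _ bot_le inf_le_left

/-- uniqueness of the centralized Sylow subgroup -/
theorem unique_sylow [Finite G] {p : ℕ} [Fact p.Prime] (hP : ∀ P : Sylow p G, NC P)
    (N M : Subgroup G) [N.Normal] [M.Normal] (hMN : M ≤ N) (P : Sylow p G)
    (htrans : normalizer (P : Set G) ⊔ N = ⊤)
    (hNM : ∀ n ∈ N, n ∉ M → ¬ p ∣ cl n) {n : G} (hn : n ∈ N) (hnM : n ∉ M) {P₁ P₂ : Sylow p G}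
    (h₁ : n ∈ centralizer (P₁ : Set G)) (h₂ : n ∈ centralizer (P₂ : Set G)) : P₁ = P₂ := by
  classical
  by_contra hne
  have hfin := Fintype.ofFinite G
  have hC : centralizer (P : Set G) = normalizer (P : Set G) :=
    le_antisymm (centralizer_le_normalizer _) (hP P)
  set C : Subgroup G := centralizer (P : Set G) with hCdef
  let T : Set G := ((N ⊓ C : Subgroup G) : Set G) \ ((M ⊓ C : Subgroup G) : Set G)
  let E : Set G := (N : Set G) \ (M : Set G)
  have hT : T.ncard + Nat.card (M ⊓ C : Subgroup G) = Nat.card (N ⊓ C : Subgroup G) := by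
    have := Set.ncard_sdiff_add_ncard_of_subset (s := ((M ⊓ C : Subgroup G) : Set G))
      (t := ((N ⊓ C : Subgroup G) : Set G)) (by exact_mod_cast inf_le_inf_right C hMN)
    rw [← Nat.card_coe_set_eq, ← Nat.card_coe_set_eq, ← Nat.card_coe_set_eq] at this
    rw [← Nat.card_coe_set_eq]
    exact this
  have hE : E.ncard + Nat.card M = Nat.card N := by
    have := Set.ncard_sdiff_add_ncard_of_subset (s := (M : Set G)) (t := (N : Set G))
      (by exact_mod_cast hMN)
    rw [← Nat.card_coe_set_eq, ← Nat.card_coe_set_eq, ← Nat.card_coe_set_eq] at this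
    rw [← Nat.card_coe_set_eq]
    exact this
  have hS : Nat.card (Sylow p G) = C.index := by
    rw [Sylow.card_eq_index_normalizer P, hC]
  have hNC : Nat.card (Sylow p G) * Nat.card (N ⊓ C : Subgroup G) = Nat.card N := by
    rw [hS, ← relIndex_eq_index_of_sup C N (by rw [hC]; exact htrans), mul_comm]
    exact card_relIndex C N
  have hMC : Nat.card M ≤ Nat.card (Sylow p G) * Nat.card (M ⊓ C : Subgroup G) := by
    rw [← card_relIndex C M, mul_comm]
    apply Nat.mul_le_mul_right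
    rw [hS]
    exact Nat.le_of_dvd (Nat.pos_of_ne_zero index_ne_zero_of_finite)
      (H72.ClassSize.relIndex_normal_dvd_index M C)
  have hbound : Nat.card (Sylow p G) * T.ncard ≤ E.ncard := by
    have : Nat.card (Sylow p G) * T.ncard + Nat.card (Sylow p G) * Nat.card (M ⊓ C : Subgroup G)
        = Nat.card N := by
      rw [← mul_add, hT, hNC]
    omega
  -- the incidence type
  let I : Type _ := Σ P' : Sylow p G, {x : G // x ∈ E ∧ x ∈ centralizer (P' : Set G)}
  have hI : Nat.card I ≤ Nat.card (Sylow p G) * T.ncard := by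
    have hg : ∀ R' : Sylow p G, ∃ g : G, g • P = R' := fun P' => MulAction.exists_smul_eq G P P'
    choose γ hγ using hg
    rw [← Nat.card_coe_set_eq, ← Nat.card_prod]
    let f : I → Sylow p G × T := fun i => (i.1, ⟨(γ i.1)⁻¹ * i.2.1 * γ i.1, by
      have h1 : (γ i.1)⁻¹ * i.2.1 * γ i.1 ∈ C := by
        rw [hCdef, ← mem_cent_smul, hγ]
        exact i.2.2.2
      have h2 : (γ i.1)⁻¹ * i.2.1 * γ i.1 ∈ N := by
        have := (inferInstance : N.Normal).conj_mem _ i.2.2.1.1 (γ i.1)⁻¹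
        rwa [inv_inv] at this
      have h3 : (γ i.1)⁻¹ * i.2.1 * γ i.1 ∉ M := by
        intro h3
        apply i.2.2.1.2
        have := (inferInstance : M.Normal).conj_mem _ h3 (γ i.1)
        have e : γ i.1 * ((γ i.1)⁻¹ * i.2.1 * γ i.1) * (γ i.1)⁻¹ = i.2.1 := by group
        rw [e] at this
        exact this
      exact ⟨⟨h2, h1⟩, fun h => h3 h.1⟩⟩)
    apply Nat.card_le_card_of_injective f
    rintro ⟨P', x, hx⟩ ⟨P'', y, hy⟩ hxy
    have h1 : P' = P'' := congrArg Prod.fst hxy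
    subst h1
    have h2 : (γ P')⁻¹ * x * γ P' = (γ P')⁻¹ * y * γ P' :=
      congrArg Subtype.val (congrArg Prod.snd hxy)
    have h3 : x = y := mul_left_cancel (mul_right_cancel h2)
    subst h3
    rfl
  have hlt : Nat.card E < Nat.card I := by
    rw [Nat.card_eq_fintype_card, Nat.card_eq_fintype_card]
    let π : I → E := fun i => ⟨i.2.1, i.2.2.1⟩
    apply Fintype.card_lt_of_surjective_not_injective π
    · rintro ⟨e, he⟩
      obtain ⟨P', hP'⟩ := (not_dvd_cl_iff e).mp (hNM e he.1 he.2)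
      exact ⟨⟨P', e, he, hP'⟩, rfl⟩
    · intro hinj
      apply hne
      have := @hinj ⟨P₁, n, ⟨hn, hnM⟩, h₁⟩ ⟨P₂, n, ⟨hn, hnM⟩, h₂⟩ rfl
      exact congrArg Sigma.fst this
  rw [Nat.card_coe_set_eq] at hlt
  omega

theorem lemma_a [Finite G] {p r : ℕ} [Fact p.Prime] [Fact r.Prime]
    (hnon : ∀ x : G, ¬ (p ∣ cl x ∧ r ∣ cl x)) (hP : ∀ P : Sylow p G, NC P)
    (N M : Subgroup G) [N.Normal] [M.Normal] (hMN : M ≤ N) (hr : r ∣ M.relIndex N)
    (htrans : ∀ P : Sylow p G, normalizer (P : Set G) ⊔ N = ⊤)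
    (hNM : ∀ n ∈ N, n ∉ M → ¬ p ∣ cl n) : ∀ x : G, ¬ p ∣ cl x := by
  intro x hx
  have hrx : ¬ r ∣ cl x := fun h => hnon x ⟨hx, h⟩
  obtain ⟨R, hR⟩ := (not_dvd_cl_iff x).mp hrx
  have h1 : ¬ (R : Subgroup G) ⊓ N ≤ M := by
    intro hle
    have h2 : M.relIndex N ∣ ((R : Subgroup G) ⊓ N).relIndex N := relIndex_dvd_of_le_left N hle
    rw [inf_relIndex_right] at h2
    have h3 := hr.trans (h2.trans (H72.ClassSize.relIndex_normal_dvd_index N (R : Subgroup G)))
    exact R.not_dvd_index h3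
  obtain ⟨n, hn, hnM⟩ := SetLike.not_le_iff_exists.mp h1
  have hcomm : n * x = x * n := hR n hn.1
  obtain ⟨P₁, hP₁⟩ := (not_dvd_cl_iff n).mp (hNM n hn.2 hnM)
  have hP₂ : n ∈ centralizer ((x • P₁ : Sylow p G) : Set G) := by
    rw [mem_cent_smul]
    have : x⁻¹ * n * x = n := by
      calc x⁻¹ * n * x = x⁻¹ * (n * x) := by group
        _ = _ := by rw [hcomm]; group
    rwa [this]
  have heq := unique_sylow hP N M hMN P₁ (htrans P₁) hNM hn.2 hnM hP₂ hP₁
  have hxn : x ∈ normalizer (P₁ : Set G) := Sylow.smul_eq_iff_mem_normalizer.mp heq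
  exact (not_dvd_cl_iff x).mpr ⟨P₁, hP P₁ hxn⟩ hx

end H25.ClsGraph
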