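import Cfsg.Agent.Lib.H25.ClsGraph3

/-! Class-size graph: case (b) and the final theorem. -/

set_option autoImplicit false

open Subgroup
open scoped commutatorElement Pointwise

namespace H25.ClsGraph

open H25.RealCls

variable {G : Type*} [Group G]

theorem cl_sub_dvd [Finite G] (N : Subgroup G) [N.Normal] (x : N) : cl x ∣ cl (x : G) :=
  H72.ClassSize.index_subgroup_dvd N x

theorem cl_conj (x g : G) : cl (g * x * g⁻¹) = cl x := H72.ClassSize.index_conj x g

/-- if `K ⊇ Q` is normal and no class size of an element of `K` is divisible by `q` then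
`K` centralizes `Q` -/
theorem central_in [Finite G] {q : ℕ} [Fact q.Prime] (K : Subgroup G) [K.Normal] (Q : Sylow q G)
    (hQ : (Q : Subgroup G) ≤ K) (h : ∀ y ∈ K, ¬ q ∣ cl y) {k z : G} (hk : k ∈ K)
    (hz : z ∈ (Q : Subgroup G)) : k * z = z * k := by
  have h1 : ∀ y : K, ¬ q ∣ cl y := fun y hy => h y y.2 (hy.trans (cl_sub_dvd K y))
  have h2 := central_of_forall h1 (Q.subtype hQ)
  have h3 : (⟨z, hQ hz⟩ : K) ∈ center K := h2 (by
    show (⟨z, hQ hz⟩ : K) ∈ (Q.subtype hQ : Subgroup K)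
    rw [Sylow.coe_subtype, mem_subgroupOf]
    exact hz)
  have h4 := (mem_center_iff.mp h3) ⟨k, hk⟩
  exact congrArg Subtype.val h4

/-- class sizes of `p`-elements -/
theorem cl_sylow [Finite G] {p q : ℕ} [Fact p.Prime] [Fact q.Prime] (hpq : p ≠ q)
    (hnon : ∀ x : G, ¬ (p ∣ cl x ∧ q ∣ cl x)) (P : Sylow p G) (hP : NC P) (Q : Sylow q G)
    (hcomm : ∀ σ ∈ (P : Subgroup G), ∀ τ ∈ (Q : Subgroup G), σ * τ = τ * σ)
    (hq : ∃ x : G, q ∣ cl x) {r : ℕ} (hr : ∀ x : G, ¬ (q ∣ cl x ∧ r ∣ cl x)) {σ : G}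
    (hσ : σ ∈ (P : Subgroup G)) : ¬ r ∣ cl σ := by
  obtain ⟨K, hKn, hpK, hKP, hKc, hKo⟩ := exists_compl P hP
  have hQK : (Q : Subgroup G) ≤ K := by
    intro z hz
    apply hKo
    obtain ⟨k, hk⟩ := (IsPGroup.iff_orderOf.mp Q.2) ⟨z, hz⟩
    rw [Subgroup.orderOf_mk] at hk
    rw [hk]
    apply Nat.Coprime.pow_left
    exact (Nat.coprime_primes Fact.out Fact.out).mpr hpq.symm
  obtain ⟨y, hyK, hy⟩ : ∃ y ∈ K, q ∣ cl y := by
    by_contra hcon
    push Not at hcon
    obtain ⟨x, hx⟩ := hq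
    refine not_dvd_of_central Q ?_ x hx
    intro z hz
    rw [mem_center_iff]
    intro g
    obtain ⟨k, hk, s, hs, rfl⟩ := hKP g
    have h1 : k * z = z * k := central_in K Q hQK hcon hk hz
    have h2 : s * z = z * s := hcomm s hs z hz
    calc k * s * z = k * (s * z) := mul_assoc _ _ _
      _ = k * z * s := by rw [h2, mul_assoc]
      _ = z * (k * s) := by rw [h1, mul_assoc]
  have hpy : ¬ p ∣ cl y := fun h => hnon y ⟨h, hy⟩
  obtain ⟨P', hP'⟩ := (not_dvd_cl_iff y).mp hpy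
  obtain ⟨g, rfl⟩ := MulAction.exists_smul_eq G P P'
  -- the conjugate of σ in g • P
  have hσ' : g * σ * g⁻¹ ∈ ((g • P : Sylow p G) : Set G) := by
    rw [mem_smul_iff]
    have : g⁻¹ * (g * σ * g⁻¹) * g = σ := by group
    rw [this]; exact hσ
  have hc : y * (g * σ * g⁻¹) = (g * σ * g⁻¹) * y := (hP' _ hσ').symm
  have hoy : ¬ p ∣ orderOf y := fun h => hpK (h.trans (K.orderOf_dvd_natCard hyK))
  have hoσ : ∃ k : ℕ, orderOf (g * σ * g⁻¹) = p ^ k := by
    obtain ⟨k, hk⟩ := (IsPGroup.iff_orderOf.mp (g • P).2) ⟨_, hσ'⟩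
    rw [Subgroup.orderOf_mk] at hk
    exact ⟨k, hk⟩
  have hcop : (orderOf y).Coprime (orderOf (g * σ * g⁻¹)) := by
    obtain ⟨k, hk⟩ := hoσ
    rw [hk]
    apply Nat.Coprime.pow_right
    exact ((Nat.Prime.coprime_iff_not_dvd Fact.out).mpr hoy).symm
  have hcent := H72.ClassSize.cent_mul_of_coprime hc hcop
  have h1 : cl y ∣ cl (y * (g * σ * g⁻¹)) := by
    unfold cl; rw [hcent]; exact index_dvd_of_le inf_le_left
  have h2 : cl σ ∣ cl (y * (g * σ * g⁻¹)) := by
    rw [← cl_conj σ g]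
    unfold cl; rw [hcent]; exact index_dvd_of_le inf_le_right
  intro hrσ
  exact hr _ ⟨hy.trans h1, hrσ.trans h2⟩

theorem conj_comm_of_coprime [Finite G] {σ τ : G} (h : (cl τ).Coprime (cl σ))
    (hc : σ * τ = τ * σ) (g : G) : (g * σ * g⁻¹) * τ = τ * (g * σ * g⁻¹) := by
  obtain ⟨c, d, hcτ, hdσ, rfl⟩ := exists_decomp h g
  have h1 : c * d * σ * (c * d)⁻¹ = c * σ * c⁻¹ := by
    calc c * d * σ * (c * d)⁻¹ = c * (d * σ) * d⁻¹ * c⁻¹ := by group
      _ = _ := by rw [hdσ]; group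
  rw [h1]
  have h2 : c⁻¹ * τ = τ * c⁻¹ := by
    calc c⁻¹ * τ = c⁻¹ * (τ * c) * c⁻¹ := by group
      _ = _ := by rw [← hcτ]; group
  calc c * σ * c⁻¹ * τ = c * σ * (c⁻¹ * τ) := by group
    _ = c * (σ * τ) * c⁻¹ := by rw [h2]; group
    _ = (c * τ) * σ * c⁻¹ := by rw [hc]; group
    _ = _ := by rw [hcτ]; group

/-- the normal closure of `P` contains an element of class size divisible by `p` -/
theorem exists_in_closure [Finite G] {p : ℕ} [Fact p.Prime] (P : Sylow p G) (hP : NC P)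
    (hp : ∃ x : G, p ∣ cl x) : ∃ x ∈ normalClosure (P : Set G), p ∣ cl x := by
  by_contra hcon
  push Not at hcon
  have hPE : (P : Subgroup G) ≤ normalClosure (P : Set G) := le_normalClosure
  have hcen : ∀ k ∈ normalClosure (P : Set G), ∀ z ∈ (P : Subgroup G), k * z = z * k :=
    fun k hk z hz => central_in _ P hPE hcon hk hz
  -- P is normal
  have hnorm : ∀ g : G, g ∈ normalizer (P : Set G) := by
    intro g
    rw [← Sylow.smul_eq_iff_mem_normalizer]
    have h1 : ((g • P : Sylow p G) : Subgroup G) ≤ (P : Subgroup G) := by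
      have h2 : ((g • P : Sylow p G) : Subgroup G) ≤ normalizer (P : Set G) := by
        refine le_trans ?_ (centralizer_le_normalizer _)
        intro w hw
        intro z hz
        have hw' : g⁻¹ * w * g ∈ (P : Set G) := (mem_smul_iff P g w).mp hw
        have hwE : w ∈ normalClosure (P : Set G) := by
          have := (normalClosure_normal (s := (P : Set G))).conj_mem _ (hPE hw') g
          have e : g * (g⁻¹ * w * g) * g⁻¹ = w := by group
          rwa [e] at this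
        exact (hcen w hwE z hz).symm
      have h3 := IsPGroup.inf_normalizer_sylow (g • P).2 P
      have h4 : ((g • P : Sylow p G) : Subgroup G) ⊓ (P : Subgroup G) = (g • P : Sylow p G) := by
        rw [← h3]; exact inf_eq_left.mpr h2
      exact inf_eq_left.mp h4
    exact Sylow.ext ((g • P).is_maximal' P.2 h1).symm
  obtain ⟨x, hx⟩ := hp
  exact (not_dvd_cl_iff x).mpr ⟨P, hP (hnorm x)⟩ hx

theorem key_b [Finite G] {p q : ℕ} [Fact p.Prime] [Fact q.Prime] (hpq : p ≠ q)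
    (hnon : ∀ x : G, ¬ (p ∣ cl x ∧ q ∣ cl x))
    (hr : ∀ r : ℕ, r.Prime → r ≠ p → r ≠ q →
      (∀ x : G, ¬ (p ∣ cl x ∧ r ∣ cl x)) ∨ (∀ x : G, ¬ (q ∣ cl x ∧ r ∣ cl x)))
    (P : Sylow p G) (hP : NC P) (Q : Sylow q G) (hQ : NC Q)
    (hcomm : ∀ σ ∈ (P : Subgroup G), ∀ τ ∈ (Q : Subgroup G), σ * τ = τ * σ)
    (hp' : ∃ x : G, p ∣ cl x) (hq' : ∃ x : G, q ∣ cl x) : False := by
  have hnon' : ∀ x : G, ¬ (q ∣ cl x ∧ p ∣ cl x) := fun x h => hnon x h.symm
  have hcomm' : ∀ τ ∈ (Q : Subgroup G), ∀ σ ∈ (P : Subgroup G), τ * σ = σ * τ :=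
    fun τ hτ σ hσ => (hcomm σ hσ τ hτ).symm
  have hcop : ∀ σ ∈ (P : Subgroup G), ∀ τ ∈ (Q : Subgroup G), (cl τ).Coprime (cl σ) := by
    intro σ hσ τ hτ
    apply Nat.Coprime.symm
    rw [Nat.coprime_iff_gcd_eq_one]
    by_contra hne
    obtain ⟨r, hrp, hrd⟩ := Nat.exists_prime_and_dvd hne
    have hr1 : r ∣ cl σ := hrd.trans (Nat.gcd_dvd_left _ _)
    have hr2 : r ∣ cl τ := hrd.trans (Nat.gcd_dvd_right _ _)
    rcases eq_or_ne r p with rfl | hrp'
    · exact cl_sylow hpq hnon P hP Q hcomm hq' hnon' hσ hr1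
    rcases eq_or_ne r q with rfl | hrq'
    · exact cl_sylow hpq.symm hnon' Q hQ P hcomm' hp' hnon hτ hr2
    rcases hr r hrp hrp' hrq' with h | h
    · exact cl_sylow hpq.symm hnon' Q hQ P hcomm' hp' h hτ hr2
    · exact cl_sylow hpq hnon P hP Q hcomm hq' h hσ hr1
  have hEP : ∀ x ∈ normalClosure (P : Set G), ∀ τ ∈ (Q : Subgroup G), x * τ = τ * x := by
    intro x hx τ hτ
    have hle : normalClosure (P : Set G) ≤ centralizer ({τ} : Set G) := by
      unfold normalClosure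
      rw [closure_le]
      intro w hw
      obtain ⟨σ, hσ, hσw⟩ := Group.mem_conjugatesOfSet_iff.mp hw
      obtain ⟨g, rfl⟩ := isConj_iff.mp hσw
      exact mem_centralizer_singleton_iff.mpr
        (conj_comm_of_coprime (hcop σ hσ τ hτ) (hcomm σ hσ τ hτ) g)
    exact mem_centralizer_singleton_iff.mp (hle hx)
  have hEQ : ∀ x ∈ normalClosure (Q : Set G), ∀ σ ∈ (P : Subgroup G), x * σ = σ * x := by
    intro x hx σ hσ
    have hle : normalClosure (Q : Set G) ≤ centralizer ({σ} : Set G) := by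
      unfold normalClosure
      rw [closure_le]
      intro w hw
      obtain ⟨τ, hτ, hτw⟩ := Group.mem_conjugatesOfSet_iff.mp hw
      obtain ⟨g, rfl⟩ := isConj_iff.mp hτw
      exact mem_centralizer_singleton_iff.mpr
        (conj_comm_of_coprime (hcop σ hσ τ hτ).symm (hcomm σ hσ τ hτ).symm g)
    exact mem_centralizer_singleton_iff.mp (hle hx)
  obtain ⟨x, hxE, hx⟩ := exists_in_closure P hP hp'
  obtain ⟨y, hyE, hy⟩ := exists_in_closure Q hQ hq'
  by_cases h1 : p ∣ cl (x * y)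
  · by_cases h2 : q ∣ cl (x * y)
    · exact hnon _ ⟨h1, h2⟩
    · obtain ⟨Q', hQ'⟩ := (not_dvd_cl_iff _).mp h2
      obtain ⟨g, rfl⟩ := MulAction.exists_smul_eq G Q Q'
      have hx' : x ∈ centralizer ((g • Q : Sylow q G) : Set G) := by
        rw [mem_cent_smul]
        intro τ hτ
        have : g⁻¹ * x * g ∈ normalClosure (P : Set G) := by
          have := (normalClosure_normal (s := (P : Set G))).conj_mem _ hxE g⁻¹
          rwa [inv_inv] at this
        exact (hEP _ this τ hτ).symm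
      have hy' : y ∈ centralizer ((g • Q : Sylow q G) : Set G) := by
        have := mul_mem (inv_mem hx') hQ'
        rwa [inv_mul_cancel_left] at this
      exact (not_dvd_cl_iff _).mpr ⟨_, hy'⟩ hy
  · obtain ⟨P', hP'⟩ := (not_dvd_cl_iff _).mp h1
    obtain ⟨g, rfl⟩ := MulAction.exists_smul_eq G P P'
    have hy' : y ∈ centralizer ((g • P : Sylow p G) : Set G) := by
      rw [mem_cent_smul]
      intro σ hσ
      have : g⁻¹ * y * g ∈ normalClosure (Q : Set G) := by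
        have := (normalClosure_normal (s := (Q : Set G))).conj_mem _ hyE g⁻¹
        rwa [inv_inv] at this
      exact (hEQ _ this σ hσ).symm
    have hx' : x ∈ centralizer ((g • P : Sylow p G) : Set G) := by
      have := mul_mem hP' (inv_mem hy')
      rwa [mul_inv_cancel_right] at this
    exact (not_dvd_cl_iff _).mpr ⟨_, hx'⟩ hx

/-- a Sylow subgroup central modulo `N` -/
theorem sup_eq_top_of_quot [Finite G] {p : ℕ} [Fact p.Prime] (N : Subgroup G) [N.Normal]
    (h : ∀ y : G ⧸ N, ¬ p ∣ cl y) (P : Sylow p G) : normalizer (P : Set G) ⊔ N = ⊤ := by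
  -- P ⊔ N is normal
  have h1 : ((P : Subgroup G).map (QuotientGroup.mk' N)) ≤ center (G ⧸ N) := by
    obtain ⟨P', hP'⟩ := (P.2.map (QuotientGroup.mk' N)).exists_le_sylow
    exact hP'.trans (central_of_forall h P')
  have hn : ((P : Subgroup G) ⊔ N).Normal := by
    constructor
    intro w hw g
    have h2 : (QuotientGroup.mk' N) w ∈ center (G ⧸ N) := by
      apply h1
      have : (P : Subgroup G) ⊔ N = ((P : Subgroup G).map (QuotientGroup.mk' N)).comap
          (QuotientGroup.mk' N) := by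
        rw [comap_map_eq, QuotientGroup.ker_mk']
      rw [this] at hw
      exact hw
    have h3 : (QuotientGroup.mk' N) (g * w * g⁻¹) = (QuotientGroup.mk' N) w := by
      rw [map_mul, map_mul, map_inv, (mem_center_iff.mp h2), mul_inv_cancel_right]
    have : (P : Subgroup G) ⊔ N = ((P : Subgroup G).map (QuotientGroup.mk' N)).comap
        (QuotientGroup.mk' N) := by
      rw [comap_map_eq, QuotientGroup.ker_mk']
    rw [this] at hw ⊢
    rw [mem_comap] at hw ⊢
    rw [h3]; exact hw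
  have h4 := Sylow.normalizer_sup_eq_top' P (N := (P : Subgroup G) ⊔ N) le_sup_left
  rw [eq_top_iff, ← h4, sup_le_iff]
  refine ⟨le_sup_left, sup_le (le_trans le_normalizer le_sup_left) le_sup_right⟩

/-- elements of a perfect group outside a maximal normal subgroup -/
theorem exists_prime_of_notMem [Finite G] {N M : Subgroup G} [N.Normal] [M.Normal]
    (hN : ⁅N, N⁆ = N) (hMN : M < N)
    (hmax : ∀ M' : Subgroup G, M'.Normal → M ≤ M' → M' < N → M' = M) {n : G} (hn : n ∈ N)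
    (hnM : n ∉ M) : ∃ r : ℕ, r.Prime ∧ r ∣ M.relIndex N ∧ r ∣ cl n := by
  classical
  -- centre of N / M
  let Z : Subgroup G := N ⊓ (centralizer ((N.map (QuotientGroup.mk' M) : Subgroup (G ⧸ M)) :
    Set (G ⧸ M))).comap (QuotientGroup.mk' M)
  haveI : (N.map (QuotientGroup.mk' M)).Normal :=
    Subgroup.Normal.map inferInstance _ (QuotientGroup.mk'_surjective M)
  have hZn : Z.Normal := by
    show (N ⊓ _).Normal
    infer_instance
  have hMZ : M ≤ Z := by
    intro m hm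
    refine mem_inf.mpr ⟨hMN.le hm, ?_⟩
    rw [mem_comap]
    have : (QuotientGroup.mk' M) m = 1 := by
      rw [QuotientGroup.mk'_apply, QuotientGroup.eq_one_iff]; exact hm
    rw [this]; exact one_mem _
  have hZN : Z ≠ N := by
    intro hZ
    have h1 : N ≤ M := by
      rw [← hN, commutator_le]
      intro a ha b hb
      rw [← hZ] at ha
      have h2 := (mem_inf.mp ha).2
      rw [mem_comap, mem_centralizer_iff] at h2
      have h3 := h2 ((QuotientGroup.mk' M) b) (mem_map_of_mem _ hb)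
      rw [← QuotientGroup.ker_mk' M, MonoidHom.mem_ker, map_commutatorElement,
        commutatorElement_def, ← h3]
      group
    exact hMN.not_ge h1
  have hZM : Z = M := hmax Z hZn hMZ (lt_of_le_of_ne inf_le_left hZN)
  have hnZ : n ∉ Z := by rw [hZM]; exact hnM
  -- work in N / M
  set M' : Subgroup N := M.subgroupOf N with hM'
  have hnc : (QuotientGroup.mk (⟨n, hn⟩ : N) : N ⧸ M') ∉ center (N ⧸ M') := by
    intro hc
    apply hnZ
    refine mem_inf.mpr ⟨hn, ?_⟩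
    rw [mem_comap, mem_centralizer_iff]
    rintro _ ⟨m, hm, rfl⟩
    have h1 := (mem_center_iff.mp hc) (QuotientGroup.mk (⟨m, hm⟩ : N))
    rw [← QuotientGroup.mk_mul, ← QuotientGroup.mk_mul, QuotientGroup.eq] at h1
    rw [← map_mul, ← map_mul]
    rw [QuotientGroup.mk'_apply, QuotientGroup.mk'_apply, QuotientGroup.eq]
    exact h1
  have h1 : cl (QuotientGroup.mk (⟨n, hn⟩ : N) : N ⧸ M') ≠ 1 := by
    unfold cl
    rw [Ne, H72.ClassSize.index_eq_one_iff]
    exact hnc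
  obtain ⟨r, hrp, hrd⟩ := Nat.exists_prime_and_dvd h1
  refine ⟨r, hrp, ?_, ?_⟩
  · have : r ∣ Nat.card (N ⧸ M') := hrd.trans (index_dvd_card _)
    exact this
  · exact hrd.trans ((H72.ClassSize.index_quotient_dvd M' _).trans (cl_sub_dvd N ⟨n, hn⟩))

/-- S4161 -/
theorem main [Finite G] (hG : ¬ Group.IsSolvable G) {p q : ℕ} [Fact p.Prime] [Fact q.Prime]
    (hpq : p ≠ q) (hp' : ∃ x : G, p ∣ cl x) (hq' : ∃ x : G, q ∣ cl x)
    (hnon : ∀ x : G, ¬ (p ∣ cl x ∧ q ∣ cl x))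
    (hr : ∀ r : ℕ, r.Prime → r ≠ p → r ≠ q →
      (∀ x : G, ¬ (p ∣ cl x ∧ r ∣ cl x)) ∨ (∀ x : G, ¬ (q ∣ cl x ∧ r ∣ cl x))) : False := by
  classical
  have hnon' : ∀ x : G, ¬ (q ∣ cl x ∧ p ∣ cl x) := fun x h => hnon x h.symm
  obtain ⟨N, hNn, hN, hNbot⟩ := exists_perfect hG
  obtain ⟨M, hMn, hMN, hmax⟩ := exists_max hNbot
  -- primes dividing |N / M|
  have hdvdN : ∀ r : ℕ, r ∣ M.relIndex N → r ∣ Nat.card N := fun r h =>
    h.trans (M.subgroupOf N).index_dvd_card
  -- one prime divides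
  have hne1 : M.relIndex N ≠ 1 := by
    intro h
    rw [relIndex_eq_one] at h
    exact hMN.not_ge h
  -- general consequence of a nonadjacent prime dividing |N / M|
  have hgen : ∀ (u r : ℕ) [Fact u.Prime] [Fact r.Prime], r ∣ M.relIndex N →
      (∀ x : G, ¬ (u ∣ cl x ∧ r ∣ cl x)) →
      (∀ U : Sylow u G, NC U) ∧ (∀ U : Sylow u G, normalizer (U : Set G) ⊔ N = ⊤) := by
    intro u r _ _ hrd hnr
    obtain ⟨R⟩ : Nonempty (Sylow r G) := inferInstance
    obtain ⟨R'⟩ : Nonempty (Sylow r N) := inferInstance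
    refine ⟨?_, ?_⟩
    · intro U
      exact (nc_or_nc hnr U R).resolve_right (not_nc_of_dvd hN (hdvdN r hrd) R)
    · intro U
      exact sup_eq_top_of_quot N (cc hnr N R' (not_nc_of_dvd' hN (hdvdN r hrd) R')) U
  -- case a
  have hcasea : ∀ (u : ℕ) [Fact u.Prime], (∃ x : G, u ∣ cl x) →
      (∀ r : ℕ, r.Prime → r ∣ M.relIndex N → (∀ x : G, ¬ (u ∣ cl x ∧ r ∣ cl x))) → False := by
    intro u _ hu hall
    obtain ⟨r, hrp, hrd⟩ := Nat.exists_prime_and_dvd hne1
    haveI : Fact r.Prime := ⟨hrp⟩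
    have hnr := hall r hrp hrd
    obtain ⟨h1, h2⟩ := hgen u r hrd hnr
    obtain ⟨x, hx⟩ := hu
    refine lemma_a hnr h1 N M hMN.le hrd h2 ?_ x hx
    intro n hn hnM hun
    obtain ⟨s, hsp, hsd, hs⟩ := exists_prime_of_notMem hN hMN hmax hn hnM
    exact hall s hsp hsd n ⟨hun, hs⟩
  by_cases ha : ∀ r : ℕ, r.Prime → r ∣ M.relIndex N → (∀ x : G, ¬ (p ∣ cl x ∧ r ∣ cl x))
  · exact hcasea p hp' ha
  by_cases hb : ∀ r : ℕ, r.Prime → r ∣ M.relIndex N → (∀ x : G, ¬ (q ∣ cl x ∧ r ∣ cl x))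
  · exact hcasea q hq' hb
  push Not at ha hb
  obtain ⟨r₁, hr₁p, hr₁d, x₁, hx₁⟩ := hb
  obtain ⟨r₂, hr₂p, hr₂d, x₂, hx₂⟩ := ha
  haveI : Fact r₁.Prime := ⟨hr₁p⟩
  haveI : Fact r₂.Prime := ⟨hr₂p⟩
  -- r₁ is nonadjacent to p
  have hn₁ : ∀ x : G, ¬ (p ∣ cl x ∧ r₁ ∣ cl x) := by
    rcases eq_or_ne r₁ p with rfl | h1
    · exact absurd hx₁ (hnon' x₁)
    rcases eq_or_ne r₁ q with rfl | h2
    · exact hnon
    rcases hr r₁ hr₁p h1 h2 with h | h
    · exact h
    · exact absurd hx₁ (h x₁)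
  have hn₂ : ∀ x : G, ¬ (q ∣ cl x ∧ r₂ ∣ cl x) := by
    rcases eq_or_ne r₂ q with rfl | h1
    · exact absurd hx₂ (hnon x₂)
    rcases eq_or_ne r₂ p with rfl | h2
    · exact hnon'
    rcases hr r₂ hr₂p h2 h1 with h | h
    · exact absurd hx₂ (h x₂)
    · exact h
  obtain ⟨hPnc, hPt⟩ := hgen p r₁ hr₁d hn₁
  obtain ⟨hQnc, hQt⟩ := hgen q r₂ hr₂d hn₂
  obtain ⟨P⟩ : Nonempty (Sylow p G) := inferInstance
  obtain ⟨Q₀⟩ : Nonempty (Sylow q G) := inferInstance
  -- q does not divide |N|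
  have hqN : ¬ q ∣ Nat.card N := fun h => not_nc_of_dvd hN h Q₀ (hQnc Q₀)
  have hC : centralizer (P : Set G) = normalizer (P : Set G) :=
    le_antisymm (centralizer_le_normalizer _) (hPnc P)
  have hqC : ¬ q ∣ (centralizer (P : Set G)).index := by
    intro h
    rw [← relIndex_eq_index_of_sup (centralizer (P : Set G)) N (by rw [hC]; exact hPt P)] at h
    exact hqN (h.trans ((centralizer (P : Set G)).subgroupOf N).index_dvd_card)
  obtain ⟨Q, hQ⟩ := exists_sylow_le _ hqC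
  exact key_b hpq hnon hr P (hPnc P) Q (hQnc Q)
    (fun σ hσ τ hτ => hQ hτ σ hσ) hp' hq'

end H25.ClsGraph
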