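import Mathlib
import Cfsg.Agent.Lib.H3.MaxExponent
import Cfsg.Agent.Lib.H76.SecRank

/-!
MacWilliams's theorem on 2-groups without normal elementary abelian subgroups of order 8, part 1:
the centralizer of a maximal normal abelian subgroup of exponent 4.
-/

set_option autoImplicit false
set_option linter.unusedSectionVars false
set_option linter.all false

namespace H25.MacW

open Subgroup

variable {P : Type*} [Group P]

/-- normal abelian subgroup of exponent 4 containing all elements of order dividing 4 of its centralizer -/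
structure AD (A : Subgroup P) : Prop where
  norm : ∀ g : P, ∀ a ∈ A, g * a * g⁻¹ ∈ A
  comm : ∀ a ∈ A, ∀ b ∈ A, a * b = b * a
  pow4 : ∀ a ∈ A, a ^ 4 = 1
  cen : ∀ x : P, (∀ a ∈ A, x * a = a * x) → x ^ 4 = 1 → x ∈ A

theorem exists_pow [Finite P] (hP : IsPGroup 2 P) (c : P) (hc : c ^ 2 ≠ 1) :
    ∃ k : ℕ, (c ^ k) ^ 4 = 1 ∧ (c ^ k) ^ 2 ≠ 1 := by
  obtain ⟨m, hm⟩ := (IsPGroup.iff_orderOf.1 hP) c
  have hm2 : 2 ≤ m := by
    by_contra hlt
    push Not at hlt
    apply hc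
    rw [← orderOf_dvd_iff_pow_eq_one, hm]
    have : m = 0 ∨ m = 1 := by omega
    rcases this with rfl | rfl <;> norm_num
  obtain ⟨j, rfl⟩ := Nat.exists_eq_add_of_le hm2
  refine ⟨2 ^ j, ?_, ?_⟩
  · rw [← pow_mul, ← orderOf_dvd_iff_pow_eq_one, hm, pow_add]
    exact ⟨1, by ring⟩
  · rw [← pow_mul]
    intro h
    rw [← orderOf_dvd_iff_pow_eq_one, hm, ← pow_succ] at h
    rw [Nat.pow_dvd_pow_iff_le_right (by norm_num)] at h
    omega

namespace AD

variable {A : Subgroup P} (hA : AD A)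
include hA

/-- the involutions of `A` -/
def V (hA : AD A) : Subgroup P where
  carrier := {x | x ∈ A ∧ x ^ 2 = 1}
  one_mem' := ⟨A.one_mem, by simp⟩
  mul_mem' := by
    rintro x y ⟨hx, hx2⟩ ⟨hy, hy2⟩
    refine ⟨A.mul_mem hx hy, ?_⟩
    rw [(show Commute x y from hA.comm x hx y hy).mul_pow, hx2, hy2, one_mul]
  inv_mem' := by
    rintro x ⟨hx, hx2⟩
    refine ⟨A.inv_mem hx, ?_⟩
    rw [inv_pow, hx2, inv_one]

theorem mem_V {x : P} : x ∈ hA.V ↔ x ∈ A ∧ x ^ 2 = 1 := Iff.rfl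

theorem V_le : hA.V ≤ A := fun _ h => h.1

theorem V_norm (g : P) {x : P} (hx : x ∈ hA.V) : g * x * g⁻¹ ∈ hA.V := by
  refine ⟨hA.norm g x hx.1, ?_⟩
  rw [conj_pow, hx.2]; simp

theorem V_inv {x : P} (hx : x ∈ hA.V) : x⁻¹ = x := by
  have h := hx.2
  rw [pow_two] at h
  exact inv_eq_of_mul_eq_one_left h

theorem V_mul_self {x : P} (hx : x ∈ hA.V) : x * x = 1 := by
  rw [← pow_two]; exact hx.2

theorem sq_mem_V {a : P} (ha : a ∈ A) : a ^ 2 ∈ hA.V :=
  ⟨A.pow_mem ha 2, by rw [← pow_mul]; exact hA.pow4 a ha⟩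

/-- the centralizer -/
theorem mem_C {x : P} : x ∈ centralizer (A : Set P) ↔ ∀ a ∈ A, x * a = a * x := by
  rw [mem_centralizer_iff]
  exact ⟨fun h a ha => (h a ha).symm, fun h a ha => (h a ha).symm⟩

theorem A_le_C : A ≤ centralizer (A : Set P) := by
  intro x hx
  rw [hA.mem_C]
  exact fun a ha => hA.comm x hx a ha

theorem C_norm (g : P) {x : P} (hx : x ∈ centralizer (A : Set P)) :
    g * x * g⁻¹ ∈ centralizer (A : Set P) := by
  rw [hA.mem_C] at hx ⊢
  intro a ha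
  have h := hx (g⁻¹ * a * g) (by simpa using hA.norm g⁻¹ a ha)
  calc g * x * g⁻¹ * a = g * (x * (g⁻¹ * a * g)) * g⁻¹ := by group
    _ = g * ((g⁻¹ * a * g) * x) * g⁻¹ := by rw [h]
    _ = a * (g * x * g⁻¹) := by group

theorem mem_A_of_C {x : P} (hx : x ∈ centralizer (A : Set P)) (h4 : x ^ 4 = 1) : x ∈ A :=
  hA.cen x ((hA.mem_C).1 hx) h4

theorem mem_V_of_C {x : P} (hx : x ∈ centralizer (A : Set P)) (h2 : x ^ 2 = 1) : x ∈ hA.V :=
  ⟨hA.mem_A_of_C hx (by rw [show 4 = 2 * 2 from rfl, pow_mul, h2, one_pow]), h2⟩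

variable [Finite P] (hP : IsPGroup 2 P)
include hP

theorem sq_of_inv {c t : P} (hc : c ∈ centralizer (A : Set P)) (h : t * c * t⁻¹ = c⁻¹)
    (h1 : ∀ a ∈ A, t * a * t⁻¹ = a⁻¹ → a ^ 2 = 1) : c ^ 2 = 1 := by
  by_contra hne
  obtain ⟨k, hk4, hk2⟩ := exists_pow hP c hne
  refine hk2 (h1 _ (hA.mem_A_of_C (pow_mem hc k) hk4) ?_)
  rw [← conj_pow, h, inv_pow]

theorem sq_of_fix {c t : P} (hc : c ∈ centralizer (A : Set P)) (h : t * c * t⁻¹ = c)
    (h1 : ∀ a ∈ A, t * a * t⁻¹ = a → a ^ 2 = 1) : c ^ 2 = 1 := by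
  by_contra hne
  obtain ⟨k, hk4, hk2⟩ := exists_pow hP c hne
  refine hk2 (h1 _ (hA.mem_A_of_C (pow_mem hc k) hk4) ?_)
  rw [← conj_pow, h]

theorem sq_eq {x y : P} (hx : x ∈ centralizer (A : Set P)) (hy : y ∈ centralizer (A : Set P))
    (h : x ^ 2 = y ^ 2) : x * y⁻¹ ∈ hA.V := by
  have hxy := mul_mem hx (inv_mem hy)
  refine hA.mem_V_of_C hxy (hA.sq_of_inv hP (t := x) hxy ?_ ?_)
  · have h' : x * x = y * y := by rwa [pow_two, pow_two] at h
    calc x * (x * y⁻¹) * x⁻¹ = (x * x) * y⁻¹ * x⁻¹ := by group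
      _ = (y * y) * y⁻¹ * x⁻¹ := by rw [h']
      _ = (x * y⁻¹)⁻¹ := by group
  · intro a ha h3
    rw [(hA.mem_C).1 hx a ha, mul_inv_cancel_right] at h3
    rw [pow_two]
    nth_rewrite 1 [h3]
    simp

/-- counting squares -/
theorem card_le (hV : Nat.card hA.V ≤ 4) (D N : Subgroup P) (hD : D ≤ centralizer (A : Set P))
    (hN : N ≤ D) (hsq : ∀ x ∈ D, x ^ 2 ∈ N) :
    Nat.card D ≤ 4 * Nat.card N ∧
      (4 * Nat.card N ≤ Nat.card D → ∀ n ∈ N, ∃ d ∈ D, d ^ 2 = n) := by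
  classical
  haveI : Fintype P := Fintype.ofFinite P
  haveI : Fintype D := Fintype.ofFinite D
  let s : Finset P := Finset.univ.filter (fun x => x ∈ D)
  let u : Finset P := Finset.univ.filter (fun x => x ∈ N)
  have hs : s.card = Nat.card D := by
    rw [Nat.card_eq_fintype_card, Fintype.card_subtype]
  have hu : u.card = Nat.card N := by
    rw [Nat.card_eq_fintype_card, Fintype.card_subtype]
  have hcard : s.card ≤ 4 * (s.image (fun x => x ^ 2)).card := by
    refine Finset.card_le_mul_card_image (f := fun x : P => x ^ 2) s 4 ?_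
    intro b hb
    obtain ⟨x0, hx0, rfl⟩ := Finset.mem_image.1 hb
    have hx0D : x0 ∈ D := (Finset.mem_filter.1 hx0).2
    have h1 : (s.filter (fun x => x ^ 2 = x0 ^ 2)).card ≤
        (Finset.univ.filter (fun x => x ∈ hA.V)).card := by
      refine Finset.card_le_card_of_injOn (fun x => x * x0⁻¹) ?_ ?_
      · intro x hx
        rw [Finset.mem_coe, Finset.mem_filter] at hx
        have hxD : x ∈ D := (Finset.mem_filter.1 hx.1).2
        rw [Finset.mem_coe, Finset.mem_filter]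
        exact ⟨Finset.mem_univ _, hA.sq_eq hP (hD hxD) (hD hx0D) hx.2⟩
      · intro x _ y _ hxy
        exact mul_right_cancel hxy
    refine h1.trans ?_
    rw [← Fintype.card_subtype, ← Nat.card_eq_fintype_card]
    exact hV
  have himg : s.image (fun x => x ^ 2) ⊆ u := by
    intro y hy
    obtain ⟨x, hx, rfl⟩ := Finset.mem_image.1 hy
    rw [Finset.mem_filter]
    exact ⟨Finset.mem_univ _, hsq x (Finset.mem_filter.1 hx).2⟩
  have hle := Finset.card_le_card himg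
  refine ⟨by omega, fun h n hn => ?_⟩
  have heq : s.image (fun x => x ^ 2) = u := Finset.eq_of_subset_of_card_le himg (by omega)
  have : n ∈ s.image (fun x => x ^ 2) := by
    rw [heq, Finset.mem_filter]; exact ⟨Finset.mem_univ _, hn⟩
  obtain ⟨x, hx, hxn⟩ := Finset.mem_image.1 this
  exact ⟨x, (Finset.mem_filter.1 hx).2, hxn⟩

end AD

/-! ### The action on `A` of elements centralizing the involutions of `A` -/

namespace AD

variable {A : Subgroup P} (hA : AD A)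

/-- `t` centralizes the involutions of `A` -/
def KK (hA : AD A) : Subgroup P := centralizer (hA.V : Set P)

theorem mem_K {t : P} : t ∈ hA.KK ↔ ∀ v ∈ hA.V, t * v = v * t := by
  rw [KK, mem_centralizer_iff]
  exact ⟨fun h a ha => (h a ha).symm, fun h a ha => (h a ha).symm⟩

theorem K_conj {t v : P} (ht : t ∈ hA.KK) (hv : v ∈ hA.V) : t * v * t⁻¹ = v := by
  rw [(hA.mem_K).1 ht v hv, mul_inv_cancel_right]

theorem C_le_K : centralizer (A : Set P) ≤ hA.KK := by
  intro x hx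
  rw [hA.mem_K]
  exact fun v hv => (hA.mem_C).1 hx v hv.1

theorem K_norm (g : P) {t : P} (ht : t ∈ hA.KK) : g * t * g⁻¹ ∈ hA.KK := by
  rw [hA.mem_K]
  intro v hv
  have h := (hA.mem_K).1 ht (g⁻¹ * v * g) (by simpa using hA.V_norm g⁻¹ hv)
  calc g * t * g⁻¹ * v = g * (t * (g⁻¹ * v * g)) * g⁻¹ := by group
    _ = g * ((g⁻¹ * v * g) * t) * g⁻¹ := by rw [h]
    _ = v * (g * t * g⁻¹) := by group

theorem br_mem {t a : P} (ht : t ∈ hA.KK) (ha : a ∈ A) : t * a * t⁻¹ * a⁻¹ ∈ hA.V := by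
  have h1 := hA.norm t a ha
  refine ⟨A.mul_mem h1 (A.inv_mem ha), ?_⟩
  rw [(show Commute (t * a * t⁻¹) a⁻¹ from hA.comm _ h1 _ (A.inv_mem ha)).mul_pow, conj_pow,
    hA.K_conj ht (hA.sq_mem_V ha), inv_pow, mul_inv_cancel]

theorem br_mul_left {s t a : P} (hs : s ∈ hA.KK) (ht : t ∈ hA.KK) (ha : a ∈ A) :
    (s * t) * a * (s * t)⁻¹ * a⁻¹ = (s * a * s⁻¹ * a⁻¹) * (t * a * t⁻¹ * a⁻¹) := by
  have h1 := hA.K_conj hs (hA.br_mem ht ha)
  have h2 := hA.br_mem ht ha
  have h3 := hA.br_mem hs ha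
  calc (s * t) * a * (s * t)⁻¹ * a⁻¹
      = (s * (t * a * t⁻¹ * a⁻¹) * s⁻¹) * (s * a * s⁻¹ * a⁻¹) := by group
    _ = (t * a * t⁻¹ * a⁻¹) * (s * a * s⁻¹ * a⁻¹) := by rw [h1]
    _ = _ := hA.comm _ h2.1 _ h3.1

theorem br_mul_right {t a b : P} (ht : t ∈ hA.KK) (ha : a ∈ A) (hb : b ∈ A) :
    t * (a * b) * t⁻¹ * (a * b)⁻¹ = (t * a * t⁻¹ * a⁻¹) * (t * b * t⁻¹ * b⁻¹) := by
  have h2 := hA.br_mem ht hb
  calc t * (a * b) * t⁻¹ * (a * b)⁻¹
      = (t * a * t⁻¹) * ((t * b * t⁻¹ * b⁻¹) * a⁻¹) := by group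
    _ = (t * a * t⁻¹) * (a⁻¹ * (t * b * t⁻¹ * b⁻¹)) := by
        rw [hA.comm _ h2.1 _ (A.inv_mem ha)]
    _ = _ := by group

/-- the commutator depends on the square only -/
theorem br_eq {t a b : P} (ht : t ∈ hA.KK) (ha : a ∈ A) (hb : b ∈ A) (h : a ^ 2 = b ^ 2) :
    t * a * t⁻¹ * a⁻¹ = t * b * t⁻¹ * b⁻¹ := by
  have hv : a * b⁻¹ ∈ hA.V := by
    refine ⟨A.mul_mem ha (A.inv_mem hb), ?_⟩
    rw [(show Commute a b⁻¹ from hA.comm _ ha _ (A.inv_mem hb)).mul_pow, h, inv_pow, mul_inv_cancel]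
  have h1 := hA.br_mul_right ht hv.1 hb
  rw [inv_mul_cancel_right, hA.K_conj ht hv, mul_inv_cancel, one_mul] at h1
  exact h1

/-- surjectivity by counting -/
theorem surj [Finite P] (hV : Nat.card hA.V = 4) (hA16 : Nat.card A = 16) (f : A →* hA.V)
    (hf : ∀ a : A, f a = 1 → (a : P) ^ 2 = 1) : Function.Surjective f := by
  have h1 : Nat.card f.ker ≤ 4 := by
    rw [← hV]
    refine Nat.card_le_card_of_injective
      (fun x : f.ker => (⟨(x : A), (x : A).2, hf x.1 x.2⟩ : hA.V)) ?_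
    intro x y hxy
    have := congrArg Subtype.val hxy
    exact Subtype.ext (Subtype.ext this)
  have h2 : Nat.card f.ker * Nat.card f.range = Nat.card A := by
    rw [← Subgroup.index_ker, mul_comm, Subgroup.index_mul_card]
  have h3 : Nat.card f.range = 4 := by
    have h4 : Nat.card f.range ≤ 4 := by
      rw [← hV]; exact Nat.card_le_card_of_injective _ Subtype.val_injective
    rw [hA16] at h2
    by_contra hne
    have h5 : Nat.card f.range ≤ 3 := by omega
    have := Nat.mul_le_mul h1 h5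
    omega
  rw [← MonoidHom.range_eq_top]
  exact Subgroup.eq_top_of_card_eq _ (by rw [h3, hV])

/-- `a ↦ a · tat⁻¹` -/
theorem surj_mul [Finite P] (hV : Nat.card hA.V = 4) (hA16 : Nat.card A = 16) {t : P} (ht : t ∈ hA.KK)
    (h1 : ∀ a ∈ A, t * a * t⁻¹ = a⁻¹ → a ^ 2 = 1) {v : P} (hv : v ∈ hA.V) :
    ∃ a ∈ A, a * (t * a * t⁻¹) = v := by
  have hmem : ∀ a ∈ A, a * (t * a * t⁻¹) ∈ hA.V := by
    intro a ha
    refine ⟨A.mul_mem ha (hA.norm t a ha), ?_⟩
    rw [(show Commute a (t * a * t⁻¹) from hA.comm _ ha _ (hA.norm t a ha)).mul_pow, conj_pow,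
      hA.K_conj ht (hA.sq_mem_V ha), ← pow_add, hA.pow4 a ha]
  let f : A →* hA.V :=
    { toFun := fun a => ⟨a * (t * a * t⁻¹), hmem a a.2⟩
      map_one' := by ext; simp
      map_mul' := by
        rintro ⟨a, ha⟩ ⟨b, hb⟩
        apply Subtype.ext
        have h2 := hA.comm b hb (t * a * t⁻¹) (hA.norm t a ha)
        change a * b * (t * (a * b) * t⁻¹) = a * (t * a * t⁻¹) * (b * (t * b * t⁻¹))
        calc a * b * (t * (a * b) * t⁻¹) = a * (b * (t * a * t⁻¹)) * (t * b * t⁻¹) := by group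
          _ = a * ((t * a * t⁻¹) * b) * (t * b * t⁻¹) := by rw [h2]
          _ = _ := by group }
  obtain ⟨a, ha⟩ := hA.surj hV hA16 f (by
    rintro ⟨a, ha⟩ hfa
    refine h1 a ha ?_
    have h3 : a * (t * a * t⁻¹) = 1 := congrArg Subtype.val hfa
    exact (inv_eq_of_mul_eq_one_right h3).symm) ⟨v, hv⟩
  exact ⟨a, a.2, congrArg Subtype.val ha⟩

/-- `a ↦ tat⁻¹a⁻¹` -/
theorem surj_br [Finite P] (hV : Nat.card hA.V = 4) (hA16 : Nat.card A = 16) {t : P} (ht : t ∈ hA.KK)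
    (h1 : ∀ a ∈ A, t * a * t⁻¹ = a → a ^ 2 = 1) {v : P} (hv : v ∈ hA.V) :
    ∃ a ∈ A, t * a * t⁻¹ * a⁻¹ = v := by
  let f : A →* hA.V :=
    { toFun := fun a => ⟨t * a * t⁻¹ * (a : P)⁻¹, hA.br_mem ht a.2⟩
      map_one' := by ext; simp
      map_mul' := by
        rintro ⟨a, ha⟩ ⟨b, hb⟩
        apply Subtype.ext
        exact hA.br_mul_right ht ha hb }
  obtain ⟨a, ha⟩ := hA.surj hV hA16 f (by
    rintro ⟨a, ha⟩ hfa
    refine h1 a ha ?_
    have h3 : t * a * t⁻¹ * a⁻¹ = 1 := congrArg Subtype.val hfa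
    exact mul_inv_eq_one.1 h3) ⟨v, hv⟩
  exact ⟨a, a.2, congrArg Subtype.val ha⟩

/-- no normal elementary abelian subgroup of order 8: the key contradiction -/
theorem key [Finite P] (hP : IsPGroup 2 P)
    (hE : ∀ B : Subgroup P, B.Normal → IsMulCommutative B → (∀ b ∈ B, b ^ 2 = 1) → Nat.card B ≤ 4)
    (hV : Nat.card hA.V = 4) (hA16 : Nat.card A = 16) {t : P} (ht : t ∈ hA.KK)
    (htC : t ∉ centralizer (A : Set P)) (h1 : ∀ a ∈ A, t * a * t⁻¹ = a⁻¹ → a ^ 2 = 1)
    (h3 : ∀ g : P, g * t * g⁻¹ * t⁻¹ ∈ centralizer (A : Set P))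
    {c : P} (hc : c ∈ centralizer (A : Set P)) (htc : t ^ 2 = c ^ 2) : False := by
  have htt : t * t = c * c := by rwa [pow_two, pow_two] at htc
  -- the commutator of `t` and `c`
  have hv : t * c * t⁻¹ * c⁻¹ ∈ hA.V := by
    refine hA.sq_eq hP (hA.C_norm t hc) hc ?_
    rw [conj_pow, ← htc, pow_two]; group
  set v := t * c * t⁻¹ * c⁻¹ with hvdef
  obtain ⟨a, ha, hav⟩ := hA.surj_mul hV hA16 ht h1 hv
  -- the involution
  set s := a * c⁻¹ * t with hs
  have hcv : c * v = v * c := (hA.mem_C).1 hc v hv.1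
  have hca : c * a = a * c := (hA.mem_C).1 hc a ha
  have hca' : c * (t * a * t⁻¹) = (t * a * t⁻¹) * c := (hA.mem_C).1 hc _ (hA.norm t a ha)
  have hvv : v * v = 1 := hA.V_mul_self hv
  have hcomm1 : Commute c (t * a * t⁻¹) := hca'
  have hcomm2 : Commute c v := hcv
  have hss : s * s = 1 := by
    have e1 : t * c⁻¹ * t⁻¹ = c⁻¹ * v := by
      have h4 : t * c * t⁻¹ = v * c := by rw [hvdef]; group
      calc t * c⁻¹ * t⁻¹ = (t * c * t⁻¹)⁻¹ := by group
        _ = c⁻¹ * v⁻¹ := by rw [h4, mul_inv_rev]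
        _ = c⁻¹ * v := by rw [hA.V_inv hv]
    calc s * s = a * c⁻¹ * (t * a * t⁻¹) * (t * c⁻¹ * t⁻¹) * (t * t) := by rw [hs]; group
      _ = a * (c⁻¹ * (t * a * t⁻¹)) * (c⁻¹ * v) * (c * c) := by rw [e1, htt]; group
      _ = a * ((t * a * t⁻¹) * c⁻¹) * (c⁻¹ * v) * (c * c) := by rw [hcomm1.inv_left.eq]
      _ = (a * (t * a * t⁻¹)) * c⁻¹ * (c⁻¹ * v) * (c * c) := by group
      _ = v * c⁻¹ * (v * c⁻¹) * (c * c) := by rw [hav, hcomm2.inv_left.eq]
      _ = v * (c⁻¹ * v) * c := by group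
      _ = v * (v * c⁻¹) * c := by rw [hcomm2.inv_left.eq]
      _ = v * v := by group
      _ = 1 := hvv
  have hsact : ∀ b ∈ A, s * b * s⁻¹ = t * b * t⁻¹ := by
    intro b hb
    have e := hA.norm t b hb
    have e2 : Commute c (t * b * t⁻¹) := (hA.mem_C).1 hc _ e
    calc s * b * s⁻¹ = a * (c⁻¹ * (t * b * t⁻¹)) * c * a⁻¹ := by rw [hs]; group
      _ = a * ((t * b * t⁻¹) * c⁻¹) * c * a⁻¹ := by rw [e2.inv_left.eq]
      _ = (a * (t * b * t⁻¹)) * a⁻¹ := by group
      _ = ((t * b * t⁻¹) * a) * a⁻¹ := by rw [hA.comm a ha _ e]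
      _ = _ := by group
  have hac : a * c⁻¹ ∈ centralizer (A : Set P) := mul_mem (hA.A_le_C ha) (inv_mem hc)
  have hsK : s ∈ hA.KK := mul_mem (hA.C_le_K hac) ht
  have hsg : ∀ g : P, ∃ w ∈ hA.V, g * s * g⁻¹ = w * s := by
    intro g
    refine ⟨g * s * g⁻¹ * s⁻¹, ?_, by group⟩
    have e1 : g * s * g⁻¹ * s⁻¹ ∈ centralizer (A : Set P) := by
      have : g * s * g⁻¹ * s⁻¹
          = (g * (a * c⁻¹) * g⁻¹) * (g * t * g⁻¹ * t⁻¹) * (a * c⁻¹)⁻¹ := by rw [hs]; group
      rw [this]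
      exact mul_mem (mul_mem (hA.C_norm g hac) (h3 g)) (inv_mem hac)
    refine hA.mem_V_of_C e1 (hA.sq_of_inv hP (t := s) e1 ?_ ?_)
    · have hsi : s⁻¹ = s := inv_eq_of_mul_eq_one_left hss
      calc s * (g * s * g⁻¹ * s⁻¹) * s⁻¹ = s * (g * s * g⁻¹) * (s * s)⁻¹ := by group
        _ = s * (g * s⁻¹ * g⁻¹) := by rw [hss, hsi]; group
        _ = (g * s * g⁻¹ * s⁻¹)⁻¹ := by group
    · intro b hb hbs
      exact h1 b hb (by rw [← hsact b hb]; exact hbs)
  -- the normal subgroup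
  let B : Subgroup P :=
    { carrier := {x | x ∈ hA.V ∨ x * s ∈ hA.V}
      one_mem' := Or.inl (one_mem _)
      mul_mem' := by
        rintro x y hx hy
        rcases hx with hx | hx <;> rcases hy with hy | hy
        · exact Or.inl (mul_mem hx hy)
        · right
          rw [mul_assoc]; exact mul_mem hx hy
        · right
          have e := (hA.mem_K).1 hsK y hy
          rw [mul_assoc, ← e, ← mul_assoc]; exact mul_mem hx hy
        · left
          have e := (hA.mem_K).1 hsK _ hy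
          have : x * y = (x * s) * (y * s) := by
            calc x * y = x * (y * (s * s)) := by rw [hss]; group
              _ = x * ((y * s) * s) := by group
              _ = x * (s * (y * s)) := by rw [← e]
              _ = _ := by group
          rw [this]; exact mul_mem hx hy
      inv_mem' := by
        rintro x hx
        rcases hx with hx | hx
        · exact Or.inl (inv_mem hx)
        · right
          have e := (hA.mem_K).1 hsK _ (inv_mem hx)
          have : x⁻¹ * s = (x * s)⁻¹ := by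
            calc x⁻¹ * s = s * (x * s)⁻¹ * s := by group
              _ = (x * s)⁻¹ * s * s := by rw [e]
              _ = (x * s)⁻¹ * (s * s) := by group
              _ = _ := by rw [hss, mul_one]
          rw [this]; exact inv_mem hx }
  have hsi : s⁻¹ = s := inv_eq_of_mul_eq_one_left hss
  have hBs : ∀ x ∈ B, x ∈ hA.V ∨ ∃ w ∈ hA.V, x = w * s := by
    intro x hx
    rcases hx with hx | hx
    · exact Or.inl hx
    · exact Or.inr ⟨x * s, hx, by rw [mul_assoc, hss, mul_one]⟩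
  have hsB : s ∈ B := Or.inr (by change s * s ∈ _; rw [hss]; exact one_mem _)
  have hVB : hA.V ≤ B := fun x hx => Or.inl hx
  have hBcomm : ∀ x ∈ B, ∀ y ∈ B, x * y = y * x := by
    have hVV : ∀ x ∈ hA.V, ∀ y ∈ hA.V, x * y = y * x := fun x hx y hy => hA.comm x hx.1 y hy.1
    intro x hx y hy
    rcases hBs x hx with hx | ⟨w, hw, rfl⟩ <;> rcases hBs y hy with hy | ⟨w', hw', rfl⟩
    · exact hVV x hx y hy
    · have e := (hA.mem_K).1 hsK x hx
      rw [← mul_assoc, hVV x hx w' hw', mul_assoc, mul_assoc, e]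
    · have e := (hA.mem_K).1 hsK y hy
      rw [mul_assoc, e, ← mul_assoc, hVV w hw y hy, mul_assoc]
    · have e := (hA.mem_K).1 hsK w' hw'
      have e' := (hA.mem_K).1 hsK w hw
      calc w * s * (w' * s) = w * (s * w') * s := by group
        _ = w * (w' * s) * s := by rw [e]
        _ = (w * w') * s * s := by group
        _ = (w' * w) * s * s := by rw [hVV w hw w' hw']
        _ = w' * (w * s) * s := by group
        _ = w' * (s * w) * s := by rw [e']
        _ = _ := by group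
  have hBsq : ∀ b ∈ B, b ^ 2 = 1 := by
    intro x hx
    rcases hBs x hx with hx | ⟨w, hw, rfl⟩
    · exact hx.2
    · have e := (hA.mem_K).1 hsK w hw
      calc (w * s) ^ 2 = w * (s * w) * s := by rw [pow_two]; group
        _ = w * (w * s) * s := by rw [e]
        _ = (w * w) * (s * s) := by group
        _ = 1 := by rw [hss, hA.V_mul_self hw, mul_one]
  have hBn : B.Normal := by
    constructor
    intro x hx g
    rcases hBs x hx with hx | ⟨w, hw, rfl⟩
    · exact hVB (hA.V_norm g hx)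
    · obtain ⟨w', hw', e⟩ := hsg g
      have : g * (w * s) * g⁻¹ = (g * w * g⁻¹) * (w' * s) := by rw [← e]; group
      rw [this]
      exact mul_mem (hVB (hA.V_norm g hw)) (mul_mem (hVB hw') hsB)
  have hcard := hE B hBn ⟨⟨fun x y => Subtype.ext (hBcomm x x.2 y y.2)⟩⟩ hBsq
  have hVB' : hA.V = B := by
    apply Subgroup.eq_of_le_of_card_ge hVB
    rw [hV]; exact hcard
  have hsV : s ∈ hA.V := by rw [hVB']; exact hsB
  apply htC
  rw [hA.mem_C]
  intro b hb
  have h4 := hsact b hb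
  rw [hA.comm s hsV.1 b hb, mul_inv_cancel_right] at h4
  rw [mul_inv_eq_iff_eq_mul.1 h4.symm]

end AD

end H25.MacW
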