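import Mathlib
import Cfsg.Agent.Lib.H25.MacW

/-!
MacWilliams's theorem, part 2: counting lemmas and the case where the squares of `A` have order at most 2.
-/

set_option autoImplicit false
set_option linter.unusedSectionVars false
set_option linter.all false

namespace H25.MacW

open Subgroup

section count

variable {P : Type*} [Group P] {M : Type*} [Group M]

theorem cardRel {N H : Subgroup P} (h : N ≤ H) : Nat.card N * N.relIndex H = Nat.card H := by
  rw [← relIndex_bot_left N, ← relIndex_bot_left H]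
  exact relIndex_mul_relIndex _ _ _ bot_le h

/-- image under a partially defined homomorphism -/
def im {K : Subgroup P} (φ : K →* M) (X : Subgroup P) : Subgroup M := (X.subgroupOf K).map φ

theorem mem_im {K : Subgroup P} {φ : K →* M} {X : Subgroup P} {m : M} :
    m ∈ im φ X ↔ ∃ x : K, (x : P) ∈ X ∧ φ x = m := by
  rw [im, mem_map]
  rfl

theorem im_mono {K : Subgroup P} {φ : K →* M} {X Y : Subgroup P} (h : X ≤ Y) : im φ X ≤ im φ Y := by
  intro m hm
  obtain ⟨x, hx, rfl⟩ := mem_im.1 hm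
  exact mem_im.2 ⟨x, h hx, rfl⟩

variable [Finite P] [Finite M]

theorem card_im {K C : Subgroup P} (φ : K →* M) (hC : ∀ k : K, φ k = 1 ↔ (k : P) ∈ C) {X : Subgroup P}
    (hX : X ≤ K) : Nat.card (im φ X) * Nat.card (X ⊓ C : Subgroup P) = Nat.card X := by
  have h1 : Nat.card (X.subgroupOf K) = Nat.card X := Nat.card_congr (subgroupOfEquivOfLe hX).toEquiv
  set f := φ.domRestrict (X.subgroupOf K) with hf
  have h2 : Nat.card f.range * Nat.card f.ker = Nat.card (X.subgroupOf K) := by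
    rw [← Subgroup.index_ker, Subgroup.index_mul_card]
  have h3 : f.range = im φ X := MonoidHom.domRestrict_range _ _
  have h4 : Nat.card f.ker = Nat.card (X ⊓ C : Subgroup P) := by
    refine Nat.card_congr
      { toFun := fun x => ⟨((x : X.subgroupOf K) : K), (x : X.subgroupOf K).2, (hC _).1 x.2⟩
        invFun := fun y => ⟨⟨⟨y, hX y.2.1⟩, y.2.1⟩, (hC ⟨y, hX y.2.1⟩).2 y.2.2⟩
        left_inv := fun x => rfl
        right_inv := fun y => rfl }
  rw [← h1, ← h2, h3, h4]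

theorem bound {K C : Subgroup P} (φ : K →* M) (hC : ∀ k : K, φ k = 1 ↔ (k : P) ∈ C) (hCK : C ≤ K)
    {H N : Subgroup P} (hNH : N ≤ H) {l κ a : ℕ} (hl : Nat.card H ≤ l * Nat.card (H ⊓ K : Subgroup P))
    (hST : Nat.card (im φ (H ⊓ K)) ≤ κ * Nat.card (im φ (N ⊓ K)))
    (ha : Nat.card (H ⊓ C : Subgroup P) ≤ a * Nat.card (N ⊓ C : Subgroup P)) :
    N.relIndex H ≤ l * κ * a := by
  have h1 := card_im φ hC (X := H ⊓ K) inf_le_right
  have h2 := card_im φ hC (X := N ⊓ K) inf_le_right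
  have e1 : (H ⊓ K ⊓ C : Subgroup P) = H ⊓ C := by rw [inf_assoc, inf_eq_right.2 hCK]
  have e2 : (N ⊓ K ⊓ C : Subgroup P) = N ⊓ C := by rw [inf_assoc, inf_eq_right.2 hCK]
  rw [e1] at h1
  rw [e2] at h2
  have h3 : N.relIndex H * Nat.card N = Nat.card H := by
    rw [mul_comm]; exact cardRel hNH
  have h4 : Nat.card (N ⊓ K : Subgroup P) ≤ Nat.card N :=
    Nat.le_of_dvd Nat.card_pos (Subgroup.card_dvd_of_le inf_le_left)
  have h5 : N.relIndex H * Nat.card N ≤ (l * κ * a) * Nat.card N := by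
    calc N.relIndex H * Nat.card N = Nat.card H := h3
      _ ≤ l * Nat.card (H ⊓ K : Subgroup P) := hl
      _ = l * (Nat.card (im φ (H ⊓ K)) * Nat.card (H ⊓ C : Subgroup P)) := by rw [h1]
      _ ≤ l * ((κ * Nat.card (im φ (N ⊓ K))) * (a * Nat.card (N ⊓ C : Subgroup P))) := by gcongr
      _ = (l * κ * a) * (Nat.card (im φ (N ⊓ K)) * Nat.card (N ⊓ C : Subgroup P)) := by ring
      _ = (l * κ * a) * Nat.card (N ⊓ K : Subgroup P) := by rw [h2]
      _ ≤ _ := by gcongr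
  exact Nat.le_of_mul_le_mul_right h5 Nat.card_pos

theorem card_le_of_theta (θ : M →* M) (S T : Subgroup M) (hST : ∀ s ∈ S, θ s ∈ T) {κ : ℕ}
    (hκ : Nat.card (S ⊓ θ.ker : Subgroup M) ≤ κ) : Nat.card S ≤ κ * Nat.card T := by
  set f := θ.domRestrict S with hf
  have h2 : Nat.card f.range * Nat.card f.ker = Nat.card S := by
    rw [← Subgroup.index_ker, Subgroup.index_mul_card]
  have h3 : Nat.card f.range ≤ Nat.card T := by
    refine Nat.le_of_dvd Nat.card_pos (Subgroup.card_dvd_of_le ?_)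
    rintro _ ⟨s, rfl⟩
    exact hST s s.2
  have h4 : Nat.card f.ker = Nat.card (S ⊓ θ.ker : Subgroup M) := by
    refine Nat.card_congr
      { toFun := fun x => ⟨(x : S), (x : S).2, x.2⟩
        invFun := fun y => ⟨⟨y, y.2.1⟩, y.2.2⟩
        left_inv := fun x => rfl
        right_inv := fun y => rfl }
  rw [← h2, h4, mul_comm]
  exact Nat.mul_le_mul hκ h3

theorem card_le_two {Z : Type*} [Finite Z] (z : Z) (w : Z) (h : ∀ x : Z, x = z ∨ x = w) :
    Nat.card Z ≤ 2 := by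
  classical
  have : Nat.card Z ≤ Nat.card Bool := by
    refine Nat.card_le_card_of_injective (fun x => decide (x = z)) ?_
    intro x y hxy
    have hxy' : (x = z) ↔ (y = z) := by simpa using hxy
    rcases h x with hx | hx
    · rw [hx, hxy'.1 hx]
    · by_cases hy : y = z
      · rw [hy, hxy'.2 hy]
      · rw [hx, (h y).resolve_left hy]
  simpa using this

theorem card_half {K H : Subgroup P} (h : ∀ x ∈ H, ∀ y ∈ H, x ∉ K → y ∉ K → x * y ∈ K) :
    Nat.card H ≤ 2 * Nat.card (H ⊓ K : Subgroup P) := by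
  have h1 : Nat.card (H ⊓ K : Subgroup P) * (H ⊓ K).relIndex H = Nat.card H :=
    cardRel inf_le_left
  rw [inf_relIndex_left] at h1
  have h2 : K.relIndex H ≤ 2 := by
    by_cases hHK : H ≤ K
    · rw [relIndex_eq_one.2 hHK]; norm_num
    · obtain ⟨g, hg, hgK⟩ := SetLike.not_le_iff_exists.1 hHK
      apply le_of_eq
      rw [relIndex, index_eq_two_iff]
      refine ⟨⟨g, hg⟩, fun b => ?_⟩
      rw [mem_subgroupOf, mem_subgroupOf]
      by_cases hb : (b : P) ∈ K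
      · right
        refine ⟨hb, fun h' => hgK ?_⟩
        have : g = (b : P)⁻¹ * ((b * ⟨g, hg⟩ : H) : P) := by simp
        rw [this]
        exact mul_mem (inv_mem hb) h'
      · left
        exact ⟨h b b.2 g hg hb hgK, hb⟩
  rw [← h1, mul_comm]
  exact Nat.mul_le_mul_right _ h2

end count

namespace AD

variable {P : Type*} [Group P] {A : Subgroup P} (hA : AD A)

/-- the homomorphism given by commutation with `a` -/
def brHom (a : P) (ha : a ∈ A) : hA.KK →* hA.V where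
  toFun t := ⟨t * a * (t : P)⁻¹ * a⁻¹, hA.br_mem t.2 ha⟩
  map_one' := by ext; simp
  map_mul' := by
    rintro ⟨s, hs⟩ ⟨t, ht⟩
    apply Subtype.ext
    exact hA.br_mul_left hs ht ha

theorem brHom_apply (a : P) (ha : a ∈ A) (t : hA.KK) :
    ((hA.brHom a ha t : hA.V) : P) = t * a * (t : P)⁻¹ * a⁻¹ := rfl

theorem br_conj (g t a : P) :
    (g * t * g⁻¹) * a * (g * t * g⁻¹)⁻¹ * a⁻¹
      = g * (t * (g⁻¹ * a * g) * t⁻¹ * (g⁻¹ * a * g)⁻¹) * g⁻¹ := by group

theorem br_eq_one {t a : P} (h : t * a * t⁻¹ * a⁻¹ = 1) : t * a = a * t :=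
  mul_inv_eq_iff_eq_mul.1 (mul_inv_eq_one.1 h)

/-- dichotomy -/
theorem dich [Finite P] (hP : IsPGroup 2 P) (hV : Nat.card hA.V ≤ 4) {H N : Subgroup P} (hNH : N ≤ H)
    (hsq : ∀ x ∈ H, x ^ 2 ∈ N) :
    Nat.card (H ⊓ centralizer (A : Set P) : Subgroup P)
        ≤ 4 * Nat.card (N ⊓ centralizer (A : Set P) : Subgroup P) ∧
      (Nat.card (H ⊓ centralizer (A : Set P) : Subgroup P)
        ≤ 2 * Nat.card (N ⊓ centralizer (A : Set P) : Subgroup P) ∨
      ∀ n ∈ N, n ∈ centralizer (A : Set P) → ∃ d ∈ H, d ∈ centralizer (A : Set P) ∧ d ^ 2 = n) := by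
  set C := centralizer (A : Set P) with hCdef
  have hle : N ⊓ C ≤ H ⊓ C := inf_le_inf_right _ hNH
  obtain ⟨h1, h2⟩ := hA.card_le hP hV (H ⊓ C) (N ⊓ C) inf_le_right hle
    (fun x hx => ⟨hsq x hx.1, pow_mem hx.2 2⟩)
  refine ⟨h1, ?_⟩
  by_cases h4 : 4 * Nat.card (N ⊓ C : Subgroup P) ≤ Nat.card (H ⊓ C : Subgroup P)
  · right
    intro n hn hnC
    obtain ⟨d, hd, hdn⟩ := h2 h4 n ⟨hn, hnC⟩
    exact ⟨d, hd.1, hd.2, hdn⟩
  · left
    have h3 : Nat.card (N ⊓ C : Subgroup P) * (N ⊓ C).relIndex (H ⊓ C) = Nat.card (H ⊓ C : Subgroup P) :=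
      cardRel hle
    have h5 : (N ⊓ C).relIndex (H ⊓ C) ∣ Nat.card P := by
      have := Subgroup.card_subgroup_dvd_card (H ⊓ C)
      rw [← h3] at this
      exact (Dvd.intro_left _ rfl).trans this
    obtain ⟨n, hn⟩ := (IsPGroup.iff_card.1 hP)
    rw [hn, Nat.dvd_prime_pow Nat.prime_two] at h5
    obtain ⟨m, _, hm⟩ := h5
    rw [hm] at h3
    rw [← h3] at h4 ⊢
    have hpos : 0 < Nat.card (N ⊓ C : Subgroup P) := Nat.card_pos
    have hm2 : m < 2 := by
      by_contra hlt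
      push Not at hlt
      apply h4
      rw [mul_comm]
      gcongr
      calc 4 = 2 ^ 2 := by norm_num
        _ ≤ 2 ^ m := Nat.pow_le_pow_right (by norm_num) hlt
    have : 2 ^ m ≤ 2 := by
      calc 2 ^ m ≤ 2 ^ 1 := Nat.pow_le_pow_right (by norm_num) (by omega)
        _ = 2 := by norm_num
    rw [mul_comm]
    gcongr

/-- the involutions of `A`, described by two of them -/
structure VD (v₁ v₂ : P) : Prop where
  m1 : v₁ ∈ hA.V
  m2 : v₂ ∈ hA.V
  c1 : ∀ g : P, g * v₁ * g⁻¹ = v₁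
  c2 : ∀ g : P, g * v₂ * g⁻¹ = v₂ ∨ g * v₂ * g⁻¹ = v₁ * v₂
  all : ∀ v ∈ hA.V, v = 1 ∨ v = v₁ ∨ v = v₂ ∨ v = v₁ * v₂

namespace VD

variable {v₁ v₂ : P} (hv : hA.VD v₁ v₂)
include hv

theorem K_of (g : P) (h : g * v₂ * g⁻¹ = v₂) : g ∈ hA.KK := by
  rw [hA.mem_K]
  have h1 := mul_inv_eq_iff_eq_mul.1 (hv.c1 g)
  have h2 := mul_inv_eq_iff_eq_mul.1 h
  intro v hvV
  rcases hv.all v hvV with rfl | rfl | rfl | rfl
  · simp
  · exact h1
  · exact h2
  · rw [← mul_assoc, h1, mul_assoc, h2, mul_assoc]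

theorem c2' {g : P} (hg : g ∉ hA.KK) : g * v₂ * g⁻¹ = v₁ * v₂ :=
  (hv.c2 g).resolve_left (fun h => hg (hv.K_of hA g h))

theorem mul_mem_K {x y : P} (hx : x ∉ hA.KK) (hy : y ∉ hA.KK) : x * y ∈ hA.KK := by
  apply hv.K_of hA
  calc x * y * v₂ * (x * y)⁻¹ = x * (y * v₂ * y⁻¹) * x⁻¹ := by group
    _ = (x * v₁ * x⁻¹) * (x * v₂ * x⁻¹) := by rw [hv.c2' hA hy]; group
    _ = v₁ * v₁ * v₂ := by rw [hv.c1 x, hv.c2' hA hx, mul_assoc]
    _ = v₂ := by rw [hA.V_mul_self hv.m1, one_mul]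

theorem fix_of {g : P} (hg : g ∉ hA.KK) {x : P} (hx : x ∈ hA.V) (hgx : g * x * g⁻¹ = x) :
    x = 1 ∨ x = v₁ := by
  have h2 := hv.c2' hA hg
  have hne : v₁ * v₂ ≠ v₂ := fun h => hg (hv.K_of hA g (by rw [h2, h]))
  rcases hv.all x hx with rfl | rfl | rfl | rfl
  · exact Or.inl rfl
  · exact Or.inr rfl
  · exact absurd (h2.symm.trans hgx) hne
  · exfalso
    apply hne
    have : g * (v₁ * v₂) * g⁻¹ = (g * v₁ * g⁻¹) * (g * v₂ * g⁻¹) := by group
    rw [this, hv.c1 g, h2, ← mul_assoc, hA.V_mul_self hv.m1, one_mul] at hgx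
    exact hgx.symm

theorem card_H {H : Subgroup P} [Finite P] : Nat.card H ≤ 2 * Nat.card (H ⊓ hA.KK : Subgroup P) :=
  card_half (fun _ _ _ _ hx hy => hv.mul_mem_K hA hx hy)

end VD

variable [Finite P] (hP : IsPGroup 2 P)

include hP in
/-- the case where the squares of `A` form a group of order at most 2 -/
theorem caseI (hV : Nat.card hA.V ≤ 4) {v₁ v₂ : P} (hv : hA.VD v₁ v₂) {a₀ : P} (ha₀ : a₀ ∈ A)
    (hsqA : ∀ a ∈ A, a ^ 2 = 1 ∨ a ^ 2 = a₀ ^ 2) {H N : Subgroup P} (hNH : N ≤ H)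
    (hcomm : ∀ x ∈ H, ∀ y ∈ H, x * y * x⁻¹ * y⁻¹ ∈ N) (hsq : ∀ x ∈ H, x ^ 2 ∈ N) :
    N.relIndex H ≤ 16 := by
  obtain ⟨hd4, -⟩ := hA.dich hP hV hNH hsq
  set φ := hA.brHom a₀ ha₀ with hφ
  have hC : ∀ k : hA.KK, φ k = 1 ↔ (k : P) ∈ centralizer (A : Set P) := by
    intro k
    constructor
    · intro h
      have h0 : (k : P) * a₀ * (k : P)⁻¹ * a₀⁻¹ = 1 := congrArg Subtype.val h
      rw [hA.mem_C]
      intro a ha
      rcases hsqA a ha with h1 | h1
      · exact (hA.mem_K).1 k.2 a ⟨ha, h1⟩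
      · exact br_eq_one (by rw [hA.br_eq k.2 ha ha₀ h1, h0])
    · intro h
      apply Subtype.ext
      change (k : P) * a₀ * (k : P)⁻¹ * a₀⁻¹ = 1
      rw [(hA.mem_C).1 h a₀ ha₀]; group
  by_cases hHK : H ≤ hA.KK
  · have h1 := bound φ hC hA.C_le_K hNH (l := 1) (κ := 4) (a := 4)
      (by rw [one_mul, inf_eq_left.2 hHK]) (by
        have e1 : Nat.card (im φ (H ⊓ hA.KK)) ≤ 4 := by
          refine le_trans ?_ hV
          exact Nat.card_le_card_of_injective _ Subtype.val_injective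
        have e2 : 0 < Nat.card (im φ (N ⊓ hA.KK)) := Nat.card_pos
        calc Nat.card (im φ (H ⊓ hA.KK)) ≤ 4 := e1
          _ = 4 * 1 := by norm_num
          _ ≤ _ := by gcongr; exact e2) hd4
    simpa using h1
  · obtain ⟨g, hgH, hgK⟩ := SetLike.not_le_iff_exists.1 hHK
    have hVV : ∀ x ∈ hA.V, ∀ y ∈ hA.V, x * y = y * x := fun x hx y hy => hA.comm x hx.1 y hy.1
    let θ : hA.V →* hA.V :=
      { toFun := fun x => ⟨g * x * g⁻¹ * x, mul_mem (hA.V_norm g x.2) x.2⟩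
        map_one' := by ext; simp
        map_mul' := by
          rintro ⟨x, hx⟩ ⟨y, hy⟩
          apply Subtype.ext
          change g * (x * y) * g⁻¹ * (x * y) = g * x * g⁻¹ * x * (g * y * g⁻¹ * y)
          calc g * (x * y) * g⁻¹ * (x * y) = (g * x * g⁻¹) * ((g * y * g⁻¹) * x) * y := by group
            _ = (g * x * g⁻¹) * (x * (g * y * g⁻¹)) * y := by rw [hVV _ (hA.V_norm g hy) x hx]
            _ = _ := by group }
    have h1 := bound φ hC hA.C_le_K hNH (l := 2) (κ := 2) (a := 4) (hv.card_H hA)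
      (card_le_of_theta θ _ _ (by
        intro s hs
        obtain ⟨x, hx, rfl⟩ := mem_im.1 hs
        have hxK := x.2
        have hgx := hA.K_norm g hxK
        have hgxx : g * x * g⁻¹ * (x : P)⁻¹ ∈ hA.KK := hA.KK.mul_mem hgx (hA.KK.inv_mem hxK)
        refine mem_im.2 ⟨⟨g * x * g⁻¹ * (x : P)⁻¹, hgxx⟩, ⟨hcomm g hgH x hx.1, hgxx⟩, ?_⟩
        have e1 : (⟨g * x * g⁻¹ * (x : P)⁻¹, hgxx⟩ : hA.KK)
          = ⟨g * x * g⁻¹, hgx⟩ * x⁻¹ := rfl
        rw [e1, map_mul, map_inv]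
        apply Subtype.ext
        change (g * x * g⁻¹) * a₀ * (g * x * g⁻¹)⁻¹ * a₀⁻¹ * ((x : P) * a₀ * (x : P)⁻¹ * a₀⁻¹)⁻¹
          = g * ((x : P) * a₀ * (x : P)⁻¹ * a₀⁻¹) * g⁻¹ * ((x : P) * a₀ * (x : P)⁻¹ * a₀⁻¹)
        have hga : g⁻¹ * a₀ * g ∈ A := by simpa using hA.norm g⁻¹ a₀ ha₀
        have e2 : (g⁻¹ * a₀ * g) ^ 2 = a₀ ^ 2 := by
          have e3 : ∀ b : P, b ^ 2 = 1 → (g⁻¹ * b * g) ^ 2 = 1 := by
            intro b hb
            have : (g⁻¹ * b * g) ^ 2 = g⁻¹ * b ^ 2 * g := by rw [pow_two, pow_two]; group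
            rw [this, hb]; group
          rcases hsqA _ hga with h | h
          · have h' : a₀ ^ 2 = 1 := by
              have : a₀ ^ 2 = g * (g⁻¹ * a₀ * g) ^ 2 * g⁻¹ := by rw [pow_two, pow_two]; group
              rw [this, h]; group
            rw [h, h']
          · exact h
        rw [br_conj, hA.br_eq hxK hga ha₀ e2, hA.V_inv (hA.br_mem hxK ha₀)])
        (κ := 2) (by
        classical
        refine card_le_two 1 (if h : (⟨v₁, hv.m1⟩ : hA.V) ∈ (im φ (H ⊓ hA.KK) ⊓ θ.ker : Subgroup hA.V)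
          then ⟨_, h⟩ else 1) ?_
        rintro ⟨⟨x, hx⟩, hxS, hxθ⟩
        have h2 : g * x * g⁻¹ * x = 1 := congrArg Subtype.val hxθ
        have h3 : g * x * g⁻¹ = x := by
          rw [mul_eq_one_iff_eq_inv.1 h2, hA.V_inv hx]
        rcases hv.fix_of hA hgK hx h3 with h4 | h4
        · left; exact Subtype.ext (Subtype.ext h4)
        · right
          subst h4
          rw [dif_pos ⟨hxS, hxθ⟩])) hd4
    simpa using h1

end AD

end H25.MacW
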