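import Cfsg.Agent.Lib.H25.RealCls

set_option autoImplicit false

open Subgroup

namespace H25.RealCls

variable {G : Type*} [Group G]

/-- the dichotomy: every real class size is a `π`-number or a `π'`-number -/
def Dich (G : Type*) [Group G] (π : Set ℕ) : Prop :=
  ∀ x : G, IsConj x x⁻¹ → (∀ q : ℕ, q.Prime → q ∣ cl x → q ∈ π) ∨
      (∀ q : ℕ, q.Prime → q ∣ cl x → q ∉ π)

theorem Dich.compl {π : Set ℕ} (h : Dich G π) : Dich G πᶜ := by
  intro x hx
  rcases h x hx with h1 | h1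
  · right; intro q hq hd hn; exact hn (h1 q hq hd)
  · left; exact h1

theorem conj_of_inv {t x : G} (h : t * x * t⁻¹ = x⁻¹) : IsConj x x⁻¹ := isConj_iff.mpr ⟨t, h⟩

/-- lifting inverted elements modulo a normal subgroup of odd order -/
theorem lift_odd [Finite G] (A : Subgroup G) [A.Normal] (hA : Odd (Nat.card A)) (t y : G ⧸ A)
    (hy : Odd (orderOf y)) (h : t * y * t⁻¹ = y⁻¹) :
    ∃ s z : G, (z : G ⧸ A) = y ∧ Odd (orderOf z) ∧ s * z * s⁻¹ = z⁻¹ := by
  classical
  have hf2 : Fact (Nat.Prime 2) := ⟨Nat.prime_two⟩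
  obtain ⟨t', ht', ⟨k, hk⟩, -⟩ := H72.TwoClosed.exists_two_elt h
  obtain ⟨s, rfl⟩ := QuotientGroup.mk_surjective t'
  obtain ⟨y, rfl⟩ := QuotientGroup.mk_surjective y
  -- make `s` a 2-element
  obtain ⟨a, n, hn, hord⟩ := Nat.exists_eq_two_pow_mul_odd (orderOf_pos s).ne'
  have hs2 : (s ^ n) ^ (2 ^ a) = 1 := by rw [← pow_mul, mul_comm, ← hord, pow_orderOf_eq_one]
  have hsn : ((s ^ n : G) : G ⧸ A) * y * ((s ^ n : G) : G ⧸ A)⁻¹ = (y : G ⧸ A)⁻¹ := by
    rw [QuotientGroup.mk_pow]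
    exact H72.TwoClosed.inverts_pow_odd ht' hn
  set r := s ^ n with hr
  -- the coset and its self-map
  let X := {w : G // (w : G ⧸ A) = (y : G ⧸ A)}
  let f : Function.End X := fun w => ⟨r * (w : G)⁻¹ * r⁻¹, by
    rw [QuotientGroup.mk_mul, QuotientGroup.mk_mul, QuotientGroup.mk_inv, QuotientGroup.mk_inv, w.2]
    have h1 : (r : G ⧸ A) * (y : G ⧸ A)⁻¹ * (r : G ⧸ A)⁻¹ =
      ((r : G ⧸ A) * (y : G ⧸ A) * (r : G ⧸ A)⁻¹)⁻¹ := by group
    rw [h1, hsn, inv_inv]⟩
  have hf2k : ∀ (k : ℕ) (w : X), ((f ^ (2 * k)) w : G) = r ^ (2 * k) * w * (r ^ (2 * k))⁻¹ := by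
    intro k
    induction k with
    | zero => intro w; rw [mul_zero, pow_zero, pow_zero, one_mul, inv_one, mul_one]; rfl
    | succ k ih =>
      intro w
      have e1 : f ^ (2 * (k + 1)) = f ^ (2 * k) * (f * f) := by
        rw [mul_add, pow_add, mul_one, pow_two]
      rw [e1]
      show ((f ^ (2 * k)) (f (f w)) : G) = _
      rw [ih]
      show r ^ (2 * k) * (r * (r * (w : G)⁻¹ * r⁻¹)⁻¹ * r⁻¹) * (r ^ (2 * k))⁻¹ = _
      have e2 : r ^ (2 * (k + 1)) = r ^ (2 * k) * (r * r) := by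
        rw [mul_add, pow_add, mul_one, pow_two]
      rw [e2]
      group
  have hf : f ^ 2 ^ (a + 1) = 1 := by
    funext w
    apply Subtype.ext
    have e1 : 2 ^ (a + 1) = 2 * 2 ^ a := by ring
    rw [e1, hf2k, mul_comm 2, pow_mul, hs2, one_pow, one_mul, inv_one, mul_one]
    rfl
  have : Fintype X := Fintype.ofFinite _
  have h4 := Equiv.Perm.card_fixedPoints_modEq hf
  have hcard : Fintype.card X = Nat.card A := by
    rw [← Nat.card_eq_fintype_card]
    refine Nat.card_congr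
      { toFun := fun w => ⟨y⁻¹ * w, QuotientGroup.eq.mp w.2.symm⟩
        invFun := fun b => ⟨y * b, by
          rw [QuotientGroup.mk_mul, (QuotientGroup.eq_one_iff (b : G)).mpr b.2, mul_one]⟩
        left_inv := fun w => Subtype.ext (by simp)
        right_inv := fun b => Subtype.ext (by simp) }
  have hne : Fintype.card f.fixedPoints ≠ 0 := by
    intro h0
    rw [h0, hcard] at h4
    have h5 : 2 ∣ Nat.card A := Nat.modEq_zero_iff_dvd.mp h4
    exact (Nat.not_even_iff_odd.mpr hA) (even_iff_two_dvd.mpr h5)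
  obtain ⟨⟨w, hw⟩⟩ := Fintype.card_pos_iff.mp (Nat.pos_of_ne_zero hne)
  have hw1 : r * (w : G)⁻¹ * r⁻¹ = w := congrArg Subtype.val hw
  refine ⟨r, w, w.2, ?_, ?_⟩
  · refine Odd.of_dvd_nat (hy.mul hA) (orderOf_dvd_of_pow_eq_one ?_)
    have h1 : ((w : G) : G ⧸ A) ^ orderOf (y : G ⧸ A) = 1 := by
      rw [w.2, pow_orderOf_eq_one]
    rw [← QuotientGroup.mk_pow, QuotientGroup.eq_one_iff] at h1
    rw [pow_mul]
    have h2 : (⟨(w : G) ^ orderOf (y : G ⧸ A), h1⟩ : A) ^ Nat.card A = 1 := pow_card_eq_one'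
    exact congrArg Subtype.val h2
  · have : r * (w : G) * r⁻¹ = (r * (w : G)⁻¹ * r⁻¹)⁻¹ := by group
    rw [this, hw1]

/-- the standing situation -/
structure Sit (G : Type*) [Group G] (π : Set ℕ) (z : G) : Prop where
  dich : Dich G π
  two : 2 ∉ π
  sq : z * z = 1
  pi : ∀ q : ℕ, q.Prime → q ∣ cl z → q ∈ π
  gt : 1 < cl z

theorem exists_sit [Finite G] {π : Set ℕ} (hd : Dich G π) (h2 : 2 ∉ π) {z : G} (hz : IsConj z z⁻¹)
    {q : ℕ} (hq : q.Prime) (hqπ : q ∈ π) (hqz : q ∣ cl z) : Sit G π z := by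
  have hpi : ∀ q : ℕ, q.Prime → q ∣ cl z → q ∈ π := by
    rcases hd z hz with h1 | h1
    · exact h1
    · exact absurd hqπ (h1 q hq hqz)
  have hsq : z * z = 1 := by
    by_contra hne
    obtain ⟨t, ht⟩ := isConj_iff.mp hz
    have h3 := H72.FT4193.even_index_of_real ht (fun h => hne (by nth_rewrite 1 [h]; group))
    exact h2 (hpi 2 Nat.prime_two h3)
  refine ⟨hd, h2, hsq, hpi, ?_⟩
  have h3 := Nat.le_of_dvd (cl_pos z) hqz
  exact lt_of_lt_of_le hq.one_lt h3

variable {π : Set ℕ} {z : G}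

theorem Sit.real (h : Sit G π z) : IsConj z z⁻¹ := by
  rw [H25.RealAct.inv_of_sq h.sq]

theorem Sit.ne_one [Finite G] (h : Sit G π z) : z ≠ 1 := by
  rintro rfl
  have h1 := h.gt
  unfold cl at h1
  rw [(H72.ClassSize.index_eq_one_iff (1 : G)).mpr (one_mem _)] at h1
  omega

theorem Sit.odd [Finite G] (h : Sit G π z) : Odd (cl z) := by
  rw [← Nat.not_even_iff_odd, even_iff_two_dvd]
  intro h2
  exact h.two (h.pi 2 Nat.prime_two h2)

theorem ne_inv_of_odd {x : G} (hx : x ≠ 1) (hxo : Odd (orderOf x)) : x ≠ x⁻¹ := by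
  intro h
  exact hx (H25.RealAct.eq_one_of_sq hxo (by nth_rewrite 1 [h]; group))

theorem Sit.even_odd [Finite G] (h : Sit G π z) {t x : G} (hx : x ≠ 1) (hxo : Odd (orderOf x))
    (htx : t * x * t⁻¹ = x⁻¹) : 2 ∣ cl x ∧ ∀ q : ℕ, q.Prime → q ∣ cl x → q ∉ π := by
  have h1 : 2 ∣ cl x := H72.FT4193.even_index_of_real htx (ne_inv_of_odd hx hxo)
  refine ⟨h1, ?_⟩
  rcases h.dich x (conj_of_inv htx) with h2 | h2
  · exact absurd (h2 2 Nat.prime_two h1) h.two
  · exact h2

theorem coprime_cl {u v : G} (hu : ∀ q : ℕ, q.Prime → q ∣ cl u → q ∈ π)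
    (hv : ∀ q : ℕ, q.Prime → q ∣ cl v → q ∉ π) : (cl u).Coprime (cl v) :=
  Nat.coprime_of_dvd fun q hq h1 h2 => hv q hq h2 (hu q hq h1)

/-- no real element of odd order commutes with `z` -/
theorem Sit.no_comm [Finite G] (h : Sit G π z) {t x : G} (hx : x ≠ 1) (hxo : Odd (orderOf x))
    (htx : t * x * t⁻¹ = x⁻¹) : z * x ≠ x * z := by
  intro hc
  obtain ⟨h1, h2⟩ := h.even_odd hx hxo htx
  have hco := coprime_cl h.pi h2
  have hreal := real_mul hco h.real (conj_of_inv htx)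
  have hcop : (orderOf z).Coprime (orderOf x) := by
    have : orderOf z ∣ 2 := orderOf_dvd_of_pow_eq_one (by rw [pow_two]; exact h.sq)
    exact Nat.Coprime.coprime_dvd_left this (Nat.coprime_two_left.mpr hxo)
  have hcent := H72.ClassSize.cent_mul_of_coprime hc hcop
  have hz : cl z ∣ cl (z * x) := by
    unfold cl; rw [hcent]; exact Subgroup.index_dvd_of_le inf_le_left
  have hx' : cl x ∣ cl (z * x) := by
    unfold cl; rw [hcent]; exact Subgroup.index_dvd_of_le inf_le_right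
  rcases h.dich _ hreal with h3 | h3
  · exact h.two (h3 2 Nat.prime_two (h1.trans hx'))
  · have hne : cl z ≠ 1 := h.gt.ne'
    have hp := Nat.minFac_prime hne
    exact h3 _ hp ((Nat.minFac_dvd _).trans hz) (h.pi _ hp (Nat.minFac_dvd _))

/-- a normal subgroup of order prime to `cl z` centralizes `z` -/
theorem le_cent_of_coprime [Finite G] (N : Subgroup G) [N.Normal] {z : G}
    (hco : (cl z).Coprime (Nat.card N)) : ∀ n ∈ N, n * z = z * n := by
  have h1 : (centralizer ({z} : Set G)).relIndex N = 1 := by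
    apply Nat.eq_one_of_dvd_coprimes hco
    · exact H72.ClassSize.relIndex_normal_dvd_index N _
    · exact Subgroup.relIndex_dvd_card _ _
  rw [Subgroup.relIndex_eq_one] at h1
  intro n hn
  exact mem_centralizer_singleton_iff.mp (h1 hn)

/-- the normal subgroup generated by the `z⁻¹ z^g` -/
def Com (z : G) : Subgroup G := closure {m | ∃ g : G, m = z⁻¹ * (g * z * g⁻¹)}

instance Com_normal (z : G) : (Com z).Normal := by
  constructor
  intro n hn g
  induction hn using Subgroup.closure_induction with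
  | mem m hm =>
    obtain ⟨k, rfl⟩ := hm
    have h1 : z⁻¹ * (g * z * g⁻¹) ∈ Com z := subset_closure ⟨g, rfl⟩
    have h2 : z⁻¹ * ((g * k) * z * (g * k)⁻¹) ∈ Com z := subset_closure ⟨g * k, rfl⟩
    have h3 : g * (z⁻¹ * (k * z * k⁻¹)) * g⁻¹ =
        (z⁻¹ * (g * z * g⁻¹))⁻¹ * (z⁻¹ * ((g * k) * z * (g * k)⁻¹)) := by group
    rw [h3]
    exact mul_mem (inv_mem h1) h2
  | one => rw [mul_one, mul_inv_cancel]; exact one_mem _
  | mul a b _ _ ha hb =>
    have : g * (a * b) * g⁻¹ = (g * a * g⁻¹) * (g * b * g⁻¹) := by group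
    rw [this]; exact mul_mem ha hb
  | inv a _ ha =>
    have : g * a⁻¹ * g⁻¹ = (g * a * g⁻¹)⁻¹ := by group
    rw [this]; exact inv_mem ha

/-- if `cl z < cl x` for a real `x` of odd order then `Com z` lies in `LStab x` and centralizes
`z` -/
theorem Sit.com_le [Finite G] (h : Sit G π z) {t x : G} (hx : x ≠ 1) (hxo : Odd (orderOf x))
    (htx : t * x * t⁻¹ = x⁻¹) (hlt : cl z < cl x) :
    Com z ≤ LStab x ∧ ∀ n ∈ Com z, n * z = z * n := by
  obtain ⟨h1, h2⟩ := h.even_odd hx hxo htx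
  have h3 : Com z ≤ LStab x := by
    unfold Com
    rw [closure_le]
    rintro m ⟨g, rfl⟩
    exact mem_LStab_of_lt h.dich h.real (conj_of_inv htx) h.pi h2 hlt (isConj_iff.mpr ⟨g, rfl⟩)
  refine ⟨h3, le_cent_of_coprime (Com z) ?_⟩
  exact (coprime_cl h.pi h2).coprime_dvd_right ((Subgroup.card_dvd_of_le h3).trans (card_LStab_dvd x))

theorem mem_of_sq_mem {H : Subgroup G} {x : G} (hxo : Odd (orderOf x)) (h : x⁻¹ * x⁻¹ ∈ H) :
    x ∈ H := by
  obtain ⟨m, hm⟩ := hxo
  have h1 : x = ((x⁻¹ * x⁻¹) ^ (m + 1))⁻¹ := by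
    have h2 : x⁻¹ * x⁻¹ = (x ^ 2)⁻¹ := by group
    rw [h2, inv_pow, inv_inv, ← pow_mul]
    have : 2 * (m + 1) = orderOf x + 1 := by omega
    rw [this, pow_succ, pow_orderOf_eq_one, one_mul]
  rw [h1]
  exact inv_mem (pow_mem h _)

theorem Sit.mem_of_lt [Finite G] (h : Sit G π z) {t x : G} (hx : x ≠ 1) (hxo : Odd (orderOf x))
    (htx : t * x * t⁻¹ = x⁻¹) (hlt : cl x < cl z) : x ∈ LStab z := by
  obtain ⟨h1, h2⟩ := h.even_odd hx hxo htx
  have h3 := mem_LStab_of_lt (π := πᶜ) h.dich.compl (conj_of_inv htx) h.real h2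
    (fun q hq hd hn => hn (h.pi q hq hd)) hlt (conj_of_inv htx)
  exact mem_of_sq_mem hxo h3

theorem Sit.card_LStab_odd [Finite G] (h : Sit G π z) : Odd (Nat.card (LStab z)) :=
  Odd.of_dvd_nat h.odd (card_LStab_dvd z)

/-- `z` inverts `LStab z` -/
theorem Sit.inverts [Finite G] (h : Sit G π z) {a : G} (ha : a ∈ LStab z) :
    z * a * z⁻¹ = a⁻¹ := by
  have h1 : IsConj z (a * z) := (ha z).mp (IsConj.refl z)
  obtain ⟨g, hg⟩ := isConj_iff.mp h1
  have h2 : a * z * (a * z) = 1 := by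
    rw [← hg]
    calc g * z * g⁻¹ * (g * z * g⁻¹) = g * (z * z) * g⁻¹ := by group
      _ = 1 := by rw [h.sq]; group
  rw [H25.RealAct.inv_of_sq h.sq]
  apply eq_inv_of_mul_eq_one_right
  rw [← h2]; group

theorem Sit.comm_LStab [Finite G] (h : Sit G π z) {a b : G} (ha : a ∈ LStab z)
    (hb : b ∈ LStab z) : a * b = b * a := by
  have h1 := h.inverts ha
  have h2 := h.inverts hb
  have h3 := h.inverts (mul_mem ha hb)
  have h4 : z * (a * b) * z⁻¹ = (z * a * z⁻¹) * (z * b * z⁻¹) := by group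
  rw [h1, h2, h3, mul_inv_rev] at h4
  have h5 := congrArg (·⁻¹) h4
  simpa using h5

/-- Case I -/
theorem Sit.case_one [Finite G] (h : Sit G π z) {t x : G} (hx : x ≠ 1) (hxo : Odd (orderOf x))
    (htx : t * x * t⁻¹ = x⁻¹) (hlt : cl x < cl z) :
    H72.TwoClosed.NoRealOdd (G ⧸ LStab z) := by
  have hxA := h.mem_of_lt hx hxo htx hlt
  have hall : ∀ t' x' : G, Odd (orderOf x') → t' * x' * t'⁻¹ = x'⁻¹ → x' ∈ LStab z := by
    intro t' x' hxo' htx'
    by_cases hx' : x' = 1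
    · rw [hx']; exact one_mem _
    rcases lt_trichotomy (cl x') (cl z) with h1 | h1 | h1
    · exact h.mem_of_lt hx' hxo' htx' h1
    · exfalso
      have h2 := (h.even_odd hx' hxo' htx').1
      rw [h1] at h2
      exact (Nat.not_even_iff_odd.mpr h.odd) (even_iff_two_dvd.mpr h2)
    · exfalso
      obtain ⟨-, h3⟩ := h.com_le hx' hxo' htx' h1
      have h4 : z⁻¹ * (x * z * x⁻¹) ∈ Com z := subset_closure ⟨x, rfl⟩
      have h5 := h.inverts hxA
      have h8 : z⁻¹ * x * z = x⁻¹ := by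
        rw [← h5, H25.RealAct.inv_of_sq h.sq]
      have h6 : z⁻¹ * (x * z * x⁻¹) = x⁻¹ * x⁻¹ := by
        calc z⁻¹ * (x * z * x⁻¹) = (z⁻¹ * x * z) * x⁻¹ := by group
          _ = _ := by rw [h8]
      rw [h6] at h4
      have h7 := h3 _ (mem_of_sq_mem hxo h4)
      have h8 : z * x * z⁻¹ = x := by rw [← h7]; group
      rw [h5] at h8
      exact ne_inv_of_odd hx hxo h8.symm
  intro t' y' hyo hty
  obtain ⟨s, w, hw, hwo, hsw⟩ := lift_odd (LStab z) h.card_LStab_odd t' y' hyo hty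
  rw [← hw, QuotientGroup.eq_one_iff]
  exact hall s w hwo hsw

/-- Case II -/
theorem Sit.case_two [Finite G] (h : Sit G π z)
    (hall : ∀ t x : G, x ≠ 1 → Odd (orderOf x) → t * x * t⁻¹ = x⁻¹ → cl z < cl x)
    (hex : ∃ t x : G, x ≠ 1 ∧ Odd (orderOf x) ∧ t * x * t⁻¹ = x⁻¹) :
    H25.RealAct.Hyp (MulAut.conjNormal : G →* MulAut (Com z)) ∧
      ∀ t x : G, Odd (orderOf x) → t * x * t⁻¹ = x⁻¹ → ∀ r : ℕ, r.Prime → r ∣ orderOf x → r ∈ π := by
  have hf2 : Fact (Nat.Prime 2) := ⟨Nat.prime_two⟩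
  obtain ⟨t₀, x₀, hx₀, hxo₀, htx₀⟩ := hex
  have hle : ∀ t x : G, x ≠ 1 → Odd (orderOf x) → t * x * t⁻¹ = x⁻¹ → Com z ≤ LStab x :=
    fun t x hx hxo htx => (h.com_le hx hxo htx (hall t x hx hxo htx)).1
  have hcz : ∀ n ∈ Com z, n * z = z * n := (h.com_le hx₀ hxo₀ htx₀ (hall t₀ x₀ hx₀ hxo₀ htx₀)).2
  have hczg : ∀ n ∈ Com z, ∀ g : G, n * (g * z * g⁻¹) = (g * z * g⁻¹) * n := by
    intro n hn g
    have h1 := hcz (g⁻¹ * n * g) (by
      have := (Com_normal z).conj_mem n hn g⁻¹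
      rwa [inv_inv] at this)
    calc n * (g * z * g⁻¹) = g * ((g⁻¹ * n * g) * z) * g⁻¹ := by group
      _ = _ := by rw [h1]; group
  have hgen : ∀ g : G, ∀ n ∈ Com z, n * (z⁻¹ * (g * z * g⁻¹)) = (z⁻¹ * (g * z * g⁻¹)) * n := by
    intro g n hn
    have h1 := hcz n hn
    have h2 := hczg n hn g
    have h3 : n * z⁻¹ = z⁻¹ * n := by
      rw [H25.RealAct.inv_of_sq h.sq]; exact h1
    calc n * (z⁻¹ * (g * z * g⁻¹)) = (n * z⁻¹) * (g * z * g⁻¹) := by group
      _ = z⁻¹ * (n * (g * z * g⁻¹)) := by rw [h3]; group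
      _ = _ := by rw [h2]; group
  have hcomm : ∀ m ∈ Com z, ∀ n ∈ Com z, n * m = m * n := by
    intro m hm n hn
    unfold Com at hm
    induction hm using Subgroup.closure_induction with
    | mem m hm => obtain ⟨g, rfl⟩ := hm; exact hgen g n hn
    | one => simp
    | mul a b _ _ ha hb => rw [← mul_assoc, ha, mul_assoc, hb, mul_assoc]
    | inv a _ ha =>
      have : Commute n a := ha
      exact this.inv_right.eq
  have hsq : ∀ m ∈ Com z, m * m = 1 := by
    intro m hm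
    have hm' := hm
    unfold Com at hm
    induction hm using Subgroup.closure_induction with
    | mem m hm =>
      obtain ⟨g, rfl⟩ := hm
      have h2 : z⁻¹ * (g * z * g⁻¹) * (z⁻¹ * (g * z * g⁻¹)) =
          (z⁻¹ * (g * z * g⁻¹) * z⁻¹) * (g * z * g⁻¹) := by group
      have h3 : z⁻¹ * (g * z * g⁻¹) * z⁻¹ = z⁻¹ * z⁻¹ * (g * z * g⁻¹) := by
        have h4 := hcz _ hm'
        have h5 : Commute (z⁻¹ * (g * z * g⁻¹)) z := h4
        have h6 := h5.inv_right.eq
        rw [h6]; group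
      rw [h2, h3]
      calc z⁻¹ * z⁻¹ * (g * z * g⁻¹) * (g * z * g⁻¹) = (z * z)⁻¹ * g * (z * z) * g⁻¹ := by group
        _ = 1 := by rw [h.sq]; group
    | one => simp
    | mul a b ha' hb' ha hb =>
      have h1 := hcomm b hb' a ha'
      calc a * b * (a * b) = a * (b * a) * b := by group
        _ = (a * a) * (b * b) := by rw [← h1]; group
        _ = 1 := by rw [ha ha', hb hb', one_mul]
    | inv a ha' ha =>
      rw [← mul_inv_rev, ha ha', inv_one]
  -- real elements of odd order act fixed point freely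
  have hfpf : ∀ t x : G, x ≠ 1 → Odd (orderOf x) → t * x * t⁻¹ = x⁻¹ → ∀ n ∈ Com z,
      n * x = x * n → n = 1 := by
    intro t x hx hxo htx n hn hc
    have h1 := (hle t x hx hxo htx hn x).mp (IsConj.refl x)
    obtain ⟨g, hg⟩ := isConj_iff.mp h1
    have h2 : (n * x) ^ orderOf x = 1 := by
      rw [← hg, conj_pow, pow_orderOf_eq_one]; group
    have hC : Commute n x := hc
    rw [hC.mul_pow, pow_orderOf_eq_one, mul_one] at h2
    obtain ⟨m, hm⟩ := hxo
    rwa [hm, pow_succ, pow_mul, pow_two, hsq n hn, one_pow, one_mul] at h2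
  -- class sizes of elements of `Com z`
  have hcl : ∀ n ∈ Com z, n ≠ 1 → ∀ q : ℕ, q.Prime → q ∣ cl n → q ∈ π := by
    intro n hn hn1
    have hnr : IsConj n n⁻¹ := by rw [H25.RealAct.inv_of_sq (hsq n hn)]
    rcases h.dich n hnr with h1 | h1
    · exact h1
    · exfalso
      rcases lt_trichotomy (cl n) (cl z) with h2 | h2 | h2
      · -- n central
        have h3 : ∀ g : G, n⁻¹ * (g * n * g⁻¹) ∈ LStab z := fun g =>
          mem_LStab_of_lt (π := πᶜ) h.dich.compl hnr h.real h1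
            (fun q hq hd hne => hne (h.pi q hq hd)) h2 (isConj_iff.mpr ⟨g, rfl⟩)
        have h4 : ∀ g : G, n⁻¹ * (g * n * g⁻¹) = 1 := by
          intro g
          have h5 : n⁻¹ * (g * n * g⁻¹) ∈ Com z :=
            mul_mem (inv_mem hn) ((Com_normal z).conj_mem n hn g)
          refine H25.RealAct.eq_one_of_sq ?_ (hsq _ h5)
          exact Odd.of_dvd_nat h.card_LStab_odd (Subgroup.orderOf_dvd_natCard _ (h3 g))
        apply hn1
        apply hfpf t₀ x₀ hx₀ hxo₀ htx₀ n hn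
        have h5 := h4 x₀
        rw [inv_mul_eq_one] at h5
        nth_rewrite 1 [h5]; group
      · have h3 := h.gt.ne'
        rw [← h2] at h3
        have hp := Nat.minFac_prime h3
        exact h1 _ hp (Nat.minFac_dvd _) (h.pi _ hp (by rw [← h2]; exact Nat.minFac_dvd _))
      · have h3 : Com z ≤ LStab n := by
          unfold Com
          rw [closure_le]
          rintro m ⟨g, rfl⟩
          exact mem_LStab_of_lt h.dich h.real hnr h.pi h1 h2 (isConj_iff.mpr ⟨g, rfl⟩)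
        have h4 := (h3 (inv_mem hn) n).mp (IsConj.refl n)
        rw [inv_mul_cancel] at h4
        obtain ⟨g, hg⟩ := isConj_iff.mp h4
        apply hn1
        have : n = g⁻¹ * (g * n * g⁻¹) * g := by group
        rw [this, hg]; group
  have hcop : ∀ t x : G, x ≠ 1 → Odd (orderOf x) → t * x * t⁻¹ = x⁻¹ → ∀ n ∈ Com z, n ≠ 1 →
      (cl x).Coprime (cl n) := by
    intro t x hx hxo htx n hn hn1
    exact (coprime_cl (hcl n hn hn1) (h.even_odd hx hxo htx).2).symm
  have hnt : ∃ n ∈ Com z, n ≠ 1 := by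
    by_contra hcon
    push Not at hcon
    have h1 : ∀ g : G, g * z = z * g := by
      intro g
      have h2 := hcon _ (subset_closure ⟨g, rfl⟩ : z⁻¹ * (g * z * g⁻¹) ∈ Com z)
      rw [inv_mul_eq_one] at h2
      nth_rewrite 2 [h2]; group
    have h2 := h.gt
    unfold cl at h2
    rw [(H72.ClassSize.index_eq_one_iff z).mpr (mem_center_iff.mpr h1)] at h2
    omega
  refine ⟨⟨?_, ?_, ?_, ?_, ?_⟩, ?_⟩
  · intro v; exact Subtype.ext (hsq v v.2)
  · obtain ⟨n, hn, hn1⟩ := hnt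
    exact ⟨⟨n, hn⟩, fun h1 => hn1 (congrArg Subtype.val h1)⟩
  · intro v hv
    have hv1 : (v : G) ≠ 1 := fun h1 => hv (Subtype.ext h1)
    have h1 : ¬ 2 ∣ (centralizer ({(v : G)} : Set G)).index := by
      intro h2
      exact h.two (hcl v v.2 hv1 2 Nat.prime_two h2)
    rw [H72.ClassSize.not_dvd_index_iff] at h1
    obtain ⟨P, hP⟩ := h1
    refine ⟨P, ?_⟩
    intro g hg
    apply Subtype.ext
    rw [MulAut.conjNormal_apply, mem_centralizer_singleton_iff.mp (hP hg)]; group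
  · intro t x hx hxo htx v hv
    have h1 := congrArg Subtype.val hv
    rw [MulAut.conjNormal_apply, mul_inv_eq_iff_eq_mul] at h1
    exact Subtype.ext (hfpf t x hx hxo htx v v.2 h1.symm)
  · intro t x hx hxo htx v hv g
    have hv1 : (v : G) ≠ 1 := fun h1 => hv (Subtype.ext h1)
    obtain ⟨c, d, hc, hd, rfl⟩ := exists_decomp (hcop t x hx hxo htx v v.2 hv1) g
    refine ⟨c, hc, ?_⟩
    apply Subtype.ext
    rw [MulAut.conjNormal_apply, MulAut.conjNormal_apply]
    calc c * (v : G) * c⁻¹ = c * ((v : G) * d) * d⁻¹ * c⁻¹ := by group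
      _ = _ := by rw [← hd]; group
  · intro t x hxo htx r hr hrx
    have hfr : Fact r.Prime := ⟨hr⟩
    by_contra hrπ
    -- an element of order `r`
    set y := x ^ (orderOf x / r) with hy
    have hyp : orderOf y = r := by
      rw [hy, orderOf_pow_of_dvd (by
        have := Nat.div_pos (Nat.le_of_dvd (orderOf_pos x) hrx) hr.pos
        omega) (Nat.div_dvd_of_dvd hrx), Nat.div_div_self hrx (orderOf_pos x).ne']
    have hy1 : y ≠ 1 := by
      intro h3
      rw [h3, orderOf_one] at hyp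
      exact hr.one_lt.ne hyp
    have hyo : Odd (orderOf y) := by rw [hyp]; exact Odd.of_dvd_nat hxo hrx
    have hty : t * y * t⁻¹ = y⁻¹ := by rw [hy, ← conj_pow, htx, inv_pow]
    obtain ⟨n, hn, hn1⟩ := hnt
    have h1 : ¬ r ∣ (centralizer ({n} : Set G)).index := fun h2 => hrπ (hcl n hn hn1 r hr h2)
    rw [H72.ClassSize.not_dvd_index_iff] at h1
    obtain ⟨P, hP⟩ := h1
    have hyg : IsPGroup r (zpowers y) := IsPGroup.of_card (n := 1) (by
      rw [Nat.card_zpowers, hyp, pow_one])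
    obtain ⟨Q, hQ⟩ := hyg.exists_le_sylow
    obtain ⟨g, rfl⟩ := MulAction.exists_smul_eq G P Q
    have h2 : g⁻¹ * y * g ∈ (P : Subgroup G) := by
      have h3 := hQ (mem_zpowers y)
      rwa [Sylow.coe_subgroup_smul, H1.SZ.mem_conj_smul] at h3
    have h3 := mem_centralizer_singleton_iff.mp (hP h2)
    have h4 : g * n * g⁻¹ = 1 := by
      apply hfpf t y hy1 hyo hty _ ((Com_normal z).conj_mem n hn g)
      calc g * n * g⁻¹ * y = g * (n * (g⁻¹ * y * g)) * g⁻¹ := by group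
        _ = _ := by rw [← h3]; group
    apply hn1
    have : n = g⁻¹ * (g * n * g⁻¹) * g := by group
    rw [this, h4]; group

end H25.RealCls
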