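import Cfsg.Agent.Lib.H25.RealCls2
import Cfsg.Agent.Lib.H1.Hall
import Cfsg.Agent.Lib.H1.Coprime2

set_option autoImplicit false

open Subgroup

universe u

namespace H25.RealCls

theorem solvable_of_quot {G : Type*} [Group G] (N : Subgroup G) [N.Normal]
    (h1 : Group.IsSolvable N) (h2 : Group.IsSolvable (G ⧸ N)) : Group.IsSolvable G :=
  Group.isSolvable_of_ker_le_range N.subtype (QuotientGroup.mk' N)
    (by rw [QuotientGroup.ker_mk', Subgroup.range_subtype])

theorem solvable_of_isPGroup {G : Type*} [Group G] [Finite G] (h : IsPGroup 2 G) :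
    Group.IsSolvable G := by
  have : Fact (Nat.Prime 2) := ⟨Nat.prime_two⟩
  have := h.isNilpotent
  infer_instance

theorem exists_compl {G : Type*} [Group G] [Finite G]
    (h : ∀ S : Sylow 2 G, IsCyclic (S : Subgroup G)) :
    ∃ J : Subgroup G, J.Normal ∧ Odd (Nat.card J) ∧ ∃ k, J.index = 2 ^ k := by
  have : Fact (Nat.Prime 2) := ⟨Nat.prime_two⟩
  by_cases h2 : 2 ∣ Nat.card G
  · obtain ⟨S⟩ : Nonempty (Sylow 2 G) := inferInstance
    have hmin : (Nat.card G).minFac = 2 := (Nat.minFac_eq_two_iff _).mpr h2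
    have hc := (h S).isComplement' hmin
    refine ⟨(MonoidHom.transferSylow S ((h S).normalizer_le_centralizer hmin)).ker,
      inferInstance, ?_, ?_⟩
    · have h3 := hc.index_eq_card
      have h4 : ¬ 2 ∣ (S : Subgroup G).index := S.not_dvd_index
      rw [h3] at h4
      exact Nat.not_even_iff_odd.mp (fun h5 => h4 (even_iff_two_dvd.mp h5))
    · rw [hc.symm.index_eq_card]
      exact S.2.exists_card_eq
  · refine ⟨⊤, inferInstance, ?_, 0, by simp⟩
    rw [Subgroup.card_top]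
    exact Nat.not_even_iff_odd.mp (fun h5 => h2 (even_iff_two_dvd.mp h5))

theorem comm_aux {G : Type*} [Group G] {a y : G} (h : a * y⁻¹ * a⁻¹ = y⁻¹) : y * a = a * y := by
  have h1 : (a * y * a⁻¹)⁻¹ = y⁻¹ := by rw [← h]; group
  have h2 := inv_injective h1
  rw [mul_inv_eq_iff_eq_mul] at h2
  exact h2.symm

/-- a `2`-group inverting nothing in an invariant subgroup centralizes it -/
theorem comm_of_no_real {G : Type*} [Group G] {T R : Subgroup G}
    (hTR : T ≤ normalizer (R : Set G)) (hno : ∀ t ∈ T, ∀ y ∈ R, t * y * t⁻¹ = y⁻¹ → y = 1) :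
    ∀ k : ℕ, ∀ t ∈ T, t ^ 2 ^ k = 1 → ∀ y ∈ R, t * y * t⁻¹ = y := by
  intro k
  induction k with
  | zero =>
    intro t _ ht1 y _
    rw [pow_zero, pow_one] at ht1
    rw [ht1]; group
  | succ k ih =>
    intro t ht htk y hy
    have h1 := ih (t * t) (mul_mem ht ht) (by
      rw [← pow_two, ← pow_mul, ← htk, pow_succ, mul_comm])
    have hty : t * y * t⁻¹ ∈ R := (mem_normalizer_iff.mp (hTR ht) y).mp hy
    have h2 : y⁻¹ * (t * y * t⁻¹) = 1 := by
      refine hno t ht _ (mul_mem (inv_mem hy) hty) ?_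
      have e1 : t * (y⁻¹ * (t * y * t⁻¹)) * t⁻¹ = (t * y * t⁻¹)⁻¹ * (t * t * y * (t * t)⁻¹) := by
        group
      rw [e1, h1 y hy]; group
    rw [inv_mul_eq_one] at h2
    exact h2.symm

/-- the subgroup generated by the elements of `2`-power order -/
def K2 (G : Type*) [Group G] : Subgroup G := closure {g : G | ∃ k : ℕ, orderOf g = 2 ^ k}

theorem mem_K2 {G : Type*} [Group G] {g : G} {k : ℕ} (h : orderOf g = 2 ^ k) : g ∈ K2 G :=
  subset_closure ⟨k, h⟩

instance K2_normal (G : Type*) [Group G] : (K2 G).Normal := by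
  constructor
  intro n hn g
  unfold K2 at hn
  induction hn using Subgroup.closure_induction with
  | mem m hm =>
    obtain ⟨k, hk⟩ := hm
    apply mem_K2 (k := k)
    have h1 := MulEquiv.orderOf_eq (MulAut.conj g) m
    rw [MulAut.conj_apply] at h1
    rw [h1, hk]
  | one => rw [mul_one, mul_inv_cancel]; exact one_mem _
  | mul a b _ _ ha hb =>
    have : g * (a * b) * g⁻¹ = (g * a * g⁻¹) * (g * b * g⁻¹) := by group
    rw [this]; exact mul_mem ha hb
  | inv a _ ha =>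
    have : g * a⁻¹ * g⁻¹ = (g * a * g⁻¹)⁻¹ := by group
    rw [this]; exact inv_mem ha

theorem K2_le {G : Type*} [Group G] {H : Subgroup G}
    (h : ∀ g : G, ∀ k : ℕ, g ^ 2 ^ k = 1 → g ∈ H) : K2 G ≤ H := by
  unfold K2
  rw [closure_le]
  rintro g ⟨k, hk⟩
  exact h g k (by rw [← hk, pow_orderOf_eq_one])

/-- the final structure in the odd order case -/
theorem case_one_final (hFT : H72.FT4159.FT.{u}) {G : Type u} [Group G] [Finite G] {π : Set ℕ}
    {z : G} (h : Sit G π z) (hno : H72.TwoClosed.NoRealOdd (G ⧸ LStab z)) :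
    Group.IsSolvable G ∧ ∀ r : ℕ, r.Prime → r ∣ Nat.card (K2 G) → r = 2 ∨ r ∈ π := by
  have hf2 : Fact (Nat.Prime 2) := ⟨Nat.prime_two⟩
  constructor
  · refine solvable_of_quot (LStab z) ?_ (H72.FT4159.isSolvable_of_noRealOdd hFT hno)
    exact Group.isSolvable_of_comm (fun a b => Subtype.ext (h.comm_LStab a.2 b.2))
  · intro r hr hrK
    have hodd := hno.odd_quotient
    have hle : K2 G ≤ (Cfsg.pCore 2 (G ⧸ LStab z)).comap (QuotientGroup.mk' (LStab z)) := by
      apply K2_le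
      intro g k hk
      rw [mem_comap, QuotientGroup.mk'_apply, ← QuotientGroup.eq_one_iff]
      have h1 : (((g : G ⧸ LStab z) : (G ⧸ LStab z) ⧸ Cfsg.pCore 2 (G ⧸ LStab z))) ^ 2 ^ k = 1 := by
        rw [← QuotientGroup.mk_pow, ← QuotientGroup.mk_pow, hk]
        rfl
      have h2 := Nat.eq_one_of_dvd_coprimes
        (Nat.Coprime.pow_left k (Nat.coprime_two_left.mpr hodd)) (orderOf_dvd_of_pow_eq_one h1)
        (orderOf_dvd_natCard _)
      exact orderOf_eq_one_iff.mp h2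
    have h1 := hrK.trans (Subgroup.card_dvd_of_le hle)
    rw [H1.Cores.card_comap_mk'] at h1
    rcases (Nat.Prime.dvd_mul hr).mp h1 with h2 | h2
    · right
      exact h.pi r hr (h2.trans (card_LStab_dvd z))
    · left
      obtain ⟨m, hm⟩ := (H1.Cores.isPGroup_pCore (G := G ⧸ LStab z) 2).exists_card_eq
      rw [hm] at h2
      exact (Nat.prime_dvd_prime_iff_eq hr Nat.prime_two).mp (hr.dvd_of_dvd_pow h2)

theorem case_two_final (hFT : H72.FT4159.FT.{u}) {G : Type u} [Group G] [Finite G] {π : Set ℕ}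
    (hcyc : ∀ S : Sylow 2 (G ⧸ Cfsg.pCore 2 G), IsCyclic (S : Subgroup (G ⧸ Cfsg.pCore 2 G)))
    (hpi : ∀ t x : G, Odd (orderOf x) → t * x * t⁻¹ = x⁻¹ → ∀ r : ℕ, r.Prime →
      r ∣ orderOf x → r ∈ π) :
    Group.IsSolvable G ∧ ∀ r : ℕ, r.Prime → r ∣ Nat.card (K2 G) → r = 2 ∨ r ∈ π := by
  have hf2 : Fact (Nat.Prime 2) := ⟨Nat.prime_two⟩
  obtain ⟨J, hJ, hJo, k, hJk⟩ := exists_compl hcyc
  have hsol0 : Group.IsSolvable (G ⧸ Cfsg.pCore 2 G) := by
    refine solvable_of_quot J (hFT J hJo) (solvable_of_isPGroup ?_)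
    exact IsPGroup.of_card (n := k) (by rw [← Subgroup.index_eq_card, hJk])
  have hsol : Group.IsSolvable G :=
    solvable_of_quot (Cfsg.pCore 2 G) (solvable_of_isPGroup (H1.Cores.isPGroup_pCore 2)) hsol0
  refine ⟨hsol, ?_⟩
  intro r hr hrK
  by_contra hcon
  push Not at hcon
  obtain ⟨hr2, hrπ⟩ := hcon
  have hfr : Fact r.Prime := ⟨hr⟩
  have hro : Odd r := hr.odd_of_ne_two hr2
  -- no real elements in the quotient
  have hno : ∀ t y : G ⧸ Cfsg.pCore 2 G, (∃ m, orderOf y = r ^ m) → t * y * t⁻¹ = y⁻¹ → y = 1 := by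
    rintro t y ⟨m, hm⟩ hty
    by_contra hne
    obtain ⟨s, x, hx, hxo, -, hsx⟩ := H72.TwoClosed.lift_real (Cfsg.pCore 2 G)
      (H1.Cores.isPGroup_pCore 2) t y (by rw [hm]; exact hro.pow) hty
    have hm0 : m ≠ 0 := by
      rintro rfl
      rw [pow_zero, orderOf_eq_one_iff] at hm
      exact hne hm
    have h1 : r ∣ orderOf y := by rw [hm]; exact dvd_pow_self r hm0
    have h2 : orderOf y ∣ orderOf x := by
      rw [← hx]; exact orderOf_map_dvd (QuotientGroup.mk' (Cfsg.pCore 2 G)) x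
    exact hrπ (hpi s x hxo hsx r hr (h1.trans h2))
  obtain ⟨T⟩ : Nonempty (Sylow 2 (G ⧸ Cfsg.pCore 2 G)) := inferInstance
  obtain ⟨kT, hkT⟩ := T.2.exists_card_eq
  have hcopTJ : (Nat.card (T : Subgroup (G ⧸ Cfsg.pCore 2 G))).Coprime (Nat.card J) := by
    rw [hkT]; exact Nat.Coprime.pow_left _ (Nat.coprime_two_left.mpr hJo)
  obtain ⟨R, hR, hTR⟩ := H1.Coprime2.exists_invariant_sylow
    (T : Subgroup (G ⧸ Cfsg.pCore 2 G)) J (by rw [Subgroup.normalizer_eq_top]; exact le_top)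
    hcopTJ (Or.inl (solvable_of_isPGroup T.2)) r
  have hcomm : ∀ t ∈ (T : Subgroup (G ⧸ Cfsg.pCore 2 G)), ∀ y ∈ R, t * y * t⁻¹ = y := by
    intro t ht y hy
    obtain ⟨j, hj⟩ := H25.RealAct.exists_pow_of_mem T ht
    refine comm_of_no_real hTR ?_ j t ht hj y hy
    intro t' ht' y' hy' hty
    apply hno t' y' _ hty
    obtain ⟨m, hm⟩ := IsPGroup.iff_orderOf.mp hR.isPGroup ⟨y', hy'⟩
    exact ⟨m, by rw [← hm, Subgroup.orderOf_mk]⟩
  -- Hall subgroup
  have hcardG : Nat.card (G ⧸ Cfsg.pCore 2 G) = (J.index * (Nat.card J / Nat.card R)) * Nat.card R := by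
    have h1 := Subgroup.card_mul_index J
    have h2 : Nat.card J / Nat.card R * Nat.card R = Nat.card J :=
      Nat.div_mul_cancel (Subgroup.card_dvd_of_le hR.1)
    rw [mul_assoc, h2, mul_comm, h1]
  have hmn : (J.index * (Nat.card J / Nat.card R)).Coprime (Nat.card R) := by
    rw [hR.2]
    apply Nat.Coprime.pow_right
    apply Nat.Coprime.mul_left
    · rw [hJk]
      exact Nat.Coprime.pow_left _ (Nat.coprime_two_left.mpr hro)
    · exact (Nat.coprime_ordCompl hr (Nat.card_pos).ne').symm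
  obtain ⟨X, hX, hTX⟩ := H1.Hall.exists_card_eq_ge hsol0 _ _ hcardG hmn
    (T : Subgroup (G ⧸ Cfsg.pCore 2 G)) (by
      rw [hkT, hR.2]
      exact Nat.Coprime.pow_left _ (Nat.Coprime.pow_right _ (Nat.coprime_two_left.mpr hro)))
  have hcompl : X.IsComplement' R := Subgroup.isComplement'_of_coprime
    (by rw [hX, ← hcardG]) (by rw [hX]; exact hmn)
  have hmem : ∀ g : G ⧸ Cfsg.pCore 2 G, ∀ j : ℕ, g ^ 2 ^ j = 1 → g ∈ X := by
    intro g j hg
    have hgp : IsPGroup 2 (zpowers g) := by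
      exact IsPGroup.of_card_dvd_pow (n := j) (by
        rw [Nat.card_zpowers]; exact orderOf_dvd_of_pow_eq_one hg)
    obtain ⟨Q, hQ⟩ := hgp.exists_le_sylow
    obtain ⟨c, rfl⟩ := MulAction.exists_smul_eq (G ⧸ Cfsg.pCore 2 G) T Q
    have h1 := hQ (mem_zpowers g)
    rw [H25.RealAct.mem_smul] at h1
    obtain ⟨⟨⟨x, hx⟩, ⟨y, hy⟩⟩, hxy⟩ := hcompl.surjective c
    have hxy' : x * y = c := hxy
    have h2 := hcomm _ h1 _ (inv_mem hy)
    have h3 : g = x * (c⁻¹ * g * c) * x⁻¹ := by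
      have e1 : y * (c⁻¹ * g * c) = (c⁻¹ * g * c) * y := by
        exact comm_aux h2
      calc g = c * (c⁻¹ * g * c) * c⁻¹ := by group
        _ = x * (y * (c⁻¹ * g * c)) * y⁻¹ * x⁻¹ := by
            nth_rewrite 1 [← hxy']; nth_rewrite 5 [← hxy']; group
        _ = _ := by rw [e1]; group
    rw [h3]
    exact mul_mem (mul_mem hx (hTX h1)) (inv_mem hx)
  have hle : K2 G ≤ X.comap (QuotientGroup.mk' (Cfsg.pCore 2 G)) := by
    apply K2_le
    intro g j hg
    rw [mem_comap]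
    exact hmem _ j (by rw [← map_pow, hg, map_one])
  have h1 := hrK.trans (Subgroup.card_dvd_of_le hle)
  rw [H1.Cores.card_comap_mk', hX] at h1
  rcases (Nat.Prime.dvd_mul hr).mp h1 with h2 | h2
  · obtain ⟨m, hm⟩ := (H1.Cores.isPGroup_pCore (G := G) 2).exists_card_eq
    rw [hm] at h2
    exact hr2 ((Nat.prime_dvd_prime_iff_eq hr Nat.prime_two).mp (hr.dvd_of_dvd_pow h2))
  · -- `r` does not divide `|X|`
    by_cases hR1 : Nat.card R = 1
    · rw [hR.2] at hR1
      have h3 : ¬ r ∣ Nat.card J := by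
        intro h4
        have h5 := (hr.factorization_pos_of_dvd (Nat.card_pos).ne' h4)
        have h6 : 1 < r ^ (Nat.card J).factorization r := Nat.one_lt_pow h5.ne' hr.one_lt
        omega
      rcases (Nat.Prime.dvd_mul hr).mp h2 with h4 | h4
      · rw [hJk] at h4
        exact hr2 ((Nat.prime_dvd_prime_iff_eq hr Nat.prime_two).mp (hr.dvd_of_dvd_pow h4))
      · exact h3 (h4.trans (Nat.div_dvd_of_dvd (Subgroup.card_dvd_of_le hR.1)))
    · have h3 : r ∣ Nat.card R := by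
        rw [hR.2] at hR1 ⊢
        apply dvd_pow_self
        intro h4
        rw [h4, pow_zero] at hR1
        exact hR1 rfl
      have h4 := Nat.dvd_gcd h2 h3
      rw [hmn] at h4
      exact hr.one_lt.ne' (Nat.dvd_one.mp h4)

end H25.RealCls
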