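import Cfsg.Agent.Lib.H25.RealCls3

set_option autoImplicit false

open Subgroup

universe u

namespace H25.RealCls

/-- the real class size graph is disconnected -/
structure Disc (G : Type*) [Group G] (π₁ π₂ : Set ℕ) : Prop where
  ne₁ : π₁.Nonempty
  ne₂ : π₂.Nonempty
  disj : Disjoint π₁ π₂
  prime : ∀ q ∈ π₁ ∪ π₂, q.Prime ∧ ∃ x : G, IsConj x x⁻¹ ∧ q ∣ cl x
  cover : ∀ q : ℕ, q.Prime → ∀ x : G, IsConj x x⁻¹ → q ∣ cl x → q ∈ π₁ ∨ q ∈ π₂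
  noedge : ∀ a ∈ π₁, ∀ b ∈ π₂, ∀ x : G, IsConj x x⁻¹ → ¬ (a ∣ cl x ∧ b ∣ cl x)

variable {G : Type*} [Group G]

theorem Disc.symm {π₁ π₂ : Set ℕ} (h : Disc G π₁ π₂) : Disc G π₂ π₁ :=
  ⟨h.ne₂, h.ne₁, h.disj.symm, fun q hq => h.prime q (by rwa [Set.union_comm]),
    fun q hq x hx hd => (h.cover q hq x hx hd).symm,
    fun a ha b hb x hx hab => h.noedge b hb a ha x hx hab.symm⟩

theorem Disc.dich {π₁ π₂ : Set ℕ} (h : Disc G π₁ π₂) : Dich G π₂ := by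
  intro x hx
  by_cases hex : ∃ q : ℕ, q.Prime ∧ q ∣ cl x ∧ q ∈ π₂
  · left
    obtain ⟨q, hq, hqx, hqπ⟩ := hex
    intro r hr hrx
    rcases h.cover r hr x hx hrx with h1 | h1
    · exact absurd ⟨hrx, hqx⟩ (h.noedge r h1 q hqπ x hx)
    · exact h1
  · right
    push Not at hex
    exact hex

/-- some real class has even size -/
theorem Disc.exists_even [Finite G] {π₁ π₂ : Set ℕ} (h : Disc G π₁ π₂) :
    ∃ x : G, IsConj x x⁻¹ ∧ 2 ∣ cl x := by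
  by_contra hcon
  push Not at hcon
  have hsq : ∀ x : G, IsConj x x⁻¹ → x * x = 1 := by
    intro x hx
    by_contra hne
    obtain ⟨t, ht⟩ := isConj_iff.mp hx
    exact hcon x hx (H72.FT4193.even_index_of_real ht (fun h => hne (by nth_rewrite 1 [h]; group)))
  have hreal : ∀ x : G, x * x = 1 → IsConj x x⁻¹ := by
    intro x hx
    rw [H25.RealAct.inv_of_sq hx]
  have hcomm : ∀ u v : G, u * u = 1 → v * v = 1 → u * v = v * u := by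
    intro u v hu hv
    have h1 : (u * v) * (u * v) = 1 := by
      apply hsq
      refine isConj_iff.mpr ⟨u, ?_⟩
      rw [mul_inv_rev, H25.RealAct.inv_of_sq hu, H25.RealAct.inv_of_sq hv]
      calc u * (u * v) * u = (u * u) * v * u := by group
        _ = v * u := by rw [hu, one_mul]
    have h2 := H25.RealAct.inv_of_sq h1
    rw [mul_inv_rev, H25.RealAct.inv_of_sq hu, H25.RealAct.inv_of_sq hv] at h2
    exact h2.symm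
  obtain ⟨q₁, hq₁⟩ := h.ne₁
  obtain ⟨q₂, hq₂⟩ := h.ne₂
  obtain ⟨hp₁, z₁, hz₁, hd₁⟩ := h.prime q₁ (Or.inl hq₁)
  obtain ⟨hp₂, z₂, hz₂, hd₂⟩ := h.prime q₂ (Or.inr hq₂)
  -- symmetric auxiliary statement
  have aux : ∀ (π₁ π₂ : Set ℕ), Disc G π₁ π₂ → ∀ (q₁ q₂ : ℕ) (z₁ z₂ : G), q₁ ∈ π₁ → q₂ ∈ π₂ →
      q₁.Prime → q₂.Prime → IsConj z₁ z₁⁻¹ → IsConj z₂ z₂⁻¹ → q₁ ∣ cl z₁ → q₂ ∣ cl z₂ →
      cl z₁ < cl z₂ → False := by
    intro π₁ π₂ h q₁ q₂ z₁ z₂ hq₁ hq₂ hp₁ hp₂ hz₁ hz₂ hd₁ hd₂ hlt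
    have hd := h.symm.dich
    have k1 : ∀ q : ℕ, q.Prime → q ∣ cl z₁ → q ∈ π₁ := by
      rcases hd z₁ hz₁ with h1 | h1
      · exact h1
      · exact absurd hq₁ (h1 q₁ hp₁ hd₁)
    have k2 : ∀ q : ℕ, q.Prime → q ∣ cl z₂ → q ∉ π₁ := by
      rcases hd z₂ hz₂ with h1 | h1
      · exact absurd hd₂ (fun h2 => Set.disjoint_left.mp h.disj (h1 q₂ hp₂ h2) hq₂)
      · exact h1
    have hs₁ := hsq z₁ hz₁
    have hcen : z₁ ∈ center G := by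
      rw [mem_center_iff]
      intro g
      have h1 := mem_LStab_of_lt hd hz₁ hz₂ k1 k2 hlt (isConj_iff.mpr ⟨g, rfl⟩ : IsConj z₁ (g * z₁ * g⁻¹))
      have hsg : g * z₁ * g⁻¹ * (g * z₁ * g⁻¹) = 1 := by
        calc g * z₁ * g⁻¹ * (g * z₁ * g⁻¹) = g * (z₁ * z₁) * g⁻¹ := by group
          _ = 1 := by rw [hs₁]; group
      have h2 : z₁⁻¹ * (g * z₁ * g⁻¹) = 1 := by
        apply H25.RealAct.eq_one_of_sq
        · refine Odd.of_dvd_nat ?_ (Subgroup.orderOf_dvd_natCard _ h1)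
          refine Odd.of_dvd_nat ?_ (card_LStab_dvd z₂)
          exact Nat.not_even_iff_odd.mp (fun h5 => hcon z₂ hz₂ (even_iff_two_dvd.mp h5))
        · rw [H25.RealAct.inv_of_sq hs₁]
          have h3 := hcomm z₁ (g * z₁ * g⁻¹) hs₁ hsg
          calc z₁ * (g * z₁ * g⁻¹) * (z₁ * (g * z₁ * g⁻¹))
              = (z₁ * (g * z₁ * g⁻¹)) * z₁ * (g * z₁ * g⁻¹) := by group
            _ = (g * z₁ * g⁻¹) * (z₁ * z₁) * (g * z₁ * g⁻¹) := by rw [h3]; group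
            _ = 1 := by rw [hs₁, mul_one, hsg]
      rw [inv_mul_eq_one] at h2
      nth_rewrite 2 [h2]; group
    have h1 : cl z₁ = 1 := (H72.ClassSize.index_eq_one_iff z₁).mpr hcen
    rw [h1] at hd₁
    exact hp₁.one_lt.ne' (Nat.dvd_one.mp hd₁)
  rcases lt_trichotomy (cl z₁) (cl z₂) with h1 | h1 | h1
  · exact aux π₁ π₂ h q₁ q₂ z₁ z₂ hq₁ hq₂ hp₁ hp₂ hz₁ hz₂ hd₁ hd₂ h1
  · exact h.noedge q₁ hq₁ q₂ hq₂ z₂ hz₂ ⟨by rw [← h1]; exact hd₁, hd₂⟩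
  · exact aux π₂ π₁ h.symm q₂ q₁ z₂ z₁ hq₂ hq₁ hp₂ hp₁ hz₂ hz₁ hd₂ hd₁ h1

/-- there is a `Sit` -/
theorem Disc.exists_sit [Finite G] {π₁ π₂ : Set ℕ} (h : Disc G π₁ π₂) :
    ∃ (π : Set ℕ) (z : G), Sit G π z := by
  obtain ⟨x, hx, h2⟩ := h.exists_even
  have aux : ∀ (π₁ π₂ : Set ℕ), Disc G π₁ π₂ → 2 ∈ π₁ → ∃ (π : Set ℕ) (z : G), Sit G π z := by
    intro π₁ π₂ h h2
    obtain ⟨q₂, hq₂⟩ := h.ne₂
    obtain ⟨hp₂, z₂, hz₂, hd₂⟩ := h.prime q₂ (Or.inr hq₂)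
    exact ⟨π₂, z₂, H25.RealCls.exists_sit h.dich (Set.disjoint_left.mp h.disj h2) hz₂ hp₂ hq₂ hd₂⟩
  rcases h.cover 2 Nat.prime_two x hx h2 with h3 | h3
  · exact aux π₁ π₂ h h3
  · exact aux π₂ π₁ h.symm h3

/-- the common part -/
theorem Sit.main (hFT : H72.FT4159.FT.{u}) {G : Type u} [Group G] [Finite G] {π : Set ℕ} {z : G}
    (h : Sit G π z) (hex : ∃ t x : G, x ≠ 1 ∧ Odd (orderOf x) ∧ t * x * t⁻¹ = x⁻¹) :
    Group.IsSolvable G ∧ ∀ r : ℕ, r.Prime → r ∣ Nat.card (K2 G) → r = 2 ∨ r ∈ π := by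
  by_cases hI : ∃ t x : G, x ≠ 1 ∧ Odd (orderOf x) ∧ t * x * t⁻¹ = x⁻¹ ∧ cl x < cl z
  · obtain ⟨t, x, hx, hxo, htx, hlt⟩ := hI
    exact case_one_final hFT h (h.case_one hx hxo htx hlt)
  · have hall : ∀ t x : G, x ≠ 1 → Odd (orderOf x) → t * x * t⁻¹ = x⁻¹ → cl z < cl x := by
      intro t x hx hxo htx
      rcases lt_trichotomy (cl x) (cl z) with h1 | h1 | h1
      · exact absurd ⟨t, x, hx, hxo, htx, h1⟩ hI
      · exfalso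
        have h2 := (h.even_odd hx hxo htx).1
        rw [h1] at h2
        exact (Nat.not_even_iff_odd.mpr h.odd) (even_iff_two_dvd.mpr h2)
      · exact h1
    obtain ⟨hH, hpi⟩ := h.case_two hall hex
    exact case_two_final hFT (fun S => hH.cyclic S) hpi

theorem Disc.solvable (hFT : H72.FT4159.FT.{u}) {G : Type u} [Group G] [Finite G] {π₁ π₂ : Set ℕ}
    (h : Disc G π₁ π₂) : Group.IsSolvable G := by
  obtain ⟨π, z, hs⟩ := h.exists_sit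
  by_cases hex : ∃ t x : G, x ≠ 1 ∧ Odd (orderOf x) ∧ t * x * t⁻¹ = x⁻¹
  · exact (hs.main hFT hex).1
  · apply H72.FT4159.isSolvable_of_noRealOdd hFT
    intro t y hyo hty
    by_contra hne
    exact hex ⟨t, y, hne, hyo, hty⟩

/-- the structure of `K2 G` -/
theorem Disc.structure (hFT : H72.FT4159.FT.{u}) {G : Type u} [Group G] [Finite G] {π₁ π₂ : Set ℕ}
    (h : Disc G π₁ π₂) : (∀ P : Sylow 2 G, (P : Subgroup G).Normal) ∨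
      ((∃ ρ₁ ρ₂ : Set ℕ, Disc (K2 G) ρ₁ ρ₂) ∧
        ∀ x : K2 G, IsConj x x⁻¹ → Odd (cl x) ∨ ∃ j : ℕ, cl x = 2 ^ j) := by
  have hf2 : Fact (Nat.Prime 2) := ⟨Nat.prime_two⟩
  obtain ⟨π, z, hs⟩ := h.exists_sit
  by_cases hex : ∃ t x : G, x ≠ 1 ∧ Odd (orderOf x) ∧ t * x * t⁻¹ = x⁻¹
  · right
    obtain ⟨hsol, hK⟩ := hs.main hFT hex
    have hreal : ∀ x : K2 G, IsConj x x⁻¹ → IsConj (x : G) (x : G)⁻¹ := by
      intro x hx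
      obtain ⟨g, hg⟩ := isConj_iff.mp hx
      exact isConj_iff.mpr ⟨g, congrArg Subtype.val hg⟩
    have hdvd : ∀ x : K2 G, cl x ∣ cl (x : G) := fun x =>
      H72.ClassSize.index_subgroup_dvd (K2 G) x
    have hdich : ∀ x : K2 G, IsConj x x⁻¹ → Odd (cl x) ∨ ∃ j : ℕ, cl x = 2 ^ j := by
      intro x hx
      rcases hs.dich x (hreal x hx) with h1 | h1
      · left
        rw [← Nat.not_even_iff_odd]
        intro h2
        exact hs.two (h1 2 Nat.prime_two ((even_iff_two_dvd.mp h2).trans (hdvd x)))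
      · right
        refine ⟨_, Nat.eq_prime_pow_of_unique_prime_dvd (cl_pos x).ne' ?_⟩
        intro d hd hdx
        rcases hK d hd (hdx.trans (Subgroup.index_dvd_card _)) with h2 | h2
        · exact h2
        · exact absurd h2 (h1 d hd (hdx.trans (hdvd x)))
    refine ⟨?_, hdich⟩
    obtain ⟨t, x, hx, hxo, htx⟩ := hex
    obtain ⟨s, hsx, ⟨k, hk⟩, -⟩ := H72.TwoClosed.exists_two_elt htx
    have hsK : s ∈ K2 G := mem_K2 hk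
    have hxK : x ∈ K2 G := by
      apply mem_of_sq_mem hxo
      have h1 : x⁻¹ * x⁻¹ = (x⁻¹ * s * x⁻¹⁻¹) * s⁻¹ := by
        nth_rewrite 2 [← hsx]; group
      rw [h1]
      exact mul_mem ((K2_normal G).conj_mem s hsK x⁻¹) (inv_mem hsK)
    have hzK : z ∈ K2 G := by
      apply mem_K2 (k := 1)
      rw [pow_one]
      exact orderOf_eq_prime (by rw [pow_two]; exact hs.sq) hs.ne_one
    have hxx : (⟨s, hsK⟩ : K2 G) * ⟨x, hxK⟩ * ⟨s, hsK⟩⁻¹ = (⟨x, hxK⟩ : K2 G)⁻¹ := Subtype.ext hsx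
    have heven : 2 ∣ cl (⟨x, hxK⟩ : K2 G) :=
      H72.FT4193.even_index_of_real hxx (fun h1 => ne_inv_of_odd hx hxo (congrArg Subtype.val h1))
    have hzreal : IsConj (⟨z, hzK⟩ : K2 G) (⟨z, hzK⟩ : K2 G)⁻¹ := by
      have : (⟨z, hzK⟩ : K2 G)⁻¹ = ⟨z, hzK⟩ :=
        Subtype.ext (H25.RealAct.inv_of_sq hs.sq)
      rw [this]
    have hz1 : cl (⟨z, hzK⟩ : K2 G) ≠ 1 := by
      intro h1
      have h2 := (H72.ClassSize.index_eq_one_iff (⟨z, hzK⟩ : K2 G)).mp h1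
      have h3 := mem_center_iff.mp h2 ⟨x, hxK⟩
      exact hs.no_comm hx hxo htx (congrArg Subtype.val h3).symm
    have hq := Nat.minFac_prime hz1
    have hqd := Nat.minFac_dvd (cl (⟨z, hzK⟩ : K2 G))
    have hqπ := hs.pi _ hq (hqd.trans (hdvd _))
    refine ⟨{2}, {q | q.Prime ∧ q ≠ 2 ∧ ∃ y : K2 G, IsConj y y⁻¹ ∧ q ∣ cl y}, ?_, ?_, ?_, ?_, ?_, ?_⟩
    · exact ⟨2, rfl⟩
    · refine ⟨_, hq, ?_, _, hzreal, hqd⟩
      intro h1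
      rw [h1] at hqπ
      exact hs.two hqπ
    · rw [Set.disjoint_left]
      rintro q hq1 ⟨-, hq2, -⟩
      exact hq2 hq1
    · rintro q (hq1 | ⟨hq1, -, hq3⟩)
      · have hq1' : q = 2 := hq1
        subst hq1'
        exact ⟨Nat.prime_two, _, isConj_iff.mpr ⟨_, hxx⟩, heven⟩
      · exact ⟨hq1, hq3⟩
    · intro q hq1 y hy hd
      by_cases hq2 : q = 2
      · left; exact hq2
      · right; exact ⟨hq1, hq2, y, hy, hd⟩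
    · rintro a ha b ⟨hb1, hb2, -⟩ y hy ⟨hay, hby⟩
      have ha' : a = 2 := ha
      subst ha'
      rcases hdich y hy with h1 | ⟨j, hj⟩
      · exact (Nat.not_even_iff_odd.mpr h1) (even_iff_two_dvd.mpr hay)
      · rw [hj] at hby
        exact hb2 ((Nat.prime_dvd_prime_iff_eq hb1 Nat.prime_two).mp (hb1.dvd_of_dvd_pow hby))
  · left
    have hno : H72.TwoClosed.NoRealOdd G := by
      intro t y hyo hty
      by_contra hne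
      exact hex ⟨t, y, hne, hyo, hty⟩
    intro P
    have h1 := hno.odd_quotient
    have h2 : (P : Subgroup G) = Cfsg.pCore 2 G := by
      apply le_antisymm _ (H1.Cores.pCore_le_sylow P)
      intro g hg
      obtain ⟨k, hk⟩ := H25.RealAct.exists_pow_of_mem P hg
      rw [← QuotientGroup.eq_one_iff]
      have h3 : ((g : G ⧸ Cfsg.pCore 2 G)) ^ 2 ^ k = 1 := by
        rw [← QuotientGroup.mk_pow, hk]; rfl
      have h4 := Nat.eq_one_of_dvd_coprimes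
        (Nat.Coprime.pow_left k (Nat.coprime_two_left.mpr h1)) (orderOf_dvd_of_pow_eq_one h3)
        (orderOf_dvd_natCard _)
      exact orderOf_eq_one_iff.mp h4
    rw [h2]
    infer_instance

theorem disc_of {G : Type*} [Group G] {π₁ π₂ : Set ℕ} (h₁ : π₁.Nonempty) (h₂ : π₂.Nonempty)
    (hcover : ∀ q : ℕ, q.Prime → (∃ n ∈ {n : ℕ | ∃ x : G, IsConj x x⁻¹ ∧
      (Subgroup.centralizer ({x} : Set G)).index = n}, q ∣ n) → q ∈ π₁ ∨ q ∈ π₂)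
    (hsub : ∀ q ∈ π₁ ∪ π₂, q.Prime ∧ ∃ n ∈ {n : ℕ | ∃ x : G, IsConj x x⁻¹ ∧
      (Subgroup.centralizer ({x} : Set G)).index = n}, q ∣ n) (hdisj : Disjoint π₁ π₂)
    (hnoedge : ∀ a ∈ π₁, ∀ b ∈ π₂, ∀ n ∈ {n : ℕ | ∃ x : G, IsConj x x⁻¹ ∧
      (Subgroup.centralizer ({x} : Set G)).index = n}, ¬ (a ∣ n ∧ b ∣ n)) : Disc G π₁ π₂ := by
  refine ⟨h₁, h₂, hdisj, ?_, ?_, ?_⟩
  · intro q hq
    obtain ⟨h1, _, ⟨x, hx, rfl⟩, hd⟩ := hsub q hq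
    exact ⟨h1, x, hx, hd⟩
  · intro q hq x hx hd
    exact hcover q hq ⟨_, ⟨x, hx, rfl⟩, hd⟩
  · intro a ha b hb x hx
    exact hnoedge a ha b hb _ ⟨x, hx, rfl⟩

/-- S4192 modulo the odd order theorem -/
theorem s4192 (hFT : H72.FT4159.FT.{u}) {G : Type u} [Group G] [Finite G] (h : (∃ π₁ π₂ : Set ℕ, π₁.Nonempty ∧ π₂.Nonempty ∧ Disjoint π₁ π₂ ∧ (∀ q ∈ π₁ ∪ π₂, q.Prime ∧ ∃ n ∈ {n : ℕ | ∃ x : G, IsConj x x⁻¹ ∧ (Subgroup.centralizer ({x} : Set G)).index = n}, q ∣ n) ∧ (∀ q : ℕ, q.Prime → (∃ n ∈ {n : ℕ | ∃ x : G, IsConj x x⁻¹ ∧ (Subgroup.centralizer ({x} : Set G)).index = n}, q ∣ n) → q ∈ π₁ ∨ q ∈ π₂) ∧ ∀ a ∈ π₁, ∀ b ∈ π₂, ∀ n ∈ {n : ℕ | ∃ x : G, IsConj x x⁻¹ ∧ (Subgroup.centralizer ({x} : Set G)).index = n}, ¬ (a ∣ n ∧ b ∣ n))) : (∃ n ∈ {n : ℕ | ∃ x : G, IsConj x x⁻¹ ∧ (Subgroup.centralizer ({x} : Set G)).index = n}, 2 ∣ n) ∧ ((∀ P :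 Sylow 2 G, (P : Subgroup G).Normal) ∨ ((∃ π₁ π₂ : Set ℕ, π₁.Nonempty ∧ π₂.Nonempty ∧ Disjoint π₁ π₂ ∧ (∀ q ∈ π₁ ∪ π₂, q.Prime ∧ ∃ n ∈ {n : ℕ | ∃ x : ↥(Subgroup.closure {g : G | ∃ k : ℕ, orderOf g = 2 ^ k}), IsConj x x⁻¹ ∧ (Subgroup.centralizer ({x} : Set ↥(Subgroup.closure {g : G | ∃ k : ℕ, orderOf g = 2 ^ k}))).index = n}, q ∣ n) ∧ (∀ q : ℕ, q.Prime → (∃ n ∈ {n : ℕ | ∃ x : ↥(Subgroup.closure {g : G | ∃ k : ℕ, orderOf g = 2 ^ k}), IsConj x x⁻¹ ∧ (Subgroup.centralizer ({x} : Set ↥(Subgroup.closure {g : G | ∃ k : ℕ, orderOf g = 2 ^ k}))).index = n}, q ∣ n) → q ∈ π₁ ∨ q ∈ π₂) ∧ ∀ a ∈ π₁, ∀ b ∈ π₂, ∀ n ∈ {n : ℕ | ∃ x : ↥(Subgroup.closure {g : G | ∃ k : ℕ, orderOf g = 2 ^ k}), IsConj x x⁻¹ ∧ (Subgroup.centralizer ({x} : Set ↥(Subgroup.closure {g : G | ∃ k : ℕ, orderOf g = 2 ^ k}))).index = n}, ¬ (a ∣ n ∧ b ∣ n)) ∧ ∀ n ∈ {n : ℕ | ∃ x :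 ↥(Subgroup.closure {g : G | ∃ k : ℕ, orderOf g = 2 ^ k}), IsConj x x⁻¹ ∧ (Subgroup.centralizer ({x} : Set ↥(Subgroup.closure {g : G | ∃ k : ℕ, orderOf g = 2 ^ k}))).index = n}, Odd n ∨ ∃ j : ℕ, n = 2 ^ j)) := by
  obtain ⟨π₁, π₂, h1, h2, h3, h4, h5, h6⟩ := h
  have hD : Disc G π₁ π₂ := disc_of h1 h2 h5 h4 h3 h6
  refine ⟨?_, ?_⟩
  · obtain ⟨x, hx, hd⟩ := hD.exists_even
    exact ⟨_, ⟨x, hx, rfl⟩, hd⟩
  · rcases hD.structure hFT with h7 | ⟨⟨ρ₁, ρ₂, h8⟩, h9⟩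
    · exact Or.inl h7
    · right
      refine ⟨⟨ρ₁, ρ₂, h8.ne₁, h8.ne₂, h8.disj, ?_, ?_, ?_⟩, ?_⟩
      · intro q hq
        obtain ⟨k1, x, k2, k3⟩ := h8.prime q hq
        exact ⟨k1, _, ⟨x, k2, rfl⟩, k3⟩
      · rintro q hq ⟨_, ⟨x, hx, rfl⟩, hd⟩
        exact h8.cover q hq x hx hd
      · rintro a ha b hb _ ⟨x, hx, rfl⟩
        exact h8.noedge a ha b hb x hx
      · rintro _ ⟨x, hx, rfl⟩
        exact h9 x hx

/-- S4187 modulo the odd order theorem -/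
theorem s4187 (hFT : H72.FT4159.FT.{u}) {G : Type u} [Group G] [Finite G] (π₁ π₂ : Set ℕ) (h₁ : π₁.Nonempty) (h₂ : π₂.Nonempty) (hcover : ∀ q : ℕ, q.Prime → (∃ n ∈ {n : ℕ | ∃ x : G, IsConj x x⁻¹ ∧ (Subgroup.centralizer ({x} : Set G)).index = n}, q ∣ n) → q ∈ π₁ ∨ q ∈ π₂) (hsub : ∀ q ∈ π₁ ∪ π₂, q.Prime ∧ ∃ n ∈ {n : ℕ | ∃ x : G, IsConj x x⁻¹ ∧ (Subgroup.centralizer ({x} : Set G)).index = n}, q ∣ n) (hdisj : Disjoint π₁ π₂) (hnoedge : ∀ a ∈ π₁, ∀ b ∈ π₂, ∀ n ∈ {n : ℕ | ∃ x : G, IsConj x x⁻¹ ∧ (Subgroup.centralizer ({x} : Set G)).index = n}, ¬ (a ∣ n ∧ b ∣ n)) : Group.IsSolvable G :=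
  (disc_of h₁ h₂ hcover hsub hdisj hnoedge).solvable hFT

end H25.RealCls
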