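import Mathlib
import Cfsg.Agent.Lib.H25.MacW2
import Cfsg.Agent.Lib.H29.PGrp

/-!
Sectional rank of 2-groups with a normal elementary abelian subgroup of order 8 and small centralizer.
-/

set_option autoImplicit false
set_option linter.all false

namespace H25.Sec4

open Subgroup H25.MacW
open scoped commutatorElement

variable {S : Type*} [Group S]

theorem card_le_fiber {α : Type*} [DecidableEq α] [Finite S] (H C : Subgroup S) (f : S → α) (T : Finset α)
    (hf : ∀ h ∈ H, f h ∈ T) (hC : ∀ h ∈ H, ∀ k ∈ H, f h = f k → h⁻¹ * k ∈ C) :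
    Nat.card H ≤ T.card * Nat.card (H ⊓ C : Subgroup S) := by
  classical
  haveI : Fintype S := Fintype.ofFinite S
  let s : Finset S := Finset.univ.filter (fun x => x ∈ H)
  have hs : s.card = Nat.card H := by
    rw [Nat.card_eq_fintype_card, Fintype.card_subtype]
  have hcard : s.card ≤ Nat.card (H ⊓ C : Subgroup S) * (s.image f).card := by
    refine Finset.card_le_mul_card_image (f := f) s _ ?_
    intro b hb
    obtain ⟨x0, hx0, rfl⟩ := Finset.mem_image.1 hb
    have hx0D : x0 ∈ H := (Finset.mem_filter.1 hx0).2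
    have h1 : (s.filter (fun x => f x = f x0)).card ≤
        (Finset.univ.filter (fun x => x ∈ (H ⊓ C : Subgroup S))).card := by
      refine Finset.card_le_card_of_injOn (fun x => x0⁻¹ * x) ?_ ?_
      · intro x hx
        rw [Finset.mem_coe, Finset.mem_filter] at hx
        have hxD : x ∈ H := (Finset.mem_filter.1 hx.1).2
        rw [Finset.mem_coe, Finset.mem_filter]
        exact ⟨Finset.mem_univ _, H.mul_mem (H.inv_mem hx0D) hxD, hC x0 hx0D x hxD hx.2.symm⟩
      · intro x _ y _ hxy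
        exact mul_left_cancel hxy
    refine h1.trans ?_
    rw [← Fintype.card_subtype, ← Nat.card_eq_fintype_card]
  have himg : (s.image f).card ≤ T.card := by
    apply Finset.card_le_card
    intro y hy
    obtain ⟨x, hx, rfl⟩ := Finset.mem_image.1 hy
    exact hf x (Finset.mem_filter.1 hx).2
  rw [← hs]
  calc s.card ≤ _ := hcard
    _ ≤ Nat.card (H ⊓ C : Subgroup S) * T.card := Nat.mul_le_mul_left _ himg
    _ = _ := mul_comm _ _

theorem idx2 [Finite S] {K L : Subgroup S} (hKL : K ≤ L) (hc : Nat.card L = 2 * Nat.card K) {x y : S}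
    (hx : x ∈ L) (hy : y ∈ L) (hxK : x ∉ K) (hyK : y ∉ K) : x * y ∈ K := by
  have h1 : Nat.card K * K.relIndex L = Nat.card L := cardRel hKL
  have h2 : K.relIndex L = 2 := by
    rw [hc, mul_comm 2] at h1
    exact Nat.eq_of_mul_eq_mul_left Nat.card_pos h1
  have h3 : (K.subgroupOf L).index = 2 := h2
  have h4 := Subgroup.mul_mem_iff_of_index_two h3 (a := ⟨x, hx⟩) (b := ⟨y, hy⟩)
  rw [mem_subgroupOf, mem_subgroupOf, mem_subgroupOf] at h4
  exact h4.2 (iff_of_false hxK hyK)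

theorem idx2' [Finite S] {K L : Subgroup S} (hKL : K ≤ L) (hc : Nat.card L = 2 * Nat.card K) {x y : S}
    (hx : x ∈ L) (hy : y ∈ L) (hxK : x ∉ K) (hyK : y ∉ K) : x * y⁻¹ ∈ K :=
  idx2 hKL hc hx (L.inv_mem hy) hxK (fun h => hyK (by simpa using K.inv_mem h))

theorem two_mul_card_le [Finite S] {K L : Subgroup S} (h : K < L) : 2 * Nat.card K ≤ Nat.card L := by
  have h1 : Nat.card K * K.relIndex L = Nat.card L := cardRel h.le
  have h2 : K.relIndex L ≠ 1 := fun h' => h.not_ge (relIndex_eq_one.1 h')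
  have h3 : K.relIndex L ≠ 0 := by
    intro h0
    rw [h0, mul_zero] at h1
    have : 0 < Nat.card L := Nat.card_pos
    omega
  rw [← h1, mul_comm]
  exact Nat.mul_le_mul_left _ (by omega)

/-- powers of two -/
theorem card_pow [Finite S] (hS : IsPGroup 2 S) (K : Subgroup S) : ∃ n, Nat.card K = 2 ^ n :=
  (IsPGroup.iff_card.1 (hS.to_subgroup K))

/-- fixed points -/
theorem FP [Finite S] (hS : IsPGroup 2 S) {X Y : Subgroup S} (hXY : X < Y) (R : Set S)
    (hRX : ∀ r ∈ R, ∀ x ∈ X, r * x * r⁻¹ ∈ X) (hRY : ∀ r ∈ R, ∀ y ∈ Y, r * y * r⁻¹ ∈ Y) :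
    ∃ d ∈ Y, d ∉ X ∧ ∀ r ∈ R, d⁻¹ * (r * d * r⁻¹) ∈ X := by
  have haux : ∀ (W : Subgroup S) (r : S), (∀ x ∈ W, r * x * r⁻¹ ∈ W) → r ∈ normalizer (W : Set S) := by
    intro W r hr
    have h1 : W.map (MulAut.conj r).toMonoidHom ≤ W := by
      rintro _ ⟨x, hx, rfl⟩
      exact hr x hx
    have h2 : W.map (MulAut.conj r).toMonoidHom = W :=
      Subgroup.eq_of_le_of_card_ge h1 (le_of_eq (Subgroup.card_map_of_injective
        (MulAut.conj r).injective).symm)
    rw [mem_normalizer_iff]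
    intro x
    constructor
    · exact hr x
    · intro hx
      rw [← h2] at hx
      obtain ⟨y, hy, hyx⟩ := hx
      have : y = x := by
        have : r * y * r⁻¹ = r * x * r⁻¹ := hyx
        exact mul_left_cancel (mul_right_cancel this)
      rw [← this]; exact hy
  haveI : Fact (Nat.Prime 2) := ⟨Nat.prime_two⟩
  set M := Y ⊓ normalizer (X : Set S) with hM
  have hlt : X < M := by
    rw [hM]
    exact H28.RelSyl.lt_inf_normalizer_of_isPGroup (hS.to_subgroup Y) hXY
  set G' := M ⊔ closure R with hG'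
  have hRX' : closure R ≤ normalizer (X : Set S) := by
    rw [closure_le]; intro r hr; exact haux X r (hRX r hr)
  have hRY' : closure R ≤ normalizer (Y : Set S) := by
    rw [closure_le]; intro r hr; exact haux Y r (hRY r hr)
  have h1 : G' ≤ normalizer (X : Set S) := sup_le inf_le_right hRX'
  have h2 : G' ≤ normalizer (M : Set S) := by
    refine sup_le Subgroup.le_normalizer ?_
    intro r hr
    apply haux
    intro x hx
    refine ⟨((mem_normalizer_iff.1 (hRY' hr)) x).1 hx.1, ?_⟩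
    exact (normalizer (X : Set S)).mul_mem ((normalizer (X : Set S)).mul_mem (hRX' hr) hx.2)
      ((normalizer (X : Set S)).inv_mem (hRX' hr))
  obtain ⟨K, k1, k2, k3, k4, k5⟩ := H29.PGrp.exists_normal_step (hS.to_subgroup G') (le_sup_left : M ≤ G')
    h1 h2 hlt
  have hKX : ¬ K ≤ X := by
    intro h
    have := Nat.le_of_dvd Nat.card_pos (Subgroup.card_dvd_of_le h)
    rw [k4] at this
    have : 0 < Nat.card X := Nat.card_pos
    omega
  obtain ⟨d, hd, hdX⟩ := SetLike.not_le_iff_exists.1 hKX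
  refine ⟨d, (k2 hd).1, hdX, fun r hr => ?_⟩
  have h3 := k5 (commutator_mem_commutator (K.inv_mem hd) ((le_sup_right : closure R ≤ G') (subset_closure hr)))
  rw [commutatorElement_def, inv_inv] at h3
  have e : d⁻¹ * (r * d * r⁻¹) = d⁻¹ * r * d * r⁻¹ := by group
  rw [e]; exact h3

/-- a normal elementary abelian subgroup of order 8 with a central flag -/
structure Flag (A A₂ : Subgroup S) (z a₁ a₂ : S) : Prop where
  nA : ∀ g : S, ∀ a ∈ A, g * a * g⁻¹ ∈ A
  nA2 : ∀ g : S, ∀ a ∈ A₂, g * a * g⁻¹ ∈ A₂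
  le : A₂ ≤ A
  sq : ∀ a ∈ A, a * a = 1
  c8 : Nat.card A = 8
  c4 : Nat.card A₂ = 4
  z1 : z ≠ 1
  hz : ∀ g : S, g * z = z * g
  mem2 : ∀ x : S, x ∈ A₂ ↔ x = 1 ∨ x = z ∨ x = a₁ ∨ x = a₁ * z
  n1 : a₁ ≠ 1
  n1z : a₁ ≠ z
  m2 : a₂ ∈ A
  n2 : a₂ ∉ A₂
  step1 : ∀ g : S, g * a₁ * g⁻¹ = a₁ ∨ g * a₁ * g⁻¹ = a₁ * z
  step2 : ∀ g : S, ∀ a ∈ A, ∃ u ∈ A₂, g * a * g⁻¹ = a * u

theorem comm_of_sq {A : Subgroup S} (h : ∀ a ∈ A, a * a = 1) : ∀ a ∈ A, ∀ b ∈ A, a * b = b * a := by
  intro a ha b hb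
  have h1 : a⁻¹ = a := inv_eq_of_mul_eq_one_left (h a ha)
  have h2 : b⁻¹ = b := inv_eq_of_mul_eq_one_left (h b hb)
  have h3 : (a * b)⁻¹ = a * b := inv_eq_of_mul_eq_one_left (h _ (A.mul_mem ha hb))
  rw [mul_inv_rev, h1, h2] at h3
  exact h3.symm

theorem exists_Flag [Finite S] (hS : IsPGroup 2 S) {B : Subgroup S} (hB : B.Normal)
    (hBsq : ∀ b ∈ B, b * b = 1) (hBc : 4 < Nat.card B) :
    ∃ (A A₂ : Subgroup S) (z a₁ a₂ : S), Flag A A₂ z a₁ a₂ := by
  haveI : Fact (Nat.Prime 2) := ⟨Nat.prime_two⟩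
  have hT : IsPGroup 2 (⊤ : Subgroup S) := hS.to_subgroup ⊤
  have hn : ∀ W : Subgroup S, (⊤ : Subgroup S) ≤ normalizer (W : Set S) → ∀ g : S, ∀ a ∈ W, g * a * g⁻¹ ∈ W :=
    fun W hW g a ha => ((mem_normalizer_iff.1 (hW (mem_top g))) a).1 ha
  have h8 : 2 ^ 3 ≤ Nat.card B := by
    obtain ⟨n, hn'⟩ := card_pow hS B
    rw [hn'] at hBc ⊢
    have : 2 < n := by
      by_contra h
      push Not at h
      have := Nat.pow_le_pow_right (n := 2) (by norm_num) h
      omega
    exact Nat.pow_le_pow_right (by norm_num) this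
  obtain ⟨A, hAB, hAn, hA8⟩ := H29.PGrp.exists_normal_card hT (le_top : B ≤ ⊤)
    (by rw [normalizer_eq_top]) h8
  have hAsq : ∀ a ∈ A, a * a = 1 := fun a ha => hBsq a (hAB ha)
  have hbot : (⊥ : Subgroup S) < A := by
    rw [bot_lt_iff_ne_bot]
    rintro rfl
    rw [Subgroup.card_bot] at hA8
    norm_num at hA8
  obtain ⟨K₁, -, k2, k3, k4, k5⟩ := H29.PGrp.exists_normal_step hT (le_top : A ≤ ⊤)
    (by rw [normalizer_eq_top]) hAn hbot
  rw [Subgroup.card_bot] at k4
  have hlt1 : K₁ < A := by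
    refine lt_of_le_of_ne k2 ?_
    rintro rfl
    rw [k4] at hA8
    norm_num at hA8
  obtain ⟨K₂, l1, l2, l3, l4, l5⟩ := H29.PGrp.exists_normal_step hT (le_top : A ≤ ⊤) k3 hAn hlt1
  have hlt2 : K₂ < A := by
    refine lt_of_le_of_ne l2 ?_
    rintro rfl
    rw [l4, k4] at hA8
    norm_num at hA8
  obtain ⟨K₃, m1, m2, m3, m4, m5⟩ := H29.PGrp.exists_normal_step hT (le_top : A ≤ ⊤) l3 hAn hlt2
  have hK3 : K₃ = A := by
    apply Subgroup.eq_of_le_of_card_ge m2
    rw [m4, l4, k4, hA8]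
    norm_num
  rw [hK3] at m5
  have hc1 : Nat.card K₁ = 2 := by rw [k4]
  have hc2 : Nat.card K₂ = 4 := by rw [l4, k4]
  have hne1 : ¬ K₁ ≤ ⊥ := by
    intro h
    have := Nat.le_of_dvd Nat.card_pos (Subgroup.card_dvd_of_le h)
    rw [hc1, Subgroup.card_bot] at this
    omega
  obtain ⟨z, hz, hz1⟩ := SetLike.not_le_iff_exists.1 hne1
  rw [mem_bot] at hz1
  have hne2 : ¬ K₂ ≤ K₁ := by
    intro h
    have := Nat.le_of_dvd Nat.card_pos (Subgroup.card_dvd_of_le h)
    omega
  obtain ⟨a₁, ha₁, ha₁'⟩ := SetLike.not_le_iff_exists.1 hne2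
  obtain ⟨a₂, ha₂, ha₂'⟩ := SetLike.not_le_iff_exists.1 hlt2.not_ge
  have hK1 : ∀ x : S, x ∈ K₁ → x = 1 ∨ x = z := by
    intro x hx
    by_cases h1 : x = 1
    · exact Or.inl h1
    · right
      have := idx2' (bot_le : ⊥ ≤ K₁) (by rw [k4, Subgroup.card_bot]) hx hz (by rwa [mem_bot])
        (by rwa [mem_bot])
      rw [mem_bot] at this
      exact mul_inv_eq_one.1 this
  have hcz : ∀ g : S, g * z = z * g := by
    intro g
    have h3 := k5 (commutator_mem_commutator hz (mem_top g))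
    rw [mem_bot, commutatorElement_def] at h3
    exact (mul_inv_eq_iff_eq_mul.1 (mul_inv_eq_one.1 h3)).symm
  have hzz : z * z = 1 := hAsq z (k2 hz)
  have haa : a₁ * a₁ = 1 := hAsq a₁ (l2 ha₁)
  have hmem2 : ∀ x : S, x ∈ K₂ ↔ x = 1 ∨ x = z ∨ x = a₁ ∨ x = a₁ * z := by
    intro x
    constructor
    · intro hx
      by_cases h1 : x ∈ K₁
      · rcases hK1 x h1 with h | h
        · exact Or.inl h
        · exact Or.inr (Or.inl h)
      · have h2 := idx2' l1 l4 hx ha₁ h1 ha₁'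
        rcases hK1 _ h2 with h | h
        · exact Or.inr (Or.inr (Or.inl (mul_inv_eq_one.1 h)))
        · right; right; right
          rw [mul_inv_eq_iff_eq_mul] at h
          rw [h, hcz]
    · rintro (rfl | rfl | rfl | rfl)
      · exact one_mem _
      · exact l1 hz
      · exact ha₁
      · exact mul_mem ha₁ (l1 hz)
  refine ⟨A, K₂, z, a₁, a₂, hn A hAn, hn K₂ l3, l2, hAsq, hA8, hc2, hz1, hcz, hmem2, ?_, ?_, ha₂, ha₂', ?_, ?_⟩
  · rintro rfl; exact ha₁' (one_mem _)
  · rintro rfl; exact ha₁' hz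
  · intro g
    have h3 := l5 (commutator_mem_commutator ha₁ (mem_top g))
    have h4 : g * a₁ * g⁻¹ * a₁⁻¹ ∈ K₁ := by
      have := K₁.inv_mem h3
      rw [commutatorElement_inv, commutatorElement_def] at this
      exact this
    rcases hK1 _ h4 with h | h
    · exact Or.inl (mul_inv_eq_one.1 h)
    · right
      rw [mul_inv_eq_iff_eq_mul.1 h, hcz]
  · intro g a ha
    have h3 := m5 (commutator_mem_commutator (A.inv_mem ha) (mem_top g))
    rw [commutatorElement_def, inv_inv] at h3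
    exact ⟨_, h3, by group⟩

namespace Flag

variable {A A₂ : Subgroup S} {z a₁ a₂ : S} (hF : Flag A A₂ z a₁ a₂)
include hF

theorem zz : z * z = 1 := hF.sq z (hF.le ((hF.mem2 z).2 (Or.inr (Or.inl rfl))))
theorem mz2 : z ∈ A₂ := (hF.mem2 z).2 (Or.inr (Or.inl rfl))
theorem m12 : a₁ ∈ A₂ := (hF.mem2 a₁).2 (Or.inr (Or.inr (Or.inl rfl)))
theorem m1 : a₁ ∈ A := hF.le hF.m12
theorem mz : z ∈ A := hF.le hF.mz2
theorem comm : ∀ a ∈ A, ∀ b ∈ A, a * b = b * a := comm_of_sq hF.sq
theorem zconj (g : S) : g * z * g⁻¹ = z := by rw [hF.hz, mul_inv_cancel_right]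

theorem cov [Finite S] {a : S} (ha : a ∈ A) (h : a ∉ A₂) : a * a₂⁻¹ ∈ A₂ :=
  idx2' hF.le (by rw [hF.c8, hF.c4]) ha hF.m2 h hF.n2

theorem cen [Finite S] {x : S} (h1 : x * a₁ * x⁻¹ = a₁) (h2 : x * a₂ * x⁻¹ = a₂) :
    x ∈ centralizer (A : Set S) := by
  have e1 := mul_inv_eq_iff_eq_mul.1 h1
  have e2 := mul_inv_eq_iff_eq_mul.1 h2
  have e3 := hF.hz x
  have h2' : ∀ a ∈ A₂, x * a = a * x := by
    intro a ha
    rcases (hF.mem2 a).1 ha with rfl | rfl | rfl | rfl
    · simp
    · exact e3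
    · exact e1
    · rw [← mul_assoc, e1, mul_assoc, e3, mul_assoc]
  rw [mem_centralizer_iff]
  intro a ha
  by_cases h : a ∈ A₂
  · exact (h2' a h).symm
  · have h3 := h2' _ (hF.cov ha h)
    have h5 : x * a = a * x := by
      calc x * a = x * (a * a₂⁻¹) * a₂ := by group
        _ = (a * a₂⁻¹) * (x * a₂) := by rw [h3]; group
        _ = a * x := by rw [e2]; group
    exact h5.symm

theorem cen' [Finite S] {h k : S} (h1 : h * a₁ * h⁻¹ = k * a₁ * k⁻¹) (h2 : h * a₂ * h⁻¹ = k * a₂ * k⁻¹) :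
    h⁻¹ * k ∈ centralizer (A : Set S) := by
  apply hF.cen
  · calc h⁻¹ * k * a₁ * (h⁻¹ * k)⁻¹ = h⁻¹ * (k * a₁ * k⁻¹) * h := by group
      _ = a₁ := by rw [← h1]; group
  · calc h⁻¹ * k * a₂ * (h⁻¹ * k)⁻¹ = h⁻¹ * (k * a₂ * k⁻¹) * h := by group
      _ = a₂ := by rw [← h2]; group

theorem val2 (g : S) : g * a₂ * g⁻¹ = a₂ ∨ g * a₂ * g⁻¹ = a₂ * z ∨ g * a₂ * g⁻¹ = a₂ * a₁ ∨
    g * a₂ * g⁻¹ = a₂ * (a₁ * z) := by
  obtain ⟨u, hu, e⟩ := hF.step2 g a₂ hF.m2
  rcases (hF.mem2 u).1 hu with rfl | rfl | rfl | rfl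
  · left; rw [e, mul_one]
  · right; left; exact e
  · right; right; left; exact e
  · right; right; right; exact e

theorem card_le8 [Finite S] (H : Subgroup S) :
    Nat.card H ≤ 8 * Nat.card (H ⊓ centralizer (A : Set S) : Subgroup S) := by
  classical
  have h1 := card_le_fiber H (centralizer (A : Set S)) (fun h => (h * a₁ * h⁻¹, h * a₂ * h⁻¹))
    (({a₁, a₁ * z} : Finset S) ×ˢ ({a₂, a₂ * z, a₂ * a₁, a₂ * (a₁ * z)} : Finset S)) (by
      intro h _
      rw [Finset.mem_product]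
      constructor
      · simpa using hF.step1 h
      · simpa using hF.val2 h) (by
      intro h _ k _ e
      exact hF.cen' (congrArg Prod.fst e) (congrArg Prod.snd e))
  refine h1.trans ?_
  gcongr
  rw [Finset.card_product]
  calc _ ≤ 2 * 4 := Nat.mul_le_mul Finset.card_le_two Finset.card_le_four
    _ = 8 := by norm_num

theorem card_le4_of_fix [Finite S] (H : Subgroup S) (hH : ∀ h ∈ H, h * a₁ * h⁻¹ = a₁) :
    Nat.card H ≤ 4 * Nat.card (H ⊓ centralizer (A : Set S) : Subgroup S) := by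
  classical
  have h1 := card_le_fiber H (centralizer (A : Set S)) (fun h => h * a₂ * h⁻¹)
    ({a₂, a₂ * z, a₂ * a₁, a₂ * (a₁ * z)} : Finset S) (by
      intro h _
      simpa using hF.val2 h) (by
      intro h hh k hk e
      exact hF.cen' (by rw [hH h hh, hH k hk]) e)
  refine h1.trans ?_
  gcongr
  exact Finset.card_le_four

theorem card_le4_of_comm [Finite S] (hS : IsPGroup 2 S) (H : Subgroup S)
    (hH : ∀ x ∈ H, ∀ y ∈ H, x * y * x⁻¹ * y⁻¹ ∈ centralizer (A : Set S)) :
    Nat.card H ≤ 4 * Nat.card (H ⊓ centralizer (A : Set S) : Subgroup S) := by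
  classical
  by_cases hcase : ∃ h ∈ H, h * a₁ * h⁻¹ = a₁ ∧ (h * a₂ * h⁻¹ = a₂ * a₁ ∨ h * a₂ * h⁻¹ = a₂ * (a₁ * z))
  · obtain ⟨h, hh, e1, e2⟩ := hcase
    apply hF.card_le4_of_fix
    intro k hk
    obtain ⟨v, hv, e2'⟩ : ∃ v : S, (v = a₁ ∨ v = a₁ * z) ∧ h * a₂ * h⁻¹ = a₂ * v := by
      rcases e2 with e | e
      · exact ⟨_, Or.inl rfl, e⟩
      · exact ⟨_, Or.inr rfl, e⟩
    have hvA2 : v ∈ A₂ := by
      rw [hF.mem2]; rcases hv with h | h
      · exact Or.inr (Or.inr (Or.inl h))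
      · exact Or.inr (Or.inr (Or.inr h))
    have hfix : ∀ u ∈ A₂, h * u * h⁻¹ = u := by
      intro u hu
      rcases (hF.mem2 u).1 hu with rfl | rfl | rfl | rfl
      · simp
      · exact hF.zconj h
      · exact e1
      · calc h * (a₁ * z) * h⁻¹ = (h * a₁ * h⁻¹) * (h * z * h⁻¹) := by group
          _ = a₁ * z := by rw [e1, hF.zconj]
    obtain ⟨u, hu, e3⟩ := hF.step2 k a₂ hF.m2
    have hc := (mem_centralizer_iff.1 (hH h hh k hk)) (k * h * a₂ * (k * h)⁻¹) (hF.nA _ _ hF.m2)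
    have e4 : h * k * a₂ * (h * k)⁻¹ = k * h * a₂ * (k * h)⁻¹ := by
      calc h * k * a₂ * (h * k)⁻¹
          = (h * k * h⁻¹ * k⁻¹) * (k * h * a₂ * (k * h)⁻¹) * (h * k * h⁻¹ * k⁻¹)⁻¹ := by group
        _ = (k * h * a₂ * (k * h)⁻¹) * (h * k * h⁻¹ * k⁻¹) * (h * k * h⁻¹ * k⁻¹)⁻¹ := by rw [← hc]
        _ = _ := by group
    have e5 : h * k * a₂ * (h * k)⁻¹ = a₂ * v * u := by
      calc h * k * a₂ * (h * k)⁻¹ = h * (k * a₂ * k⁻¹) * h⁻¹ := by group
        _ = (h * a₂ * h⁻¹) * (h * u * h⁻¹) := by rw [e3]; group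
        _ = a₂ * v * u := by rw [e2', hfix u hu]
    have e6 : k * h * a₂ * (k * h)⁻¹ = a₂ * u * (k * v * k⁻¹) := by
      calc k * h * a₂ * (k * h)⁻¹ = k * (h * a₂ * h⁻¹) * k⁻¹ := by group
        _ = (k * a₂ * k⁻¹) * (k * v * k⁻¹) := by rw [e2']; group
        _ = _ := by rw [e3]
    rw [e5, e6, mul_assoc, mul_assoc, hF.comm v (hF.le hvA2) u (hF.le hu)] at e4
    have e7 : v = k * v * k⁻¹ := mul_left_cancel (mul_left_cancel e4)
    rcases hv with rfl | rfl
    · exact e7.symm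
    · have e8 : k * (a₁ * z) * k⁻¹ = (k * a₁ * k⁻¹) * (k * z * k⁻¹) := by group
      rw [e8, hF.zconj] at e7
      exact (mul_right_cancel e7).symm
  · push Not at hcase
    have h1 := card_le_fiber H (centralizer (A : Set S)) (fun h => (h * a₁ * h⁻¹, h * a₂ * h⁻¹))
      ({(a₁, a₂), (a₁, a₂ * z), (a₁ * z, a₂), (a₁ * z, a₂ * z), (a₁ * z, a₂ * a₁),
        (a₁ * z, a₂ * (a₁ * z))} : Finset (S × S)) (by
        intro h hh
        have hc := hcase h hh
        rcases hF.step1 h with h1 | h1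
        · obtain ⟨c1, c2⟩ := hc h1
          rcases hF.val2 h with h2 | h2 | h2 | h2
          · simp [h1, h2]
          · simp [h1, h2]
          · exact absurd h2 c1
          · exact absurd h2 c2
        · rcases hF.val2 h with h2 | h2 | h2 | h2 <;> simp [h1, h2]) (by
        intro h _ k _ e
        exact hF.cen' (congrArg Prod.fst e) (congrArg Prod.snd e))
    have h2 : Nat.card H ≤ 6 * Nat.card (H ⊓ centralizer (A : Set S) : Subgroup S) := by
      refine h1.trans ?_
      gcongr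
      exact Finset.card_le_six
    have h3 : Nat.card (H ⊓ centralizer (A : Set S) : Subgroup S) *
      (H ⊓ centralizer (A : Set S)).relIndex H = Nat.card H := cardRel inf_le_left
    have h4 : (H ⊓ centralizer (A : Set S)).relIndex H ≤ 6 := by
      rw [← h3, mul_comm 6] at h2
      exact Nat.le_of_mul_le_mul_left h2 Nat.card_pos
    have h5 : (H ⊓ centralizer (A : Set S)).relIndex H ∣ Nat.card H := ⟨_, by rw [mul_comm]; exact h3.symm⟩
    obtain ⟨n, hn⟩ := card_pow hS H
    rw [hn, Nat.dvd_prime_pow Nat.prime_two] at h5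
    obtain ⟨m, -, hm⟩ := h5
    rw [hm] at h4 h3
    have hm2 : m ≤ 2 := by
      by_contra hlt
      push Not at hlt
      have := Nat.pow_le_pow_right (n := 2) (by norm_num) hlt
      omega
    have := Nat.pow_le_pow_right (n := 2) (by norm_num) hm2
    rw [← h3, mul_comm]
    gcongr

/-- subgroups of order 4 of `D₈` contain the centre -/
theorem exists_center [Finite S] (H : Subgroup S)
    (hH : 4 * Nat.card (H ⊓ centralizer (A : Set S) : Subgroup S) ≤ Nat.card H) :
    ∃ h ∈ H, h * a₁ * h⁻¹ = a₁ ∧ h * a₂ * h⁻¹ = a₂ * z := by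
  classical
  by_contra hcon
  push Not at hcon
  have hpos : 0 < Nat.card (H ⊓ centralizer (A : Set S) : Subgroup S) := Nat.card_pos
  let P1 : S → Prop := fun h => h * a₁ * h⁻¹ = a₁
  let P2 : S → Prop := fun h => h * a₂ * h⁻¹ = a₂ ∨ h * a₂ * h⁻¹ = a₂ * z
  have h1 := card_le_fiber H (centralizer (A : Set S)) (fun h => (decide (P1 h), decide (P2 h)))
    ({(true, true), (true, false), (false, true)} : Finset (Bool × Bool)) (by
      intro h hh
      by_cases p1 : P1 h
      · by_cases p2 : P2 h <;> simp [p1, p2]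
      · by_cases p2 : P2 h
        · simp [p1, p2]
        · exfalso
          have e1 := (hF.step1 h).resolve_left p1
          obtain ⟨v, hv, e2⟩ : ∃ v : S, (v = a₁ ∨ v = a₁ * z) ∧ h * a₂ * h⁻¹ = a₂ * v := by
            rcases hF.val2 h with e | e | e | e
            · exact absurd (Or.inl e) p2
            · exact absurd (Or.inr e) p2
            · exact ⟨_, Or.inl rfl, e⟩
            · exact ⟨_, Or.inr rfl, e⟩
          have hvv : v * v = 1 := by
            rcases hv with rfl | rfl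
            · exact hF.sq _ hF.m1
            · exact hF.sq _ (A.mul_mem hF.m1 hF.mz)
          have e3 : h * v * h⁻¹ = v * z := by
            rcases hv with rfl | rfl
            · exact e1
            · calc h * (a₁ * z) * h⁻¹ = (h * a₁ * h⁻¹) * (h * z * h⁻¹) := by group
                _ = _ := by rw [e1, hF.zconj]
          have f1 : (h * h) * a₁ * (h * h)⁻¹ = a₁ := by
            calc (h * h) * a₁ * (h * h)⁻¹ = h * (h * a₁ * h⁻¹) * h⁻¹ := by group
              _ = h * (a₁ * z) * h⁻¹ := by rw [e1]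
              _ = (h * a₁ * h⁻¹) * (h * z * h⁻¹) := by group
              _ = a₁ := by rw [e1, hF.zconj, mul_assoc, hF.zz, mul_one]
          have f2 : (h * h) * a₂ * (h * h)⁻¹ = a₂ * z := by
            calc (h * h) * a₂ * (h * h)⁻¹ = h * (h * a₂ * h⁻¹) * h⁻¹ := by group
              _ = h * (a₂ * v) * h⁻¹ := by rw [e2]
              _ = (h * a₂ * h⁻¹) * (h * v * h⁻¹) := by group
              _ = a₂ * (v * v) * z := by rw [e2, e3]; group
              _ = a₂ * z := by rw [hvv, mul_one]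
          exact hcon (h * h) (H.mul_mem hh hh) f1 f2) (by
      intro h hh k hk e
      have q1 : P1 h ↔ P1 k := by simpa using congrArg Prod.fst e
      have q2 : P2 h ↔ P2 k := by simpa using congrArg Prod.snd e
      have e1 : h * a₁ * h⁻¹ = k * a₁ * k⁻¹ := by
        by_cases p : P1 h
        · exact (show h * a₁ * h⁻¹ = a₁ from p).trans (show k * a₁ * k⁻¹ = a₁ from q1.1 p).symm
        · rw [(hF.step1 h).resolve_left p, (hF.step1 k).resolve_left (fun p' => p (q1.2 p'))]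
      -- compare the action on `a₂`
      have key : h * a₂ * h⁻¹ = k * a₂ * k⁻¹ ∨ h * a₂ * h⁻¹ * z = k * a₂ * k⁻¹ := by
        by_cases p : P2 h
        · rcases p with p | p <;> rcases q2.1 (by first | exact Or.inl p | exact Or.inr p) with p' | p'
          · left; rw [p, p']
          · right; rw [p, p']
          · right; rw [p, p', mul_assoc, hF.zz, mul_one]
          · left; rw [p, p']
        · have p' : ¬ P2 k := fun h' => p (q2.2 h')
          have r1 : h * a₂ * h⁻¹ = a₂ * a₁ ∨ h * a₂ * h⁻¹ = a₂ * (a₁ * z) := by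
            rcases hF.val2 h with e | e | e | e
            · exact absurd (Or.inl e) p
            · exact absurd (Or.inr e) p
            · exact Or.inl e
            · exact Or.inr e
          have r2 : k * a₂ * k⁻¹ = a₂ * a₁ ∨ k * a₂ * k⁻¹ = a₂ * (a₁ * z) := by
            rcases hF.val2 k with e | e | e | e
            · exact absurd (Or.inl e) p'
            · exact absurd (Or.inr e) p'
            · exact Or.inl e
            · exact Or.inr e
          rcases r1 with r1 | r1 <;> rcases r2 with r2 | r2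
          · left; rw [r1, r2]
          · right; rw [r1, r2, mul_assoc]
          · right; rw [r1, r2, mul_assoc, mul_assoc, hF.zz, mul_one]
          · left; rw [r1, r2]
      rcases key with e2 | e2
      · exact hF.cen' e1 e2
      · exfalso
        refine hcon (h⁻¹ * k) (H.mul_mem (H.inv_mem hh) hk) ?_ ?_
        · calc h⁻¹ * k * a₁ * (h⁻¹ * k)⁻¹ = h⁻¹ * (k * a₁ * k⁻¹) * h := by group
            _ = a₁ := by rw [← e1]; group
        · calc h⁻¹ * k * a₂ * (h⁻¹ * k)⁻¹ = h⁻¹ * (k * a₂ * k⁻¹) * h := by group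
            _ = a₂ * (h⁻¹ * z * h) := by rw [← e2]; group
            _ = a₂ * z := by
              have := hF.zconj h⁻¹
              rw [inv_inv] at this
              rw [this])
  have h2 : Nat.card H ≤ 3 * Nat.card (H ⊓ centralizer (A : Set S) : Subgroup S) := by
    refine h1.trans ?_
    gcongr
    exact Finset.card_le_three
  omega

end Flag

end H25.Sec4
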