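import Mathlib

/-! The wreath product `D8 wr C2` as a computable group of order 128, and `Perm8`: a group with a
subgroup of index 8 and the right order is a Sylow 2-subgroup of `S₈` modulo the core. -/

set_option autoImplicit false

namespace H25.Wr

/-- the dihedral group of order 8: `s^a t^b z^c` -/
@[ext] structure D where
  a : Bool
  b : Bool
  c : Bool
deriving DecidableEq, Fintype

namespace D
instance : Mul D := ⟨fun x y => ⟨xor x.a y.a, xor x.b y.b, xor (xor x.c y.c) (x.b && y.a)⟩⟩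
instance : One D := ⟨⟨false, false, false⟩⟩
instance : Inv D := ⟨fun x => ⟨x.a, x.b, xor x.c (x.b && x.a)⟩⟩
theorem assoc : ∀ x y z : D, x * y * z = x * (y * z) := by decide +kernel
theorem one_mul' : ∀ x : D, 1 * x = x := by decide +kernel
theorem mul_one' : ∀ x : D, x * 1 = x := by decide +kernel
theorem inv_mul' : ∀ x : D, x⁻¹ * x = 1 := by decide +kernel
theorem mul_inv' : ∀ x : D, x * x⁻¹ = 1 := by decide +kernel
end D

instance : Group D where
  mul_assoc := D.assoc
  one_mul := D.one_mul'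
  mul_one := D.mul_one'
  inv_mul_cancel := D.inv_mul'

/-- `D8 wr C2`: `x y τ^d` -/
@[ext] structure W where
  x : D
  y : D
  d : Bool
deriving DecidableEq, Fintype

namespace W
instance : Mul W := ⟨fun u v => ⟨u.x * (cond u.d v.y v.x), u.y * (cond u.d v.x v.y), xor u.d v.d⟩⟩
instance : One W := ⟨⟨1, 1, false⟩⟩
instance : Inv W := ⟨fun u => ⟨cond u.d u.y⁻¹ u.x⁻¹, cond u.d u.x⁻¹ u.y⁻¹, u.d⟩⟩

theorem mul_def (u v : W) : u * v = ⟨u.x * (cond u.d v.y v.x), u.y * (cond u.d v.x v.y), xor u.d v.d⟩ := rfl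
theorem one_def : (1 : W) = ⟨1, 1, false⟩ := rfl
theorem inv_def (u : W) : u⁻¹ = ⟨cond u.d u.y⁻¹ u.x⁻¹, cond u.d u.x⁻¹ u.y⁻¹, u.d⟩ := rfl
end W

instance : Group W where
  mul_assoc := by
    rintro ⟨x, y, d⟩ ⟨x', y', d'⟩ ⟨x'', y'', d''⟩
    cases d <;> cases d' <;> cases d'' <;> simp [W.mul_def, mul_assoc]
  one_mul := by
    rintro ⟨x, y, d⟩
    simp [W.mul_def, W.one_def]
  mul_one := by
    rintro ⟨x, y, d⟩
    cases d <;> simp [W.mul_def, W.one_def]
  inv_mul_cancel := by
    rintro ⟨x, y, d⟩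
    cases d <;> simp [W.mul_def, W.one_def, W.inv_def]

def s1 : W := ⟨⟨true, false, false⟩, 1, false⟩
def t1 : W := ⟨⟨false, true, false⟩, 1, false⟩
def z1 : W := ⟨⟨false, false, true⟩, 1, false⟩
def s2 : W := ⟨1, ⟨true, false, false⟩, false⟩
def t2 : W := ⟨1, ⟨false, true, false⟩, false⟩
def z2 : W := ⟨1, ⟨false, false, true⟩, false⟩
def z : W := ⟨⟨false, false, true⟩, ⟨false, false, true⟩, false⟩
def tau : W := ⟨1, 1, true⟩

def inA (w : W) : Prop := w.d = false ∧ w.x.b = false ∧ w.y.b = false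
def inB (w : W) : Prop := w.d = false ∧ w.x.a = false ∧ w.y.a = false
def inZ (w : W) : Prop := w.d = false ∧ w.x.a = false ∧ w.y.a = false ∧ w.x.b = false ∧ w.y.b = false
def inL (w : W) : Prop := w.d = false ∧ w.x.b = false ∧ w.x.c = false
instance : DecidablePred inA := fun w => by unfold inA; infer_instance
instance : DecidablePred inB := fun w => by unfold inB; infer_instance
instance : DecidablePred inZ := fun w => by unfold inZ; infer_instance
instance : DecidablePred inL := fun w => by unfold inL; infer_instance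

theorem cardW : Fintype.card W = 128 := by decide +kernel

theorem L1 : ∀ w : W, w * w = 1 → (∀ g : W, (g * w * g⁻¹) * w = w * (g * w * g⁻¹)) → inA w ∨ inB w := by
  decide +kernel

theorem L2 : ∀ w : W, (∀ a : W, inA a → a * w = w * a) → inA w := by decide +kernel
theorem L3 : ∀ w : W, (∀ g : W, g * w = w * g) → w = 1 ∨ w = z := by decide +kernel
theorem L4 : ∀ w : W, w.d = true → w * w = 1 → ∃ g : W, w = g * tau * g⁻¹ := by decide +kernel
theorem L5 : Fintype.card {w : W // tau * w = w * tau} = 16 := by decide +kernel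
theorem L6 : ∀ w1 : W, inA w1 → w1 * (t1 * w1 * t1⁻¹) = 1 → ∀ w2 : W, inA w2 → w2 * (t2 * w2 * t2⁻¹) = 1 →
    w1 * (t1 * w2 * t1⁻¹) = w2 * (t2 * w1 * t2⁻¹) → inZ w1 ∧ inZ w2 := by decide +kernel
theorem L7a : ∀ S : W, inA S → ∀ T : W, inB T → T * S = S * T * z1 →
    S.x.a = true ∧ T.x.b = true ∧ (S.y.a = false ∨ T.y.b = false) := by decide +kernel
theorem L7b : ∀ S : W, inA S → ∀ T : W, inB T → T * S = S * T * z2 →
    S.y.a = true ∧ T.y.b = true ∧ (S.x.a = false ∨ T.x.b = false) := by decide +kernel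
theorem L7c : ∀ S : W, inA S → ∀ T : W, inB T → T * S = S * T →
    (S.x.a = false ∨ T.x.b = false) ∧ (S.y.a = false ∨ T.y.b = false) := by decide +kernel
theorem L8 : ∀ w : W, (∀ g : W, inL (g * w * g⁻¹)) → w = 1 := by decide +kernel

end H25.Wr
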