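import Cfsg.Agent.Lib.H25.WrA

set_option autoImplicit false

namespace H25.Wr
open Subgroup

theorem fact8 : Nat.card (Equiv.Perm (Fin 8)) = 40320 := by
  rw [Nat.card_eq_fintype_card, Fintype.card_perm, Fintype.card_fin]; rfl

/-- a group with a subgroup of index 8 and order `128 |core|` is a Sylow 2-subgroup of `S₈` modulo
the core. -/
theorem Perm8 {N : Type*} [Group N] [Finite N] (L K : Subgroup N) (hK : K = L.normalCore)
    (hL : L.index = 8) (hN : Nat.card N = 128 * Nat.card K) :
    ∃ (_ : K.Normal) (T : Sylow 2 (Equiv.Perm (Fin 8))), Nonempty (N ⧸ K ≃* ↥(T : Subgroup (Equiv.Perm (Fin 8)))) := by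
  subst hK
  refine ⟨inferInstance, ?_⟩
  haveI : Fact (Nat.Prime 2) := ⟨Nat.prime_two⟩
  have hc : Nat.card (N ⧸ L) = 8 := hL
  haveI : Finite (N ⧸ L) := inferInstance
  let e : (N ⧸ L) ≃ Fin 8 := Finite.equivFinOfCardEq hc
  let f : N →* Equiv.Perm (Fin 8) :=
    (e.permCongrHom : Equiv.Perm (N ⧸ L) ≃* Equiv.Perm (Fin 8)).toMonoidHom.comp
      (MulAction.toPermHom N (N ⧸ L))
  have hker : f.ker = L.normalCore := by
    rw [Subgroup.normalCore_eq_ker]
    ext x
    simp only [f, MonoidHom.mem_ker, MonoidHom.comp_apply]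
    constructor
    · intro h
      exact (e.permCongrHom : Equiv.Perm (N ⧸ L) ≃* Equiv.Perm (Fin 8)).injective (h.trans (map_one _).symm)
    · intro h
      rw [h]; exact map_one _
  have h1 : (N ⧸ f.ker) ≃* f.range := QuotientGroup.quotientKerEquivRange f
  have h2 : (N ⧸ L.normalCore) ≃* f.range := (QuotientGroup.quotientMulEquivOfEq hker.symm).trans h1
  have h3 : Nat.card f.range = 2 ^ 7 := by
    rw [← Nat.card_congr h2.toEquiv]
    have h4 := Subgroup.card_eq_card_quotient_mul_card_subgroup L.normalCore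
    rw [hN] at h4
    have h5 : 0 < Nat.card L.normalCore := Nat.card_pos
    have := Nat.eq_of_mul_eq_mul_right h5 h4
    omega
  have h6 : Nat.card f.range = 2 ^ (Nat.card (Equiv.Perm (Fin 8))).factorization 2 := by
    rw [h3, fact8]
    congr 1
    rw [show (40320 : ℕ) = 2 ^ 7 * 315 by norm_num, Nat.factorization_mul (by norm_num) (by norm_num),
      Finsupp.add_apply, Nat.Prime.factorization_pow Nat.prime_two]
    simp only [Finsupp.single_eq_same]
    rw [Nat.factorization_eq_zero_of_not_dvd (by norm_num)]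
  exact ⟨Sylow.ofCard f.range h6, ⟨h2⟩⟩

def LW : Subgroup W where
  carrier := {w | inL w}
  one_mem' := by show inL 1; decide
  mul_mem' := by
    have : ∀ a : W, inL a → ∀ b : W, inL b → inL (a * b) := by decide +kernel
    intro a b ha hb; exact this a ha b hb
  inv_mem' := by
    have : ∀ a : W, inL a → inL a⁻¹ := by decide +kernel
    intro a ha; exact this a ha

theorem mem_LW (w : W) : w ∈ LW ↔ inL w := Iff.rfl

theorem cardWN : Nat.card W = 128 := by rw [Nat.card_eq_fintype_card, cardW]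

theorem card_inL : Fintype.card {w : W // inL w} = 16 := by decide +kernel

theorem LW_index : LW.index = 8 := by
  have h1 : Nat.card LW = 16 := by
    rw [← card_inL, ← Nat.card_eq_fintype_card]; rfl
  have h2 := Subgroup.card_mul_index LW
  rw [h1, cardWN] at h2
  omega

theorem LW_core : LW.normalCore = ⊥ := by
  rw [eq_bot_iff]
  intro w hw
  rw [Subgroup.mem_bot]
  apply L8
  intro g
  exact Subgroup.normalCore_le _ ((Subgroup.normalCore_normal LW).conj_mem w hw g)

theorem exists_T : ∃ T : Sylow 2 (Equiv.Perm (Fin 8)), Nonempty (W ≃* ↥(T : Subgroup (Equiv.Perm (Fin 8)))) := by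
  obtain ⟨h1, T, ⟨e⟩⟩ := Perm8 LW ⊥ LW_core.symm LW_index (by rw [cardWN, Subgroup.card_bot])
  exact ⟨T, ⟨(QuotientGroup.quotientBot (G := W)).symm.trans e⟩⟩

theorem equiv_of {P : Type*} [Group P] (hP : ∃ T : Sylow 2 (Equiv.Perm (Fin 8)), Nonempty (P ≃* ↥(T : Subgroup (Equiv.Perm (Fin 8))))) :
    Nonempty (W ≃* P) := by
  haveI : Fact (Nat.Prime 2) := ⟨Nat.prime_two⟩
  obtain ⟨T, ⟨e⟩⟩ := hP
  obtain ⟨T', ⟨e'⟩⟩ := exists_T
  exact ⟨(e'.trans (Sylow.equiv T' T)).trans e.symm⟩

end H25.Wr
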