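import Cfsg.Agent.Lib.H25.WrB

/-! Automorphisms of `D8 wr C2` and its normal elementary abelian subgroups of order 16. -/

set_option autoImplicit false

namespace H25.Wr
open Subgroup

def AW : Subgroup W where
  carrier := {w | inA w}
  one_mem' := by show inA 1; decide
  mul_mem' := by
    have : ∀ a : W, inA a → ∀ b : W, inA b → inA (a * b) := by decide +kernel
    intro a b ha hb; exact this a ha b hb
  inv_mem' := by
    have : ∀ a : W, inA a → inA a⁻¹ := by decide +kernel
    intro a ha; exact this a ha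

def BW : Subgroup W where
  carrier := {w | inB w}
  one_mem' := by show inB 1; decide
  mul_mem' := by
    have : ∀ a : W, inB a → ∀ b : W, inB b → inB (a * b) := by decide +kernel
    intro a b ha hb; exact this a ha b hb
  inv_mem' := by
    have : ∀ a : W, inB a → inB a⁻¹ := by decide +kernel
    intro a ha; exact this a ha

def ZW : Subgroup W where
  carrier := {w | inZ w}
  one_mem' := by show inZ 1; decide
  mul_mem' := by
    have : ∀ a : W, inZ a → ∀ b : W, inZ b → inZ (a * b) := by decide +kernel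
    intro a b ha hb; exact this a ha b hb
  inv_mem' := by
    have : ∀ a : W, inZ a → inZ a⁻¹ := by decide +kernel
    intro a ha; exact this a ha

def UW : Subgroup W where
  carrier := {w | w.d = false}
  one_mem' := by show (1 : W).d = false; decide
  mul_mem' := by
    intro a b ha hb
    show xor a.d b.d = false
    have h1 : a.d = false := ha
    have h2 : b.d = false := hb
    rw [h1, h2]; rfl
  inv_mem' := by intro a ha; exact ha

theorem mem_AW {w : W} : w ∈ AW ↔ inA w := Iff.rfl
theorem mem_BW {w : W} : w ∈ BW ↔ inB w := Iff.rfl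
theorem mem_ZW {w : W} : w ∈ ZW ↔ inZ w := Iff.rfl
theorem mem_UW {w : W} : w ∈ UW ↔ w.d = false := Iff.rfl

theorem cardA : Nat.card AW = 16 := by
  have : Fintype.card {w : W // inA w} = 16 := by decide +kernel
  rw [← this, ← Nat.card_eq_fintype_card]; rfl
theorem cardB : Nat.card BW = 16 := by
  have : Fintype.card {w : W // inB w} = 16 := by decide +kernel
  rw [← this, ← Nat.card_eq_fintype_card]; rfl
theorem cardZ : Nat.card ZW = 4 := by
  have : Fintype.card {w : W // inZ w} = 4 := by decide +kernel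
  rw [← this, ← Nat.card_eq_fintype_card]; rfl
theorem cardU : Nat.card UW = 64 := by
  have : Fintype.card {w : W // w.d = false} = 64 := by decide +kernel
  rw [← this, ← Nat.card_eq_fintype_card]; rfl

theorem A_sq : ∀ w : W, inA w → w * w = 1 := by decide +kernel
theorem B_sq : ∀ w : W, inB w → w * w = 1 := by decide +kernel
theorem U_sq : ∀ w : W, w.d = false → inZ (w * w) := by decide +kernel
theorem Z_sq : ∀ w : W, inZ w → w * w = 1 := by decide +kernel
theorem ZU : ∀ w : W, inZ w → ∀ u : W, u.d = false → w * u = u * w := by decide +kernel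
theorem A_norm : ∀ w : W, inA w → ∀ g : W, inA (g * w * g⁻¹) := by decide +kernel
theorem B_norm : ∀ w : W, inB w → ∀ g : W, inB (g * w * g⁻¹) := by decide +kernel
theorem Z_of : ∀ w : W, inA w → inB w → inZ w := by decide +kernel
theorem A_of : ∀ w : W, inZ w → inA w := by decide +kernel
theorem B_of : ∀ w : W, inZ w → inB w := by decide +kernel
theorem AU : ∀ w : W, inA w → w.d = false := by decide +kernel
theorem BU : ∀ w : W, inB w → w.d = false := by decide +kernel
theorem Zc : ∀ w : W, inZ w → w = 1 ∨ w = z ∨ w = z1 ∨ w = z2 := by decide +kernel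
theorem z_cen : ∀ w : W, w * z = z * w := by decide +kernel

/-- a normal elementary abelian subgroup of order 16 is `A` or `B` -/
theorem P2 (V : Subgroup W) (hV : ∀ v ∈ V, ∀ g : W, g * v * g⁻¹ ∈ V) (hsq : ∀ v ∈ V, v * v = 1)
    (hc : Nat.card V = 16) : V = AW ∨ V = BW := by
  have hcomm : ∀ a ∈ V, ∀ b ∈ V, a * b = b * a := by
    intro a ha b hb
    have h1 : a⁻¹ = a := inv_eq_of_mul_eq_one_left (hsq a ha)
    have h2 : b⁻¹ = b := inv_eq_of_mul_eq_one_left (hsq b hb)
    have h3 : (a * b)⁻¹ = a * b := inv_eq_of_mul_eq_one_left (hsq _ (V.mul_mem ha hb))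
    rw [mul_inv_rev, h1, h2] at h3
    exact h3.symm
  have h1 : ∀ v ∈ V, inA v ∨ inB v := fun v hv =>
    L1 v (hsq v hv) (fun g => hcomm _ (hV v hv g) _ hv)
  by_cases h : V ≤ AW
  · left; exact Subgroup.eq_of_le_of_card_ge h (by rw [hc, cardA])
  · right
    obtain ⟨v, hv, hvA⟩ := SetLike.not_le_iff_exists.1 h
    have hvB : v ∈ BW := (h1 v hv).resolve_left hvA
    refine Subgroup.eq_of_le_of_card_ge ?_ (by rw [hc, cardB])
    intro u hu
    by_contra huB
    have huA : u ∈ AW := (h1 u hu).resolve_right huB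
    rcases h1 _ (V.mul_mem hu hv) with h2 | h2
    · exact hvA ((Subgroup.mul_mem_cancel_left AW huA).1 h2)
    · exact huB ((Subgroup.mul_mem_cancel_right BW hvB).1 h2)

theorem s1A : inA s1 := by decide
theorem s1nB : ¬ inB s1 := by decide

/-- an automorphism permutes `{A, B}` -/
theorem alpha_AB (α : W →* W) (hα : Function.Injective α) :
    ((∀ w, inA w → inA (α w)) ∧ (∀ w, inB w → inB (α w))) ∨
      ((∀ w, inA w → inB (α w)) ∧ (∀ w, inB w → inA (α w))) := by
  have hsurj : Function.Surjective α := Finite.surjective_of_injective hα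
  have key : ∀ V : Subgroup W, (∀ v ∈ V, ∀ g : W, g * v * g⁻¹ ∈ V) → (∀ v ∈ V, v * v = 1) →
      Nat.card V = 16 → V.map α = AW ∨ V.map α = BW := by
    intro V h1 h2 h3
    apply P2
    · rintro _ ⟨v, hv, rfl⟩ g
      obtain ⟨g', rfl⟩ := hsurj g
      exact ⟨g' * v * g'⁻¹, h1 v hv g', by simp⟩
    · rintro _ ⟨v, hv, rfl⟩
      rw [← map_mul, h2 v hv, map_one]
    · rw [Subgroup.card_map_of_injective hα, h3]
  have hA := key AW A_norm A_sq cardA
  have hB := key BW B_norm B_sq cardB
  have hne : AW.map α ≠ BW.map α := by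
    intro h
    have := Subgroup.map_injective hα h
    exact s1nB (by rw [← mem_BW, ← this]; exact s1A)
  rcases hA with hA | hA <;> rcases hB with hB | hB
  · exact absurd (hA.trans hB.symm) hne
  · left
    refine ⟨fun w hw => ?_, fun w hw => ?_⟩
    · have : α w ∈ AW.map α := ⟨w, hw, rfl⟩
      rw [hA] at this; exact this
    · have : α w ∈ BW.map α := ⟨w, hw, rfl⟩
      rw [hB] at this; exact this
  · right
    refine ⟨fun w hw => ?_, fun w hw => ?_⟩
    · have : α w ∈ AW.map α := ⟨w, hw, rfl⟩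
      rw [hA] at this; exact this
    · have : α w ∈ BW.map α := ⟨w, hw, rfl⟩
      rw [hB] at this; exact this
  · exact absurd (hA.trans hB.symm) hne

theorem z_ne : z ≠ 1 := by decide
theorem z1_ne : z1 ≠ 1 := by decide
theorem z1_ne_z : z1 ≠ z := by decide
theorem z1A : inA z1 := by decide
theorem z1B : inB z1 := by decide

theorem alpha_z (α : W →* W) (hα : Function.Injective α) : α z = z := by
  have hsurj : Function.Surjective α := Finite.surjective_of_injective hα
  have h := L3 (α z) (fun g => by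
    obtain ⟨g', rfl⟩ := hsurj g
    rw [← map_mul, ← map_mul, z_cen])
  rcases h with h | h
  · exact absurd (hα (h.trans (map_one α).symm)) z_ne
  · exact h

theorem alpha_z1 (α : W →* W) (hα : Function.Injective α) : α z1 = z1 ∨ α z1 = z2 := by
  have h1 : inZ (α z1) := by
    rcases alpha_AB α hα with ⟨h1, h2⟩ | ⟨h1, h2⟩
    · exact Z_of _ (h1 _ z1A) (h2 _ z1B)
    · exact Z_of _ (h2 _ z1B) (h1 _ z1A)
  rcases Zc _ h1 with h | h | h | h
  · exact absurd (hα (h.trans (map_one α).symm)) z1_ne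
  · exact absurd (hα (h.trans (alpha_z α hα).symm)) z1_ne_z
  · exact Or.inl h
  · exact Or.inr h

theorem dec : ∀ w : W, w.d = false → w = (cond w.x.a s1 1) * (cond w.x.b t1 1) * (cond w.x.c z1 1) *
    (cond w.y.a s2 1) * (cond w.y.b t2 1) * (cond w.y.c z2 1) := by decide +kernel

theorem t1s : ∀ S : W, inA S → S.x.a = true → S.y.a = false → ∃ ζ, inZ ζ ∧ S = s1 * ζ := by decide +kernel
theorem t2s : ∀ S : W, inA S → S.y.a = true → S.x.a = false → ∃ ζ, inZ ζ ∧ S = s2 * ζ := by decide +kernel
theorem t3s : ∀ S : W, inB S → S.x.b = true → S.y.b = false → ∃ ζ, inZ ζ ∧ S = t1 * ζ := by decide +kernel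
theorem t4s : ∀ S : W, inB S → S.y.b = true → S.x.b = false → ∃ ζ, inZ ζ ∧ S = t2 * ζ := by decide +kernel

/-- an automorphism fixing `A`, `B` and `z1` is trivial on `U/Z` -/
theorem type1 (α : W →* W) (hα : Function.Injective α) (hA : ∀ w, inA w → inA (α w))
    (hB : ∀ w, inB w → inB (α w)) (hz : α z1 = z1) :
    ∀ w : W, w.d = false → ∃ ζ, inZ ζ ∧ α w = w * ζ := by
  have hz2 : α z2 = z2 := by
    have e : z2 = z1 * z := by decide
    rw [e, map_mul, hz, alpha_z α hα]
  have e1 : α t1 * α s1 = α s1 * α t1 * z1 := by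
    rw [← map_mul, show t1 * s1 = s1 * t1 * z1 by decide, map_mul, map_mul, hz]
  have e2 : α t2 * α s2 = α s2 * α t2 * z2 := by
    rw [← map_mul, show t2 * s2 = s2 * t2 * z2 by decide, map_mul, map_mul, hz2]
  have e3 : α t2 * α s1 = α s1 * α t2 := by
    rw [← map_mul, show t2 * s1 = s1 * t2 by decide, map_mul]
  have e4 : α t1 * α s2 = α s2 * α t1 := by
    rw [← map_mul, show t1 * s2 = s2 * t1 by decide, map_mul]
  have as1 := hA s1 (by decide)
  have as2 := hA s2 (by decide)
  have bt1 := hB t1 (by decide)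
  have bt2 := hB t2 (by decide)
  have f1 := L7a _ as1 _ bt1 e1
  have f2 := L7b _ as2 _ bt2 e2
  have f3 := L7c _ as1 _ bt2 e3
  have f4 := L7c _ as2 _ bt1 e4
  have g1 : (α s1).y.a = false := by
    rcases f3.2 with h | h
    · exact h
    · rw [f2.2.1] at h; exact absurd h (by decide)
  have g2 : (α t2).x.b = false := by
    rcases f3.1 with h | h
    · rw [f1.1] at h; exact absurd h (by decide)
    · exact h
  have g3 : (α s2).x.a = false := by
    rcases f4.1 with h | h
    · exact h
    · rw [f1.2.1] at h; exact absurd h (by decide)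
  have g4 : (α t1).y.b = false := by
    rcases f4.2 with h | h
    · rw [f2.1] at h; exact absurd h (by decide)
    · exact h
  have q1 := t1s _ as1 f1.1 g1
  have q2 := t2s _ as2 f2.1 g3
  have q3 := t3s _ bt1 f1.2.1 g4
  have q4 := t4s _ bt2 f2.2.1 g2
  have qone : ∃ ζ, inZ ζ ∧ α 1 = 1 * ζ := ⟨1, by decide, by rw [map_one, one_mul]⟩
  have qz1 : ∃ ζ, inZ ζ ∧ α z1 = z1 * ζ := ⟨1, by decide, by rw [hz, mul_one]⟩
  have qz2 : ∃ ζ, inZ ζ ∧ α z2 = z2 * ζ := ⟨1, by decide, by rw [hz2, mul_one]⟩
  have qmul : ∀ u v : W, v.d = false → (∃ ζ, inZ ζ ∧ α u = u * ζ) → (∃ ζ, inZ ζ ∧ α v = v * ζ) →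
      ∃ ζ, inZ ζ ∧ α (u * v) = u * v * ζ := by
    rintro u v hv ⟨ζ, h1, h2⟩ ⟨η, h3, h4⟩
    refine ⟨ζ * η, ZW.mul_mem h1 h3, ?_⟩
    rw [map_mul, h2, h4]
    calc u * ζ * (v * η) = u * (ζ * v) * η := by group
      _ = u * (v * ζ) * η := by rw [ZU ζ h1 v hv]
      _ = u * v * (ζ * η) := by group
  intro w hw
  rw [dec w hw]
  have cd : ∀ (b : Bool) (g : W), g.d = false → (cond b g 1).d = false := by
    intro b g hg; cases b <;> simp [hg] <;> rfl
  have cq : ∀ (b : Bool) (g : W), (∃ ζ, inZ ζ ∧ α g = g * ζ) → ∃ ζ, inZ ζ ∧ α (cond b g 1) = (cond b g 1) * ζ := by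
    intro b g hg; cases b
    · exact qone
    · exact hg
  refine qmul _ _ (cd _ _ (by decide)) ?_ (cq _ _ qz2)
  refine qmul _ _ (cd _ _ (by decide)) ?_ (cq _ _ q4)
  refine qmul _ _ (cd _ _ (by decide)) ?_ (cq _ _ q2)
  refine qmul _ _ (cd _ _ (by decide)) ?_ (cq _ _ qz1)
  refine qmul _ _ (cd _ _ (by decide)) (cq _ _ q1) (cq _ _ q3)

/-- the automorphism swapping `s` and `t` -/
def sigD (x : D) : D := ⟨x.b, x.a, xor x.c (x.a && x.b)⟩
theorem sigD_mul : ∀ x y : D, sigD (x * y) = sigD x * sigD y := by decide +kernel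
def sig : W →* W where
  toFun w := ⟨sigD w.x, sigD w.y, w.d⟩
  map_one' := by decide
  map_mul' := by
    rintro ⟨x, y, d⟩ ⟨x', y', d'⟩
    cases d <;> simp [W.mul_def, sigD_mul]
theorem sig_sig : ∀ w : W, sig (sig w) = w := by decide +kernel
theorem sig_inj : Function.Injective sig := by
  intro a b h
  rw [← sig_sig a, h, sig_sig]
theorem sig_A : ∀ w : W, inA w → inB (sig w) := by decide +kernel
theorem sig_B : ∀ w : W, inB w → inA (sig w) := by decide +kernel

end H25.Wr
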