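import Cfsg.Agent.Lib.H25.WrC
import Cfsg.Agent.Lib.H25.Sec4
import Cfsg.Prelude.Def_CaseTheorems

/-! `D8 wr C2` inside a 2-group of sectional rank at most 4. -/

set_option autoImplicit false

namespace H25.Wr
open Subgroup

variable {S : Type*} [Group S] [Finite S] (ν : W →* S) (hν : Function.Injective ν)
include hν

/-- the rank contradiction -/
theorem rankR (hr : Cfsg.SectionalPRankLE 2 4 S) {y : S} (hy : ∀ w : W, w.d = false → y ≠ ν w)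
    (h1 : ∀ w : W, w.d = false → ∃ ζ, inZ ζ ∧ y * ν w * y⁻¹ = ν (w * ζ))
    (h2 : ∃ ζ, inZ ζ ∧ y * y = ν ζ) : False := by
  obtain ⟨ζ₀, hζ₀, hyy⟩ := h2
  have hyinv : y⁻¹ = ν ζ₀⁻¹ * y := by
    rw [map_inv, ← hyy]; group
  have hswap : ∀ w : W, w.d = false → ∃ w', w'.d = false ∧ (∃ ζ, inZ ζ ∧ w' = w * ζ) ∧ y * ν w = ν w' * y := by
    intro w hw
    obtain ⟨ζ, hζ, e⟩ := h1 w hw
    refine ⟨w * ζ, UW.mul_mem hw (AU _ (A_of _ hζ)), ⟨ζ, hζ, rfl⟩, ?_⟩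
    rw [← e]; group
  let Y : Subgroup S :=
  { carrier := {g | (∃ w : W, w.d = false ∧ g = ν w) ∨ (∃ w : W, w.d = false ∧ g = ν w * y)}
    one_mem' := Or.inl ⟨1, by decide, (map_one ν).symm⟩
    mul_mem' := by
      rintro a b (⟨w, hw, rfl⟩ | ⟨w, hw, rfl⟩) (⟨v, hv, rfl⟩ | ⟨v, hv, rfl⟩)
      · exact Or.inl ⟨w * v, UW.mul_mem hw hv, (map_mul ν w v).symm⟩
      · exact Or.inr ⟨w * v, UW.mul_mem hw hv, by rw [map_mul, mul_assoc]⟩
      · obtain ⟨v', hv', -, e⟩ := hswap v hv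
        refine Or.inr ⟨w * v', UW.mul_mem hw hv', ?_⟩
        rw [map_mul, mul_assoc, e, mul_assoc]
      · obtain ⟨v', hv', -, e⟩ := hswap v hv
        refine Or.inl ⟨w * v' * ζ₀, UW.mul_mem (UW.mul_mem hw hv') (AU _ (A_of _ hζ₀)), ?_⟩
        calc ν w * y * (ν v * y) = ν w * (y * ν v) * y := by group
          _ = ν w * ν v' * (y * y) := by rw [e]; group
          _ = _ := by rw [hyy, map_mul, map_mul]
    inv_mem' := by
      rintro a (⟨w, hw, rfl⟩ | ⟨w, hw, rfl⟩)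
      · exact Or.inl ⟨w⁻¹, UW.inv_mem hw, (map_inv ν w).symm⟩
      · obtain ⟨v', hv', -, e⟩ := hswap w⁻¹ (UW.inv_mem hw)
        refine Or.inr ⟨ζ₀⁻¹ * v', UW.mul_mem (UW.inv_mem (AU _ (A_of _ hζ₀))) hv', ?_⟩
        rw [mul_inv_rev, hyinv, ← map_inv, mul_assoc, e, map_mul, mul_assoc] }
  have hYU : ∀ w : W, w.d = false → ν w ∈ Y := fun w hw => Or.inl ⟨w, hw, rfl⟩
  have hyY : y ∈ Y := Or.inr ⟨1, by decide, by rw [map_one, one_mul]⟩
  have hcard : 128 ≤ Nat.card Y := by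
    have h3 : UW.map ν < Y := by
      refine lt_of_le_of_ne ?_ ?_
      · rintro _ ⟨w, hw, rfl⟩; exact hYU w hw
      · intro h
        rw [← h] at hyY
        obtain ⟨w, hw, e⟩ := hyY
        exact hy w hw e.symm
    have h4 := H25.Sec4.two_mul_card_le h3
    rw [Subgroup.card_map_of_injective hν, cardU] at h4
    omega
  -- squares
  have hsq : ∀ g ∈ Y, g * g ∈ ZW.map ν := by
    rintro g (⟨w, hw, rfl⟩ | ⟨w, hw, rfl⟩)
    · exact ⟨w * w, U_sq w hw, map_mul ν w w⟩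
    · obtain ⟨w', hw', ⟨ζ, hζ, rfl⟩, e⟩ := hswap w hw
      refine ⟨w * w * ζ * ζ₀, ZW.mul_mem (ZW.mul_mem (U_sq w hw) hζ) hζ₀, ?_⟩
      calc ν (w * w * ζ * ζ₀) = ν w * ν (w * ζ) * ν ζ₀ := by rw [← map_mul, ← map_mul]; congr 1; group
        _ = ν w * (ν (w * ζ) * y) * y := by rw [← hyy]; group
        _ = _ := by rw [← e]; group
  have hnorm : ∀ g ∈ Y, ∀ x ∈ ZW.map ν, g * x * g⁻¹ ∈ ZW.map ν := by
    have hyn : ∀ ζ, inZ ζ → y * ν ζ * y⁻¹ ∈ ZW.map ν := by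
      intro ζ hζ
      obtain ⟨η, hη, e⟩ := h1 ζ (AU _ (A_of _ hζ))
      exact ⟨ζ * η, ZW.mul_mem hζ hη, e.symm⟩
    have hun : ∀ w : W, w.d = false → ∀ x ∈ ZW.map ν, ν w * x * (ν w)⁻¹ ∈ ZW.map ν := by
      rintro w hw _ ⟨ζ, hζ, rfl⟩
      refine ⟨ζ, hζ, ?_⟩
      rw [← map_inv, ← map_mul, ← map_mul, ← ZU ζ hζ w hw, mul_inv_cancel_right]
    rintro g (⟨w, hw, rfl⟩ | ⟨w, hw, rfl⟩) x hx
    · exact hun w hw x hx
    · have : y * x * y⁻¹ ∈ ZW.map ν := by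
        obtain ⟨ζ, hζ, rfl⟩ := hx
        exact hyn ζ hζ
      have h5 := hun w hw _ this
      have e : ν w * y * x * (ν w * y)⁻¹ = ν w * (y * x * y⁻¹) * (ν w)⁻¹ := by group
      rw [e]; exact h5
  have hZY : ZW.map ν ≤ Y := by
    rintro _ ⟨w, hw, rfl⟩; exact hYU w (AU _ (A_of _ hw))
  haveI hN : ((ZW.map ν).subgroupOf Y).Normal := by
    refine ⟨fun n hn g => ?_⟩
    rw [mem_subgroupOf] at hn ⊢
    exact hnorm g g.2 n hn
  have h3 := hr Y ((ZW.map ν).subgroupOf Y)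
  have hq : ∀ q : Y ⧸ (ZW.map ν).subgroupOf Y, q * q = 1 := by
    intro q
    obtain ⟨g, rfl⟩ := QuotientGroup.mk_surjective q
    rw [← QuotientGroup.mk_mul, QuotientGroup.eq_one_iff, mem_subgroupOf]
    exact hsq g g.2
  have h4 := h3 ⊤ (by
    refine ⟨⟨fun a b => ?_⟩⟩
    have hh := H25.Sec4.comm_of_sq (A := (⊤ : Subgroup (Y ⧸ (ZW.map ν).subgroupOf Y))) (fun a _ => hq a)
    exact Subtype.ext (hh a.1 a.2 b.1 b.2)) (fun a _ => by rw [sq]; exact hq a)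
  rw [Subgroup.card_top] at h4
  have h5 := Subgroup.card_eq_card_quotient_mul_card_subgroup ((ZW.map ν).subgroupOf Y)
  have h6 : Nat.card ((ZW.map ν).subgroupOf Y) = 4 := by
    rw [Nat.card_congr (Subgroup.subgroupOfEquivOfLe hZY).toEquiv, Subgroup.card_map_of_injective hν, cardZ]
  rw [h6] at h5
  have : (2:ℕ) ^ 4 = 16 := by norm_num
  omega

end H25.Wr
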