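import Cfsg.Agent.Lib.H25.WrD

set_option autoImplicit false

namespace H25.Wr
open Subgroup

variable {S : Type*} [Group S] [Finite S]

/-- induction on `U` -/
theorem Ugen (C : W → Prop) (h1 : C 1) (hm : ∀ u v : W, v.d = false → C u → C v → C (u * v))
    (hs1 : C s1) (ht1 : C t1) (hz1 : C z1) (hs2 : C s2) (ht2 : C t2) (hz2 : C z2) :
    ∀ w : W, w.d = false → C w := by
  intro w hw
  rw [dec w hw]
  have cd : ∀ (b : Bool) (g : W), g.d = false → (cond b g 1).d = false := by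
    intro b g hg
    cases b
    · rfl
    · exact hg
  have cq : ∀ (b : Bool) (g : W), C g → C (cond b g 1) := by
    intro b g hg; cases b
    · exact h1
    · exact hg
  refine hm _ _ (cd _ _ (by decide)) ?_ (cq _ _ hz2)
  refine hm _ _ (cd _ _ (by decide)) ?_ (cq _ _ ht2)
  refine hm _ _ (cd _ _ (by decide)) ?_ (cq _ _ hs2)
  refine hm _ _ (cd _ _ (by decide)) ?_ (cq _ _ hz1)
  exact hm _ _ (cd _ _ (by decide)) (cq _ _ hs1) (cq _ _ ht1)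

/-- the centralizer of `A` is `A` -/
theorem cent (hS : IsPGroup 2 S) (hr : Cfsg.SectionalPRankLE 2 4 S) (ν : W →* S)
    (hν : Function.Injective ν) {x : S} (hx : ∀ w, inA w → ν w * x = x * ν w) : ∃ w, inA w ∧ x = ν w := by
  by_contra hcon
  have hAc : ∀ w w', inA w → inA w' → w * w' = w' * w := by
    intro w w' h h'
    exact H25.Sec4.comm_of_sq (A := AW) A_sq w h w' h'
  set X : Subgroup S := AW.map ν with hX
  set Y : Subgroup S := centralizer (X : Set S) with hY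
  have hYm : ∀ y : S, y ∈ Y ↔ ∀ w, inA w → ν w * y = y * ν w := by
    intro y
    rw [hY, mem_centralizer_iff]
    constructor
    · intro h w hw; exact h _ ⟨w, hw, rfl⟩
    · rintro h _ ⟨w, hw, rfl⟩; exact h w hw
  have hXY : X < Y := by
    refine lt_of_le_of_ne ?_ ?_
    · rintro _ ⟨w, hw, rfl⟩
      rw [hYm]
      intro w' hw'
      rw [← map_mul, hAc _ _ hw' hw, map_mul]
    · intro h
      have : x ∈ Y := (hYm x).2 hx
      rw [← h] at this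
      obtain ⟨w, hw, e⟩ := this
      exact hcon ⟨w, hw, e.symm⟩
  have hRX : ∀ r ∈ Set.range ν, ∀ x ∈ X, r * x * r⁻¹ ∈ X := by
    rintro _ ⟨g, rfl⟩ _ ⟨w, hw, rfl⟩
    exact ⟨g * w * g⁻¹, A_norm w hw g, by rw [map_mul, map_mul, map_inv]⟩
  have hRY : ∀ r ∈ Set.range ν, ∀ y ∈ Y, r * y * r⁻¹ ∈ Y := by
    rintro _ ⟨g, rfl⟩ y hy
    rw [hYm] at hy ⊢
    intro w hw
    have h1 := hy (g⁻¹ * w * g⁻¹⁻¹) (A_norm w hw g⁻¹)
    rw [inv_inv, map_mul, map_mul, map_inv] at h1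
    calc ν w * (ν g * y * (ν g)⁻¹) = ν g * (((ν g)⁻¹ * ν w * ν g) * y) * (ν g)⁻¹ := by group
      _ = _ := by rw [h1]; group
  obtain ⟨d, hdY, hdX, hd⟩ := H25.Sec4.FP hS hXY (Set.range ν) hRX hRY
  -- powers
  have hXc : ∀ v ∈ X, ∀ y ∈ Y, v * y = y * v := by
    rintro _ ⟨w, hw, rfl⟩ y hy
    exact (hYm y).1 hy w hw
  have hpow : ∀ n : ℕ, ∀ r ∈ Set.range ν, (d ^ n)⁻¹ * (r * d ^ n * r⁻¹) ∈ X := by
    intro n r hr
    induction n with
    | zero => simp [X.one_mem]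
    | succ n ih =>
      have h1 := hXc _ (hd r hr) (d ^ n)⁻¹ (Y.inv_mem (Y.pow_mem hdY n))
      have e : (d ^ (n + 1))⁻¹ * (r * d ^ (n + 1) * r⁻¹) =
          (d ^ n)⁻¹ * (d⁻¹ * (r * d * r⁻¹)) * (r * d ^ n * r⁻¹) := by
        rw [show d ^ (n + 1) = d * d ^ n from pow_succ' d n]; group
      rw [e, ← h1, mul_assoc]
      exact X.mul_mem (hd r hr) ih
  obtain ⟨k, hk⟩ := hS d
  have hex : ∃ k, d ^ 2 ^ k ∈ X := ⟨k, by rw [hk]; exact X.one_mem⟩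
  classical
  let m := Nat.find hex
  have hm : d ^ 2 ^ m ∈ X := Nat.find_spec hex
  have hm0 : m ≠ 0 := by
    intro h0
    rw [h0, pow_zero, pow_one] at hm
    exact hdX hm
  obtain ⟨j, hj⟩ := Nat.exists_eq_succ_of_ne_zero hm0
  have hjX : d ^ 2 ^ j ∉ X := Nat.find_min hex (show j < Nat.find hex by change j < m; omega)
  set y := d ^ 2 ^ j with hy
  have hyy : y * y ∈ X := by
    rw [hy, ← pow_two, ← pow_mul, ← pow_succ, ← Nat.succ_eq_add_one, ← hj]; exact hm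
  have hyY : y ∈ Y := Y.pow_mem hdY _
  have hyr : ∀ w : W, ∃ v, inA v ∧ ν w * y * (ν w)⁻¹ = y * ν v := by
    intro w
    obtain ⟨v, hv, e⟩ := hpow (2 ^ j) (ν w) ⟨w, rfl⟩
    exact ⟨v, hv, by rw [e, hy]; group⟩
  have hyc : ∀ w, inA w → ν w * y = y * ν w := (hYm y).1 hyY
  -- the square of y is in Z
  obtain ⟨q, hq, eq⟩ := hyy
  have hqc : ∀ g : W, g * q = q * g := by
    intro g
    obtain ⟨v, hv, e⟩ := hyr g
    have h1 : ν g * ν q * (ν g)⁻¹ = ν q := by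
      calc ν g * ν q * (ν g)⁻¹ = (ν g * y * (ν g)⁻¹) * (ν g * y * (ν g)⁻¹) := by rw [eq]; group
        _ = y * (ν v * y) * ν v := by rw [e]; group
        _ = (y * y) * ν (v * v) := by rw [hyc v hv, map_mul]; group
        _ = ν q := by rw [A_sq v hv, map_one, mul_one, eq]
    have h2 : ν (g * q) = ν (q * g) := by
      rw [map_mul, map_mul]
      exact eq_mul_of_mul_inv_eq h1
    exact hν h2
  have hqZ : inZ q := by
    rcases L3 q hqc with h | h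
    · rw [h]; decide
    · rw [h]; decide
  -- commutators with t1, t2
  obtain ⟨w1, hw1, e1⟩ := hyr t1
  obtain ⟨w2, hw2, e2⟩ := hyr t2
  have c1 : w1 * (t1 * w1 * t1⁻¹) = 1 := by
    apply hν
    have h1 : ν t1 * ν t1 = 1 := by rw [← map_mul, show t1 * t1 = 1 by decide, map_one]
    have h2 : ν t1 * (ν t1 * y * (ν t1)⁻¹) * (ν t1)⁻¹ = y := by
      calc ν t1 * (ν t1 * y * (ν t1)⁻¹) * (ν t1)⁻¹ = (ν t1 * ν t1) * y * (ν t1 * ν t1)⁻¹ := by group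
        _ = y := by rw [h1]; group
    rw [e1] at h2
    have h3 : ν t1 * (y * ν w1) * (ν t1)⁻¹ = y * ν w1 * (ν t1 * ν w1 * (ν t1)⁻¹) := by
      calc ν t1 * (y * ν w1) * (ν t1)⁻¹ = (ν t1 * y * (ν t1)⁻¹) * (ν t1 * ν w1 * (ν t1)⁻¹) := by group
        _ = _ := by rw [e1]
    rw [h3, mul_assoc] at h2
    have h4 := mul_eq_left.1 h2
    rw [map_one, map_mul, map_mul, map_mul, map_inv]
    exact h4
  have c2 : w2 * (t2 * w2 * t2⁻¹) = 1 := by
    apply hν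
    have h1 : ν t2 * ν t2 = 1 := by rw [← map_mul, show t2 * t2 = 1 by decide, map_one]
    have h2 : ν t2 * (ν t2 * y * (ν t2)⁻¹) * (ν t2)⁻¹ = y := by
      calc ν t2 * (ν t2 * y * (ν t2)⁻¹) * (ν t2)⁻¹ = (ν t2 * ν t2) * y * (ν t2 * ν t2)⁻¹ := by group
        _ = y := by rw [h1]; group
    rw [e2] at h2
    have h3 : ν t2 * (y * ν w2) * (ν t2)⁻¹ = y * ν w2 * (ν t2 * ν w2 * (ν t2)⁻¹) := by
      calc ν t2 * (y * ν w2) * (ν t2)⁻¹ = (ν t2 * y * (ν t2)⁻¹) * (ν t2 * ν w2 * (ν t2)⁻¹) := by group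
        _ = _ := by rw [e2]
    rw [h3, mul_assoc] at h2
    have h4 := mul_eq_left.1 h2
    rw [map_one, map_mul, map_mul, map_mul, map_inv]
    exact h4
  have c3 : w1 * (t1 * w2 * t1⁻¹) = w2 * (t2 * w1 * t2⁻¹) := by
    apply hν
    have h0 : ν t1 * ν t2 = ν t2 * ν t1 := by rw [← map_mul, ← map_mul, show t1 * t2 = t2 * t1 by decide]
    have h1 : ν t1 * (ν t2 * y * (ν t2)⁻¹) * (ν t1)⁻¹ = ν t2 * (ν t1 * y * (ν t1)⁻¹) * (ν t2)⁻¹ := by
      calc ν t1 * (ν t2 * y * (ν t2)⁻¹) * (ν t1)⁻¹ = (ν t1 * ν t2) * y * (ν t1 * ν t2)⁻¹ := by group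
        _ = (ν t2 * ν t1) * y * (ν t2 * ν t1)⁻¹ := by rw [h0]
        _ = _ := by group
    rw [e1, e2] at h1
    have h2 : ν t1 * (y * ν w2) * (ν t1)⁻¹ = y * (ν w1 * (ν t1 * ν w2 * (ν t1)⁻¹)) := by
      calc ν t1 * (y * ν w2) * (ν t1)⁻¹ = (ν t1 * y * (ν t1)⁻¹) * (ν t1 * ν w2 * (ν t1)⁻¹) := by group
        _ = _ := by rw [e1]; group
    have h3 : ν t2 * (y * ν w1) * (ν t2)⁻¹ = y * (ν w2 * (ν t2 * ν w1 * (ν t2)⁻¹)) := by
      calc ν t2 * (y * ν w1) * (ν t2)⁻¹ = (ν t2 * y * (ν t2)⁻¹) * (ν t2 * ν w1 * (ν t2)⁻¹) := by group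
        _ = _ := by rw [e2]; group
    rw [h2, h3] at h1
    have h4 := mul_left_cancel h1
    rw [map_mul, map_mul, map_mul, map_inv, map_mul, map_mul, map_mul, map_inv]
    exact h4
  obtain ⟨hz1, hz2⟩ := L6 w1 hw1 c1 w2 hw2 c2 c3
  -- conjugation action of y on U
  have Q : ∀ g : W, g.d = false → (∃ ζ, inZ ζ ∧ ν g * y * (ν g)⁻¹ = y * ν ζ) →
      ∃ ζ, inZ ζ ∧ y * ν g * y⁻¹ = ν (g * ζ) := by
    rintro g hg ⟨ζ, hζ, e⟩
    refine ⟨ζ⁻¹, ZW.inv_mem hζ, ?_⟩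
    have hc : ν ζ * y = y * ν ζ := hyc ζ (A_of _ hζ)
    have h1 : ν g * y = y * ν ζ * ν g := by rw [← e]; group
    have h2 : y * ν g = (ν ζ)⁻¹ * (ν g * y) := by
      rw [h1, ← hc]; group
    have hgz : g * ζ⁻¹ = ζ⁻¹ * g := (ZU _ (ZW.inv_mem hζ) g hg).symm
    rw [hgz, map_mul, map_inv, h2]; group
  have hU : ∀ w : W, w.d = false → ∃ ζ, inZ ζ ∧ y * ν w * y⁻¹ = ν (w * ζ) := by
    refine Ugen (fun w => ∃ ζ, inZ ζ ∧ y * ν w * y⁻¹ = ν (w * ζ)) ?_ ?_ ?_ ?_ ?_ ?_ ?_ ?_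
    · exact ⟨1, by decide, by rw [map_one, mul_one, mul_one, mul_inv_cancel, map_one]⟩
    · rintro u v hv ⟨ζ, h1, h2⟩ ⟨η, h3, h4⟩
      refine ⟨ζ * η, ZW.mul_mem h1 h3, ?_⟩
      have e : u * v * (ζ * η) = (u * ζ) * (v * η) := by
        calc u * v * (ζ * η) = u * (v * ζ) * η := by group
          _ = u * (ζ * v) * η := by rw [ZU ζ h1 v hv]
          _ = _ := by group
      rw [e, map_mul ν (u * ζ) (v * η), ← h2, ← h4, map_mul ν u v]; group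
    · exact ⟨1, by decide, by rw [mul_one, ← hyc s1 (by decide)]; group⟩
    · exact Q t1 (by decide) ⟨w1, hz1, e1⟩
    · exact ⟨1, by decide, by rw [mul_one, ← hyc z1 (by decide)]; group⟩
    · exact ⟨1, by decide, by rw [mul_one, ← hyc s2 (by decide)]; group⟩
    · exact Q t2 (by decide) ⟨w2, hz2, e2⟩
    · exact ⟨1, by decide, by rw [mul_one, ← hyc z2 (by decide)]; group⟩
  refine rankR ν hν hr (y := y) ?_ hU ⟨q, hqZ, eq.symm⟩
  intro w hw e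
  apply hjX
  have h1 : inA w := L2 w (fun a ha => by
    apply hν
    rw [map_mul, map_mul, ← e]
    exact hyc a ha)
  exact ⟨w, h1, e.symm⟩

end H25.Wr
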