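import Cfsg.Agent.Lib.H25.WrE

set_option autoImplicit false

namespace H25.Wr
open Subgroup

variable {S : Type*} [Group S] [Finite S]

/-- conjugation by an element normalizing the image -/
theorem exists_alpha (ν : W →* S) (hν : Function.Injective ν) {y : S}
    (hy : ∀ w : W, ∃ w', y * ν w * y⁻¹ = ν w') :
    ∃ α : W →* W, Function.Injective α ∧ ∀ w, y * ν w * y⁻¹ = ν (α w) := by
  choose f hf using hy
  refine ⟨{ toFun := f, map_one' := ?_, map_mul' := ?_ }, ?_, hf⟩
  · apply hν; rw [← hf, map_one]; group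
  · intro a b
    apply hν; rw [map_mul, ← hf, ← hf, ← hf, map_mul]; group
  · intro a b h
    have h' : f a = f b := h
    apply hν
    have := (hf a).trans (by rw [h', ← hf b])
    exact mul_left_cancel (mul_right_cancel this)

/-- cent for `B` -/
theorem centB (hS : IsPGroup 2 S) (hr : Cfsg.SectionalPRankLE 2 4 S) (ν : W →* S)
    (hν : Function.Injective ν) {x : S} (hx : ∀ w, inB w → ν w * x = x * ν w) : ∃ w, inB w ∧ x = ν w := by
  obtain ⟨w, hw, e⟩ := cent hS hr (ν.comp sig) (hν.comp sig_inj) (x := x) (fun w hw => hx _ (sig_A w hw))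
  exact ⟨sig w, sig_A w hw, e⟩

/-- an element normalizing `P`, `A`, `B` and centralizing `z1` is in `U`-/
theorem norm_aux (hS : IsPGroup 2 S) (hr : Cfsg.SectionalPRankLE 2 4 S) (ν : W →* S)
    (hν : Function.Injective ν) {y : S} (α : W →* W) (hα : Function.Injective α)
    (hy : ∀ w, y * ν w * y⁻¹ = ν (α w)) (hA : ∀ w, inA w → inA (α w)) (hB : ∀ w, inB w → inB (α w))
    (hz : α z1 = z1) : ∃ w, y = ν w := by
  by_contra hcon
  have hT := type1 α hα hA hB hz
  have hfixZ : ∀ ζ, inZ ζ → α ζ = ζ := by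
    have hz2 : α z2 = z2 := by
      have e : z2 = z1 * z := by decide
      rw [e, map_mul, hz, alpha_z α hα]
    intro ζ hζ
    rcases Zc ζ hζ with rfl | rfl | rfl | rfl
    · exact map_one α
    · exact alpha_z α hα
    · exact hz
    · exact hz2
  have hyy : ∀ w : W, w.d = false → ν w * (y * y) = (y * y) * ν w := by
    intro w hw
    obtain ⟨ζ, hζ, e⟩ := hT w hw
    have h1 : (y * y) * ν w * (y * y)⁻¹ = ν w := by
      calc (y * y) * ν w * (y * y)⁻¹ = y * (y * ν w * y⁻¹) * y⁻¹ := by group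
        _ = ν (α (α w)) := by rw [hy, hy]
        _ = ν w := by
          rw [e, map_mul, e, hfixZ ζ hζ, mul_assoc, Z_sq ζ hζ, mul_one]
    calc ν w * (y * y) = ((y * y) * ν w * (y * y)⁻¹) * (y * y) := by rw [h1]
      _ = _ := by group
  obtain ⟨a, ha, ea⟩ := cent hS hr ν hν (x := y * y) (fun w hw => hyy w (AU w hw))
  obtain ⟨b, hb, eb⟩ := centB hS hr ν hν (x := y * y) (fun w hw => hyy w (BU w hw))
  have hab : a = b := hν (ea.symm.trans eb)
  refine rankR ν hν hr (y := y) (fun w _ e => hcon ⟨w, e⟩) ?_ ⟨a, Z_of a ha (by rw [hab]; exact hb), ea⟩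
  intro w hw
  obtain ⟨ζ, hζ, e⟩ := hT w hw
  exact ⟨ζ, hζ, by rw [hy, e]⟩

theorem tau_z1 : tau * z1 * tau⁻¹ = z2 := by decide

/-- an element normalizing `P` and `A` is in `P` -/
theorem norm_aux2 (hS : IsPGroup 2 S) (hr : Cfsg.SectionalPRankLE 2 4 S) (ν : W →* S)
    (hν : Function.Injective ν) {y : S} (α : W →* W) (hα : Function.Injective α)
    (hy : ∀ w, y * ν w * y⁻¹ = ν (α w)) (hA : ∀ w, inA w → inA (α w)) : ∃ w, y = ν w := by
  have hB : ∀ w, inB w → inB (α w) := by
    rcases alpha_AB α hα with ⟨-, h⟩ | ⟨h, -⟩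
    · exact h
    · exfalso
      -- α s1 lies in A and B, so does α of all of A: contradiction with injectivity
      have h1 : ∀ w, inA w → inZ (α w) := fun w hw => Z_of _ (hA w hw) (h w hw)
      have h2 : AW.map α ≤ ZW := by rintro _ ⟨w, hw, rfl⟩; exact h1 w hw
      have h3 := Subgroup.card_le_of_le h2
      rw [Subgroup.card_map_of_injective hα, cardA, cardZ] at h3
      omega
  rcases alpha_z1 α hα with hz | hz
  · exact norm_aux hS hr ν hν α hα hy hA hB hz
  · -- replace y by y τ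
    have hc : ∀ w, (y * ν tau) * ν w * (y * ν tau)⁻¹ = ν ((α.comp (MulAut.conj tau).toMonoidHom) w) := by
      intro w
      have e : (α.comp (MulAut.conj tau).toMonoidHom) w = α (tau * w * tau⁻¹) := rfl
      rw [e, ← hy, map_mul, map_mul, map_inv]; group
    obtain ⟨w, e⟩ := norm_aux hS hr ν hν (α.comp (MulAut.conj tau).toMonoidHom)
      (hα.comp (MulAut.conj tau).injective) hc
      (fun w hw => hA _ (A_norm w hw tau)) (fun w hw => hB _ (B_norm w hw tau)) (by
        show α (tau * z1 * tau⁻¹) = z1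
        rw [tau_z1, show z2 = z1 * z by decide, map_mul, hz, alpha_z α hα]; decide)
    exact ⟨w * tau⁻¹, by rw [map_mul, ← e, map_inv]; group⟩

/-- `N_S(A) = P` -/
theorem normA (hS : IsPGroup 2 S) (hr : Cfsg.SectionalPRankLE 2 4 S) (ν : W →* S)
    (hν : Function.Injective ν) : normalizer ((AW.map ν : Subgroup S) : Set S) = ν.range := by
  have hle : ν.range ≤ normalizer ((AW.map ν : Subgroup S) : Set S) := by
    rintro _ ⟨g, rfl⟩
    rw [mem_normalizer_iff]
    intro x
    constructor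
    · rintro ⟨w, hw, rfl⟩
      exact ⟨g * w * g⁻¹, A_norm w hw g, by rw [map_mul, map_mul, map_inv]⟩
    · rintro ⟨w, hw, e⟩
      refine ⟨g⁻¹ * w * g⁻¹⁻¹, A_norm w hw g⁻¹, ?_⟩
      rw [map_mul, map_mul, e, inv_inv, map_inv]; group
  by_contra hne
  have hlt : ν.range < normalizer ((AW.map ν : Subgroup S) : Set S) := lt_of_le_of_ne hle (Ne.symm hne)
  haveI : Fact (Nat.Prime 2) := ⟨Nat.prime_two⟩
  have h1 := H28.RelSyl.lt_inf_normalizer_of_isPGroup (hS.to_subgroup _) hlt
  obtain ⟨y, hy, hyP⟩ := SetLike.exists_of_lt h1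
  obtain ⟨α, hα, hyα⟩ := exists_alpha ν hν (y := y) (fun w => by
    obtain ⟨w', e⟩ := ((mem_normalizer_iff.1 hy.2) (ν w)).1 ⟨w, rfl⟩
    exact ⟨w', e.symm⟩)
  obtain ⟨w, e⟩ := norm_aux2 hS hr ν hν α hα hyα (fun w hw => by
    obtain ⟨w', hw', e⟩ := ((mem_normalizer_iff.1 hy.1) (ν w)).1 ⟨w, hw, rfl⟩
    have : w' = α w := hν (e.trans (hyα w))
    rw [← this]; exact hw')
  exact hyP ⟨w, e.symm⟩

/-- `N_S(B) = P` -/
theorem normB (hS : IsPGroup 2 S) (hr : Cfsg.SectionalPRankLE 2 4 S) (ν : W →* S)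
    (hν : Function.Injective ν) : normalizer ((BW.map ν : Subgroup S) : Set S) = ν.range := by
  have h := normA hS hr (ν.comp sig) (hν.comp sig_inj)
  have e1 : AW.map (ν.comp sig) = BW.map ν := by
    rw [← Subgroup.map_map]
    congr 1
    ext w
    constructor
    · rintro ⟨v, hv, rfl⟩; exact sig_A v hv
    · intro hw; exact ⟨sig w, sig_B w hw, sig_sig w⟩
  have e2 : (ν.comp sig).range = ν.range := by
    ext x
    constructor
    · rintro ⟨w, rfl⟩; exact ⟨sig w, rfl⟩
    · rintro ⟨w, rfl⟩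
      refine ⟨sig w, ?_⟩
      show ν (sig (sig w)) = ν w
      rw [sig_sig]
  rw [e1, e2] at h
  exact h

end H25.Wr
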