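import Cfsg.Agent.Lib.H25.WrF
import Cfsg.Prelude.Def_Transfer

set_option autoImplicit false

namespace H25.Wr
open Subgroup

variable {S : Type*} [Group S] [Finite S]

theorem L9 : ∀ w : W, w * tau = tau * w → w * (s1 * s2) = (s1 * s2) * w → w * (t1 * t2) = (t1 * t2) * w →
    w * z1 = z1 * w → w = 1 ∨ w = z := by decide +kernel

theorem center_iff (hS : IsPGroup 2 S) (hr : Cfsg.SectionalPRankLE 2 4 S) (ν : W →* S)
    (hν : Function.Injective ν) (x : S) : x ∈ center S ↔ x = 1 ∨ x = ν z := by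
  have h1 : ∀ x ∈ center S, x = 1 ∨ x = ν z := by
    intro x hx
    rw [mem_center_iff] at hx
    obtain ⟨w, -, rfl⟩ := cent hS hr ν hν (x := x) (fun w _ => hx (ν w))
    rcases L3 w (fun g => hν (by rw [map_mul, map_mul, hx])) with h | h
    · left; rw [h, map_one]
    · right; rw [h]
  refine ⟨h1 x, ?_⟩
  haveI : Fact (Nat.Prime 2) := ⟨Nat.prime_two⟩
  haveI : Nontrivial S := ⟨⟨ν z, 1, fun h => z_ne (hν (h.trans (map_one ν).symm))⟩⟩
  have h2 : Nontrivial (center S) := hS.center_nontrivial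
  obtain ⟨⟨c, hc⟩, hc1⟩ := exists_ne (1 : center S)
  have hc' : c ≠ 1 := fun h => hc1 (Subtype.ext h)
  rintro (rfl | rfl)
  · exact (center S).one_mem
  · rcases h1 c hc with h | h
    · exact absurd h hc'
    · rw [← h]; exact hc

theorem core_aux (hS : IsPGroup 2 S) (hr : Cfsg.SectionalPRankLE 2 4 S) (ν : W →* S)
    (hν : Function.Injective ν) {m : S} (hm : ∀ w : W, ∃ w', m * ν w * m⁻¹ = ν w')
    (hc : ∀ w : W, m * ν (w * tau * w⁻¹) = ν (w * tau * w⁻¹) * m) : m = 1 ∨ m = ν z := by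
  have hmul : ∀ a b : W, m * ν a = ν a * m → m * ν b = ν b * m → m * ν (a * b) = ν (a * b) * m := by
    intro a b ha hb
    rw [map_mul, ← mul_assoc, ha, mul_assoc, hb, mul_assoc]
  have hinv : ∀ a : W, m * ν a = ν a * m → m * ν a⁻¹ = ν a⁻¹ * m := by
    intro a ha
    rw [map_inv, eq_inv_mul_iff_mul_eq, ← mul_assoc, ← ha]; group
  have c0 : m * ν tau = ν tau * m := by simpa using hc 1
  have c1 : m * ν (s1 * s2) = ν (s1 * s2) * m := by
    rw [show s1 * s2 = tau * (s1 * tau * s1⁻¹) by decide]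
    exact hmul _ _ c0 (hc s1)
  have c2 : m * ν (t1 * t2) = ν (t1 * t2) * m := by
    rw [show t1 * t2 = tau * (t1 * tau * t1⁻¹) by decide]
    exact hmul _ _ c0 (hc t1)
  have c3 : m * ν z1 = ν z1 * m := by
    rw [show z1 = (s1 * s2) * (t1 * t2) * (tau * ((s1 * t1) * tau * (s1 * t1)⁻¹))⁻¹ by decide]
    exact hmul _ _ (hmul _ _ c1 c2) (hinv _ (hmul _ _ c0 (hc (s1 * t1))))
  by_cases hP : ∃ w, m = ν w
  · obtain ⟨w, rfl⟩ := hP
    have tr : ∀ a : W, ν w * ν a = ν a * ν w → w * a = a * w := by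
      intro a ha; apply hν; rw [map_mul, map_mul, ha]
    rcases L9 w (tr _ c0) (tr _ c1) (tr _ c2) (tr _ c3) with h | h
    · left; rw [h, map_one]
    · right; rw [h]
  · exfalso
    obtain ⟨α, hα, hy⟩ := exists_alpha ν hν hm
    have h2 : α (s1 * s2) = s1 * s2 := by
      apply hν
      rw [← hy, c1]; group
    rcases alpha_AB α hα with ⟨hA, -⟩ | ⟨hA, -⟩
    · exact hP (norm_aux2 hS hr ν hν α hα hy hA)
    · have h3 := hA (s1 * s2) (by decide)
      rw [h2] at h3
      exact absurd h3 (by decide)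

theorem cardC : Nat.card {w : W // tau * w = w * tau} = 16 := by
  rw [Nat.card_eq_fintype_card, L5]

theorem main (hS : IsPGroup 2 S) (hr : Cfsg.SectionalPRankLE 2 4 S) (ν : W →* S)
    (hν : Function.Injective ν) (hlt : ν.range ≠ ⊤) :
    Nat.card (center S) = 2 ∧ ν.range.relIndex (normalizer (ν.range : Set S)) = 2 ∧
    (∃ (_ : ((center S).subgroupOf (normalizer (ν.range : Set S))).Normal) (T : Sylow 2 (Equiv.Perm (Fin 8))),
      Nonempty (↥(normalizer (ν.range : Set S)) ⧸ (center S).subgroupOf (normalizer (ν.range : Set S)) ≃*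
        ↥(T : Subgroup (Equiv.Perm (Fin 8))))) := by
  have hcen := center_iff hS hr ν hν
  have hνz : ν z ≠ 1 := fun h => z_ne (hν (h.trans (map_one ν).symm))
  have hc2 : Nat.card (center S) = 2 := by
    rw [Nat.card_eq_two_iff]
    refine ⟨1, ⟨ν z, (hcen _).2 (Or.inr rfl)⟩, fun h => hνz (congrArg Subtype.val h).symm, ?_⟩
    rw [Set.eq_univ_iff_forall]
    rintro ⟨x, hx⟩
    rcases (hcen x).1 hx with rfl | rfl
    · left; rfl
    · right; rfl
  haveI : Fact (Nat.Prime 2) := ⟨Nat.prime_two⟩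
  set N : Subgroup S := normalizer (ν.range : Set S) with hNdef
  have hN : ∀ y ∈ N, ∀ w : W, ∃ w', y * ν w * y⁻¹ = ν w' := by
    intro y hy w
    obtain ⟨w', e⟩ := ((mem_normalizer_iff.1 hy) (ν w)).1 ⟨w, rfl⟩
    exact ⟨w', e.symm⟩
  have hPN : ν.range ≤ N := Subgroup.le_normalizer
  have htype : ∀ y ∈ N, y ∉ ν.range → ∃ α : W →* W, Function.Injective α ∧ (∀ w, y * ν w * y⁻¹ = ν (α w)) ∧
      (∀ w, inA w → inB (α w)) ∧ (∀ w, inB w → inA (α w)) := by
    intro y hy hyP
    obtain ⟨α, hα, e⟩ := exists_alpha ν hν (hN y hy)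
    refine ⟨α, hα, e, ?_⟩
    rcases alpha_AB α hα with ⟨hA, -⟩ | h
    · exfalso
      obtain ⟨w, e'⟩ := norm_aux2 hS hr ν hν α hα e hA
      exact hyP ⟨w, e'.symm⟩
    · exact h
  obtain ⟨u, huN, huP⟩ : ∃ u ∈ N, u ∉ ν.range := by
    have h1 : ν.range < (⊤ : Subgroup S) := lt_top_iff_ne_top.2 hlt
    have h2 := H28.RelSyl.lt_inf_normalizer_of_isPGroup (hS.to_subgroup _) h1
    rw [top_inf_eq] at h2
    obtain ⟨u, h3, h4⟩ := SetLike.exists_of_lt h2
    exact ⟨u, h3, h4⟩
  obtain ⟨αu, hαu, hαue, hαuA, hαuB⟩ := htype u huN huP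
  have hmulP : ∀ b ∈ N, b ∉ ν.range → b * u ∈ ν.range := by
    intro b hb hbP
    obtain ⟨β, hβ, hβe, hβA, hβB⟩ := htype b hb hbP
    obtain ⟨w, e⟩ := norm_aux2 hS hr ν hν (y := b * u) (β.comp αu) (hβ.comp hαu) (fun w => by
      show b * u * ν w * (b * u)⁻¹ = ν (β (αu w))
      rw [← hβe, ← hαue]; group) (fun w hw => hβB _ (hαuA w hw))
    exact ⟨w, e.symm⟩
  have hidx : ν.range.relIndex N = 2 := by
    show (ν.range.subgroupOf N).index = 2
    rw [Subgroup.index_eq_two_iff]
    refine ⟨⟨u, huN⟩, fun b => ?_⟩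
    rw [mem_subgroupOf, mem_subgroupOf]
    by_cases hb : (b : S) ∈ ν.range
    · right
      refine ⟨hb, fun h => huP ?_⟩
      exact (Subgroup.mul_mem_cancel_left _ hb).1 h
    · left
      exact ⟨hmulP b b.2 hb, hb⟩
  have hcP : Nat.card ν.range = 128 := by
    rw [← Nat.card_congr (MonoidHom.ofInjective hν).toEquiv, cardWN]
  have hcN : Nat.card N = 256 := by
    have := H25.MacW.cardRel hPN
    rw [hcP, hidx] at this
    omega
  refine ⟨hc2, hidx, ?_⟩
  -- the subgroup `L`
  let ν' : W →* ↥N := ν.codRestrict N (fun w => hPN ⟨w, rfl⟩)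
  have hν' : Function.Injective ν' := fun a b h => hν (congrArg Subtype.val h)
  let L : Subgroup ↥N := centralizer {ν' tau}
  let K : Subgroup ↥N := ν'.range
  have hmL : ∀ x : ↥N, x ∈ L ↔ ν' tau * x = x * ν' tau := by
    intro x
    exact mem_centralizer_singleton_iff.trans ⟨fun h => h.symm, fun h => h.symm⟩
  -- an element of `L` outside `K`
  obtain ⟨v, hvL, hvK⟩ : ∃ v ∈ L, v ∉ K := by
    have h1 : (αu tau).d = true := by
      by_contra h
      rw [Bool.not_eq_true] at h
      have h2 : UW.map αu ≤ UW := by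
        rintro _ ⟨w, hw, rfl⟩
        refine Ugen (fun w => (αu w) ∈ UW) ?_ ?_ ?_ ?_ ?_ ?_ ?_ ?_ w hw
        · rw [map_one]; exact UW.one_mem
        · intro a b _ ha hb; rw [map_mul]; exact UW.mul_mem ha hb
        · exact BU _ (hαuA _ (by decide))
        · exact AU _ (hαuB _ (by decide))
        · exact AU _ (hαuB _ (by decide))
        · exact BU _ (hαuA _ (by decide))
        · exact AU _ (hαuB _ (by decide))
        · exact AU _ (hαuB _ (by decide))
      have h3 : UW.map αu = UW := Subgroup.eq_of_le_of_card_ge h2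
        (le_of_eq (Subgroup.card_map_of_injective hαu).symm)
      have h4 : αu tau ∈ UW.map αu := by rw [h3]; exact h
      obtain ⟨w, hw, e⟩ := h4
      rw [hαu e] at hw
      have hw' : tau.d = false := hw
      exact absurd hw' (by decide)
    obtain ⟨g, hg⟩ := L4 (αu tau) h1 (by rw [← map_mul, show tau * tau = 1 by decide, map_one])
    refine ⟨(ν' g)⁻¹ * ⟨u, huN⟩, ?_, ?_⟩
    · rw [hmL]
      apply Subtype.ext
      show ν tau * ((ν g)⁻¹ * u) = (ν g)⁻¹ * u * ν tau
      have h2 := hαue tau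
      rw [hg, map_mul, map_mul, map_inv] at h2
      calc ν tau * ((ν g)⁻¹ * u) = (ν g)⁻¹ * (ν g * ν tau * (ν g)⁻¹) * u := by group
        _ = _ := by rw [← h2]; group
    · rintro ⟨w, e⟩
      have e' : ν w = (ν g)⁻¹ * u := congrArg Subtype.val e
      exact huP ⟨g * w, by rw [map_mul, e']; group⟩
  have hKcard : Nat.card K = 128 := by
    rw [← Nat.card_congr (MonoidHom.ofInjective hν').toEquiv, cardWN]
  have hLK : Nat.card (L ⊓ K : Subgroup ↥N) = 16 := by
    let C : Subgroup W := centralizer {tau}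
    have h1 : (L ⊓ K : Subgroup ↥N) = C.map ν' := by
      ext x
      constructor
      · rintro ⟨h1, w, rfl⟩
        refine ⟨w, ?_, rfl⟩
        have h2 := (hmL _).1 h1
        rw [← map_mul, ← map_mul] at h2
        exact mem_centralizer_singleton_iff.2 (hν' h2).symm
      · rintro ⟨w, hw, rfl⟩
        refine ⟨?_, w, rfl⟩
        show ν' w ∈ L
        rw [hmL, ← map_mul, ← map_mul, mem_centralizer_singleton_iff.1 hw]
    rw [h1, Subgroup.card_map_of_injective hν', ← cardC]
    apply Nat.card_congr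
    refine Equiv.subtypeEquivRight (fun w => ?_)
    exact mem_centralizer_singleton_iff.trans ⟨fun h => h.symm, fun h => h.symm⟩
  have hKN : ∀ x y : ↥N, x ∉ K → y ∉ K → x * y ∈ K := by
    intro x y hx hy
    have h1 : Nat.card (⊤ : Subgroup ↥N) = 2 * Nat.card K := by
      rw [Subgroup.card_top, hcN, hKcard]
    exact H25.Sec4.idx2 le_top h1 (mem_top x) (mem_top y) hx hy
  have hLcard : Nat.card L = 32 := by
    have h1 := H25.MacW.card_half (K := K) (H := L) (fun x _ y _ hx hy => hKN x y hx hy)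
    have h2 : (L ⊓ K : Subgroup ↥N) < L := lt_of_le_of_ne inf_le_left (fun h => hvK (by
      have : v ∈ L ⊓ K := by rw [h]; exact hvL
      exact this.2))
    have h3 := H25.Sec4.two_mul_card_le h2
    rw [hLK] at h1 h3
    omega
  have hLidx : L.index = 8 := by
    have := Subgroup.card_mul_index L
    rw [hLcard, hcN] at this
    omega
  have hcore : (center S).subgroupOf N = L.normalCore := by
    apply le_antisymm
    · haveI : ((center S).subgroupOf N).Normal := by
        refine ⟨fun n hn g => ?_⟩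
        rw [mem_subgroupOf] at hn ⊢
        exact (inferInstance : (center S).Normal).conj_mem n hn g
      rw [Subgroup.normal_le_normalCore]
      intro x hx
      rw [mem_subgroupOf, mem_center_iff] at hx
      rw [hmL]
      exact Subtype.ext (hx (ν tau))
    · intro m hm
      rw [mem_subgroupOf, hcen]
      have h1 : ∀ g : ↥N, g * m * g⁻¹ ∈ L := fun g =>
        Subgroup.normalCore_le _ ((Subgroup.normalCore_normal L).conj_mem m hm g)
      refine core_aux hS hr ν hν (hN m m.2) (fun w => ?_)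
      have h2 := (hmL _).1 (h1 (ν' w)⁻¹)
      have h3 : ν tau * ((ν w)⁻¹ * (m : S) * (ν w)) = ((ν w)⁻¹ * (m : S) * (ν w)) * ν tau := by
        rw [inv_inv] at h2
        exact congrArg Subtype.val h2
      rw [map_mul, map_mul, map_inv]
      calc (m : S) * (ν w * ν tau * (ν w)⁻¹) = ν w * (((ν w)⁻¹ * (m : S) * (ν w)) * ν tau) * (ν w)⁻¹ := by group
        _ = _ := by rw [← h3]; group
  refine Perm8 L _ hcore hLidx ?_
  have h4 : Nat.card ((center S).subgroupOf N) = 2 := by
    have h5 : center S ≤ N := by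
      intro x hx
      rcases (hcen x).1 hx with rfl | rfl
      · exact N.one_mem
      · exact hPN ⟨z, rfl⟩
    rw [Nat.card_congr (Subgroup.subgroupOfEquivOfLe h5).toEquiv, hc2]
  rw [h4, hcN]

end H25.Wr
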